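import Cfsg.Agent.Lib.Fusion.Functor
import Cfsg.Agent.Lib.Fusion.Rigid
import Cfsg.Agent.Lib.Coprime.Conj
import Cfsg.Agent.Lib.OddLocal.UniqueP
import Cfsg.Agent.Lib.PGroups.Parts
import Cfsg.Agent.Lib.Basic.Core

/-!
# `p`-th powers of central elements and characteristic functors with quadratic elements
-/

set_option autoImplicit false
set_option linter.unusedSectionVars false
set_option linter.style.haveILetI false

universe u

namespace Cfsg.Agent.Lib.Fusion2.FunctorPow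

open Cfsg Cfsg.FusionSystem Cfsg.Agent.Lib.Fusion Subgroup
open scoped commutatorElement

variable {p : ℕ} [hpf : Fact p.Prime]

section group

variable {L : Type*} [Group L] [Finite L]

/-- A quadratic element with `p`-th power in `O_p` centralizes the `p`-th powers of elements of `Z(O_p)`. -/
theorem commute_pow_of_quadratic {H : Subgroup L} {g : L} (hHc : ∀ a ∈ H, ∀ b ∈ H, a * b = b * a)
    (hHn : ∀ a ∈ H, ∀ t : L, t * a * t⁻¹ ∈ H) (hgQ : g ^ p ∈ centralizer (H : Set L))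
    (hq : ⁅⁅H, zpowers g⁆, zpowers g⁆ = ⊥) {a : L} (ha : a ∈ H) : g * a ^ p * g⁻¹ = a ^ p := by
  have hb : ⁅a, g⁆ ∈ ⁅H, zpowers g⁆ := commutator_mem_commutator ha (mem_zpowers g)
  have hbH : ⁅a, g⁆ ∈ H := by
    have e : ⁅a, g⁆ = a * (g * a⁻¹ * g⁻¹) := by
      rw [commutatorElement_def]
      group
    rw [e]
    exact H.mul_mem ha (hHn a⁻¹ (H.inv_mem ha) g)
  have hb2 : ⁅⁅a, g⁆, g⁆ = 1 := by
    have : ⁅⁅a, g⁆, g⁆ ∈ ⁅⁅H, zpowers g⁆, zpowers g⁆ := commutator_mem_commutator hb (mem_zpowers g)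
    rwa [hq, mem_bot] at this
  have hbg : ⁅a, g⁆ * g = g * ⁅a, g⁆ := commutatorElement_eq_one_iff_mul_comm.1 hb2
  obtain ⟨c, hc⟩ : ∃ c, c = ⁅a, g⁆⁻¹ := ⟨_, rfl⟩
  have hcH : c ∈ H := hc ▸ H.inv_mem hbH
  have hcg : g * c * g⁻¹ = c := by
    have h0 : ∀ b : L, b * g = g * b → g * b⁻¹ * g⁻¹ = b⁻¹ := by
      intro b hb
      rw [← conj_inv, ← hb]
      simp
    rw [hc]
    exact h0 _ hbg
  have hga : g * a * g⁻¹ = c * a := by
    rw [hc, commutatorElement_def]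
    group
  have hiter : ∀ k : ℕ, g ^ k * a * (g ^ k)⁻¹ = c ^ k * a := by
    intro k
    induction k with
    | zero => simp
    | succ k ih =>
      have e : g ^ (k + 1) * a * (g ^ (k + 1))⁻¹ = g * (g ^ k * a * (g ^ k)⁻¹) * g⁻¹ := by
        rw [pow_succ']
        group
      rw [e, ih]
      have e2 : g * (c ^ k * a) * g⁻¹ = (g * c ^ k * g⁻¹) * (g * a * g⁻¹) := by group
      rw [e2, ← conj_pow, hcg, hga, pow_succ]
      group
  have h1 := hiter p
  have h2 : g ^ p * a * (g ^ p)⁻¹ = a := by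
    have := mem_centralizer_iff.1 hgQ a ha
    rw [← this]
    group
  rw [h2] at h1
  have hcp : c ^ p = 1 := by
    have : c ^ p * a = 1 * a := by rw [← h1, one_mul]
    exact mul_right_cancel this
  have hcomm : Commute c a := hHc c hcH a ha
  rw [← conj_pow, hga, hcomm.mul_pow, hcp, one_mul]

end group

theorem central_of_hq (W : ∀ (Q : Type u) [Group Q], Subgroup Q)
    (hW2 : ∀ (Q R : Type u) [Group Q] [Group R] [Finite Q], IsPGroup p Q → ∀ φ : Q ≃* R, (W Q).map φ.toMonoidHom = W R)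
    (hq : ∀ (G : Type u) [Group G] [Finite G] (P : Sylow p G), ¬ (((W ↥(P : Subgroup G)).map (P : Subgroup G).subtype : Subgroup G)).Normal → ∃ g : G, g ∈ (P : Subgroup G) ∧ g ∉ Cfsg.pCore p G ∧ ⁅⁅Subgroup.center ↥(Cfsg.pCore p G) |>.map (Cfsg.pCore p G).subtype, Subgroup.zpowers g⁆, Subgroup.zpowers g⁆ = ⊥) :
    ∀ (n : ℕ) (L : Type u) [Group L] [Finite L] (P : Sylow p L), Nat.card L = n →
      centralizer ((pCore p L : Subgroup L) : Set L) ≤ pCore p L → ∀ y ∈ (P : Subgroup L), (∀ t ∈ (P : Subgroup L), t * y = y * t) →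
      (∀ g ∈ normalizer (((W ↥(P : Subgroup L)).map (P : Subgroup L).subtype : Subgroup L) : Set L), g * y ^ p * g⁻¹ = y ^ p) →
      ∀ g : L, g * y ^ p * g⁻¹ = y ^ p := by
  intro n
  induction n using Nat.strong_induction_on with
  | _ n IH =>
  intro L _ _ P hn hc y hy hyc hN g
  classical
  by_cases hY : (((W ↥(P : Subgroup L)).map (P : Subgroup L).subtype : Subgroup L)).Normal
  · exact hN g (by rw [Subgroup.normalizer_eq_top_iff.2 hY]; exact mem_top g)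
  obtain ⟨g₀, hg₀P, hg₀Q, hquad⟩ := hq L P hY
  obtain ⟨Q, hQdef⟩ : ∃ Q : Subgroup L, Q = pCore p L := ⟨_, rfl⟩
  rw [← hQdef] at hc hg₀Q
  have hQn : Q.Normal := hQdef ▸ Cfsg.Agent.Lib.Basic.pCore_normal (G := L) p
  have hQp : IsPGroup p Q := hQdef ▸ Cfsg.Agent.Lib.Basic.pCore_isPGroup (G := L) p
  have hQP : Q ≤ P := hQdef ▸ Cfsg.Agent.Lib.Basic.pCore_le_sylow P
  have hQmax : ∀ N : Subgroup L, N.Normal → IsPGroup p N → N ≤ Q := fun N h1 h2 =>
    hQdef ▸ Cfsg.Agent.Lib.Basic.le_pCore h1 h2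
  rw [← hQdef] at hquad
  obtain ⟨H, hHdef⟩ : ∃ H : Subgroup L, H = (Subgroup.center ↥Q).map Q.subtype := ⟨_, rfl⟩
  rw [← hHdef] at hquad
  have hHmem : ∀ a, a ∈ H ↔ a ∈ Q ∧ ∀ q ∈ Q, q * a = a * q := by
    intro a
    rw [hHdef]
    constructor
    · rintro ⟨x, hx, rfl⟩
      refine ⟨x.2, fun q hq => ?_⟩
      have := Subgroup.mem_center_iff.1 hx ⟨q, hq⟩
      exact congrArg Subtype.val this
    · rintro ⟨h1, h2⟩
      refine ⟨⟨a, h1⟩, Subgroup.mem_center_iff.2 fun q => Subtype.ext (h2 q q.2), rfl⟩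
  have hHc : ∀ a ∈ H, ∀ b ∈ H, a * b = b * a := fun a ha b hb => ((hHmem b).1 hb).2 a ((hHmem a).1 ha).1
  have hHn : ∀ a ∈ H, ∀ t : L, t * a * t⁻¹ ∈ H := by
    intro a ha t
    obtain ⟨h1, h2⟩ := (hHmem a).1 ha
    refine (hHmem _).2 ⟨hQn.conj_mem a h1 t, fun q hq => ?_⟩
    have h3 := h2 (t⁻¹ * q * t) (by simpa using hQn.conj_mem q hq t⁻¹)
    calc q * (t * a * t⁻¹) = t * ((t⁻¹ * q * t) * a) * t⁻¹ := by group
      _ = t * (a * (t⁻¹ * q * t)) * t⁻¹ := by rw [h3]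
      _ = t * a * t⁻¹ * q := by group
  have hyH : y ∈ H := by
    refine (hHmem y).2 ⟨hc ?_, fun q hq => hyc q (hQP hq)⟩
    rw [mem_centralizer_iff]
    intro q hq
    exact hyc q (hQP hq)
  -- the element of order `p` modulo `O_p`
  obtain ⟨m₀, hm₀⟩ := P.isPGroup' ⟨g₀, hg₀P⟩
  have hm₀' : g₀ ^ p ^ m₀ = 1 := congrArg Subtype.val hm₀
  have hex : ∃ k, g₀ ^ p ^ k ∈ Q := ⟨m₀, by rw [hm₀']; exact Q.one_mem⟩
  have hk₀ : Nat.find hex ≠ 0 := by
    intro h0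
    have := Nat.find_spec hex
    rw [h0, pow_zero, pow_one] at this
    exact hg₀Q this
  obtain ⟨k, hk⟩ : ∃ k, Nat.find hex = k + 1 := Nat.exists_eq_succ_of_ne_zero hk₀
  obtain ⟨g₁, hg₁def⟩ : ∃ g₁, g₁ = g₀ ^ p ^ k := ⟨_, rfl⟩
  have hg₁Q : g₁ ∉ Q := by
    rw [hg₁def]
    exact Nat.find_min hex (by omega)
  have hg₁p : g₁ ^ p ∈ Q := by
    have := Nat.find_spec hex
    rw [hk, pow_succ, pow_mul] at this
    rw [hg₁def]
    exact this
  have hg₁P : g₁ ∈ (P : Subgroup L) := by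
    rw [hg₁def]
    exact (P : Subgroup L).pow_mem hg₀P _
  have hz₁ : zpowers g₁ ≤ zpowers g₀ := by
    rw [zpowers_le, hg₁def]
    exact (zpowers g₀).pow_mem (mem_zpowers g₀) _
  have hquad₁ : ⁅⁅H, zpowers g₁⁆, zpowers g₁⁆ = ⊥ := by
    rw [eq_bot_iff, ← hquad]
    exact commutator_mono (commutator_mono le_rfl hz₁) hz₁
  have hg₁c : g₁ ^ p ∈ centralizer (H : Set L) := by
    rw [mem_centralizer_iff]
    intro a ha
    exact ((hHmem a).1 ha).2 _ hg₁p |>.symm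
  have hcomm : ∀ h : L, g₁ * (h * y ^ p * h⁻¹) * g₁⁻¹ = h * y ^ p * h⁻¹ := by
    intro h
    have := commute_pow_of_quadratic hHc hHn hg₁c hquad₁ (hHn y hyH h)
    rwa [conj_pow] at this
  -- the normal closure
  obtain ⟨M, hMdef⟩ : ∃ M : Subgroup L, M = normalClosure ({g₁} : Set L) := ⟨_, rfl⟩
  haveI hMn : M.Normal := by rw [hMdef]; infer_instance
  have hg₁M : g₁ ∈ M := by
    rw [hMdef]
    exact subset_normalClosure (Set.mem_singleton g₁)
  have hMz : ∀ m ∈ M, m * y ^ p * m⁻¹ = y ^ p := by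
    have hle : M ≤ centralizer ({y ^ p} : Set L) := by
      rw [hMdef]
      refine (closure_le _).2 ?_
      intro x hx
      obtain ⟨a, ha, hc'⟩ := Group.mem_conjugatesOfSet_iff.1 hx
      obtain ⟨c, hc'⟩ := isConj_iff.1 hc'
      rw [Set.mem_singleton_iff.1 ha] at hc'
      rw [SetLike.mem_coe, mem_centralizer_iff]
      intro u hu
      rw [Set.mem_singleton_iff.1 hu, ← hc']
      have h1 := hcomm c⁻¹
      simp only [inv_inv] at h1
      have h2 : c * g₁ * c⁻¹ * y ^ p * (c * g₁ * c⁻¹)⁻¹ = c * (g₁ * (c⁻¹ * y ^ p * c) * g₁⁻¹) * c⁻¹ := by group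
      have h3 : c * g₁ * c⁻¹ * y ^ p * (c * g₁ * c⁻¹)⁻¹ = y ^ p := by
        rw [h2, h1]
        group
      calc y ^ p * (c * g₁ * c⁻¹) = (c * g₁ * c⁻¹ * y ^ p * (c * g₁ * c⁻¹)⁻¹) * (c * g₁ * c⁻¹) := by rw [h3]
        _ = c * g₁ * c⁻¹ * y ^ p := by group
    intro m hm
    have h1 := mem_centralizer_iff.1 (hle hm) (y ^ p) rfl
    rw [← h1]
    group
  -- Frattini
  have hsup : normalizer (((P : Subgroup L) ⊓ M : Subgroup L) : Set L) ⊔ M = ⊤ := by
    obtain ⟨R, hR⟩ := Cfsg.Agent.Lib.Coprime.exists_sylow_map_eq_inf P M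
    have := Sylow.normalizer_sup_eq_top R
    rwa [hR] at this
  obtain ⟨H₁, hH₁⟩ : ∃ H₁ : Subgroup L, H₁ = normalizer (((P : Subgroup L) ⊓ M : Subgroup L) : Set L) := ⟨_, rfl⟩
  rw [← hH₁] at hsup
  have hH₁top : H₁ ≠ ⊤ := by
    intro htop
    rw [hH₁] at htop
    have hnormal := Subgroup.normalizer_eq_top_iff.1 htop
    have h1 := hQmax _ hnormal (P.isPGroup'.to_le inf_le_left)
    exact hg₁Q (h1 ⟨hg₁P, hg₁M⟩)
  have hPH : (P : Subgroup L) ≤ H₁ := by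
    rw [hH₁]
    intro t ht
    apply Cfsg.Agent.Lib.PGroups.mem_normalizer_of_conj_le'
    rintro x ⟨hx1, hx2⟩
    exact ⟨(P : Subgroup L).mul_mem ((P : Subgroup L).mul_mem ht hx1) ((P : Subgroup L).inv_mem ht), hMn.conj_mem x hx2 t⟩
  have hcard : Nat.card H₁ < n := hn ▸ Cfsg.Agent.Lib.OddLocal.card_lt_of_ne_top hH₁top
  -- the functor in the smaller group
  let Ps : Sylow p H₁ := P.subtype hPH
  have hPs : (Ps : Subgroup H₁) = (P : Subgroup L).subgroupOf H₁ := Sylow.coe_subtype _ _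
  let e : ↥(Ps : Subgroup H₁) ≃* ↥(P : Subgroup L) := (MulEquiv.subgroupCongr hPs).trans (Subgroup.subgroupOfEquivOfLe hPH)
  have he : ∀ t : ↥(Ps : Subgroup H₁), ((e t : ↥(P : Subgroup L)) : L) = ((t : H₁) : L) := fun _ => rfl
  have hPsp : IsPGroup p ↥(Ps : Subgroup H₁) := Ps.isPGroup'
  have hWe := hW2 _ _ hPsp e
  have hYmap : ((W ↥(Ps : Subgroup H₁)).map (Ps : Subgroup H₁).subtype).map H₁.subtype = (W ↥(P : Subgroup L)).map (P : Subgroup L).subtype := by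
    rw [← hWe, Subgroup.map_map, Subgroup.map_map]
    rfl
  have hN' : ∀ g' ∈ normalizer (((W ↥(Ps : Subgroup H₁)).map (Ps : Subgroup H₁).subtype : Subgroup H₁) : Set H₁),
      g' * (⟨y, hPH hy⟩ : H₁) ^ p * g'⁻¹ = (⟨y, hPH hy⟩ : H₁) ^ p := by
    intro g' hg'
    apply Subtype.ext
    have h1 : (g' : L) ∈ normalizer (((W ↥(P : Subgroup L)).map (P : Subgroup L).subtype : Subgroup L) : Set L) := by
      rw [← hYmap]
      apply Cfsg.Agent.Lib.PGroups.mem_normalizer_of_conj_le'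
      rintro _ ⟨w, hw, rfl⟩
      exact ⟨g' * w * g'⁻¹, (mem_normalizer_iff.1 hg' w).1 hw, rfl⟩
    exact hN _ h1
  have hc' : centralizer ((pCore p H₁ : Subgroup H₁) : Set H₁) ≤ pCore p H₁ := by
    intro c hc₁
    have hQH : Q ≤ H₁ := hQP.trans hPH
    have hQ' : Q.subgroupOf H₁ ≤ pCore p H₁ :=
      Cfsg.Agent.Lib.Basic.le_pCore (hQn.subgroupOf H₁) (hQp.comap_subtype (K := H₁))
    have hcQ : (c : L) ∈ centralizer (Q : Set L) := by
      rw [mem_centralizer_iff]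
      intro q hq
      have := mem_centralizer_iff.1 hc₁ ⟨q, hQH hq⟩ (hQ' hq)
      exact congrArg Subtype.val this
    exact hQ' (hc hcQ)
  have hPsmem : ∀ x : H₁, x ∈ (Ps : Subgroup H₁) ↔ (x : L) ∈ (P : Subgroup L) := fun x => by
    rw [hPs, Subgroup.mem_subgroupOf]
  have hIH := IH _ hcard H₁ Ps rfl hc' ⟨y, hPH hy⟩ ((hPsmem _).2 hy)
    (fun t ht => Subtype.ext (hyc _ ((hPsmem t).1 ht))) hN'
  have hg : g ∈ H₁ ⊔ M := by
    rw [hsup]
    exact mem_top g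
  obtain ⟨h, hh, m, hm, rfl⟩ := Subgroup.mem_sup_of_normal_right.1 hg
  have h3 := congrArg Subtype.val (hIH ⟨h, hh⟩)
  have h4 : h * y ^ p * h⁻¹ = y ^ p := h3
  have e3 : h * m * y ^ p * (h * m)⁻¹ = h * (m * y ^ p * m⁻¹) * h⁻¹ := by group
  rw [e3, hMz m hm, h4]

section system

variable {W : ∀ (Q : Type u) [Group Q], Subgroup Q} {Ω : Type u} [Group Ω] {S : Subgroup Ω} {F : FusionSystem S}
variable [Finite S]

/-- The local step. -/
theorem local_step_hq (hS : IsPGroup p S) (hF : F.IsSaturated p)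
    (hW2 : ∀ (Q R : Type u) [Group Q] [Group R] [Finite Q], IsPGroup p Q → ∀ φ : Q ≃* R, (W Q).map φ.toMonoidHom = W R)
    (hWZ : ∀ (Q : Type u) [Group Q] [Finite Q], IsPGroup p Q → Subgroup.center Q ≤ W Q)
    (hq : ∀ (G : Type u) [Group G] [Finite G] (P : Sylow p G), ¬ (((W ↥(P : Subgroup G)).map (P : Subgroup G).subtype : Subgroup G)).Normal → ∃ g : G, g ∈ (P : Subgroup G) ∧ g ∉ Cfsg.pCore p G ∧ ⁅⁅Subgroup.center ↥(Cfsg.pCore p G) |>.map (Cfsg.pCore p G).subtype, Subgroup.zpowers g⁆, Subgroup.zpowers g⁆ = ⊥)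
    {y : Ω} (hyS : y ∈ S) (hyc : ∀ s ∈ S, s * y = y * s) {z : Ω} (hzdef : z = y ^ p) (hzS : z ∈ S) (hzc : ∀ s ∈ S, s * z = z * s) {U : Subgroup Ω} (hU : F.IsFullyNormalized U) (hUc : F.IsCentric U) {α : MulAut U} (hα : α ∈ F.autGroup U)
    (h : ∀ f, IsMapOn F (wOn W (normalizerIn S U)) f → IsImage f (wOn W (normalizerIn S U)) (wOn W (normalizerIn S U)) → f z = z) : fn α z = z := by
  classical
  have hUS := hU.1
  obtain ⟨E, hE⟩ := kSystem_normalizer F hUS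
  haveI hTf : Finite (normalizerIn S U) := finite_of_le (normalizerIn_le U)
  have hsat : E.IsSaturated p := isSaturated_normalizerSystem hS hF hU hE
  have hN := isNormal_normalizerSystem hUS hE
  have hCc := isCentric_normalizerSystem hUc hE
  have hSN : IsPGroup p (normalizerIn S U) := hS.to_le (normalizerIn_le U)
  have hQ : U ≤ normalizerIn S U := hN.1
  have hn : normalizerIn S U ≤ Subgroup.normalizer (U : Set Ω) := fun x hx => hx.2
  obtain ⟨L, hL, ι, hmodel⟩ := exists_model hSN ⟨hsat, U, hN, hCc⟩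
  obtain ⟨πL, hd⟩ := exists_modelData (hQ := hQ) (hn := hn) hN hCc hmodel hSN
  obtain ⟨hfin, hreal, ⟨R, hR⟩, hcen⟩ := hmodel
  have hι := hreal.1
  have hαE : α ∈ E.autGroup U := by
    rw [autGroup_normalizerSystem hUS hE]
    exact hα
  obtain ⟨g, hg⟩ := hd.surj ⟨α, hαE⟩
  have hzU : z ∈ U := by
    refine hUc.2 U (isConj_refl hUS) ⟨hzS, ?_⟩
    show z ∈ Subgroup.centralizer (U : Set Ω)
    rw [Subgroup.mem_centralizer_iff]
    intro y hy
    exact hzc y (hUS hy)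
  have hzT : z ∈ normalizerIn S U := hQ hzU
  -- the functor on `R`
  let e : ↥(normalizerIn S U) ≃* ↥(R : Subgroup L) := (MonoidHom.ofInjective hι).trans (MulEquiv.subgroupCongr hR.symm)
  have he : ∀ t, ((e t : ↥(R : Subgroup L)) : L) = ι t := fun _ => rfl
  have hW : (W ↥(normalizerIn S U)).map e.toMonoidHom = W ↥(R : Subgroup L) := hW2 _ _ hSN e
  have hmemR : ∀ y : L, y ∈ (W ↥(R : Subgroup L)).map (R : Subgroup L).subtype ↔ ∃ t : normalizerIn S U, (t : Ω) ∈ wOn W (normalizerIn S U) ∧ ι t = y := by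
    intro y
    rw [← hW]
    constructor
    · rintro ⟨_, ⟨t, ht, rfl⟩, rfl⟩
      exact ⟨t, mem_wOn.2 ⟨t.2, ht⟩, rfl⟩
    · rintro ⟨t, ht, rfl⟩
      obtain ⟨h1, h2⟩ := mem_wOn.1 ht
      exact ⟨e t, ⟨t, h2, rfl⟩, rfl⟩
  set Y : Subgroup L := (W ↥(R : Subgroup L)).map (R : Subgroup L).subtype with hY
  have hzw : (⟨z, hzT⟩ : normalizerIn S U) ∈ W ↥(normalizerIn S U) := by
    apply hWZ _ hSN
    rw [Subgroup.mem_center_iff]
    intro t
    apply Subtype.ext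
    exact hzc t ((normalizerIn_le U) t.2)
  have hzV : z ∈ wOn W (normalizerIn S U) := mem_wOn.2 ⟨hzT, hzw⟩
  have hzY : ι ⟨z, hzT⟩ ∈ Y := (hmemR _).2 ⟨_, hzV, rfl⟩
  have hYR : Y ≤ ι.range := by
    rw [← hR]
    rintro _ ⟨x, -, rfl⟩
    exact x.2
  -- the main claim
  have key : ∀ g₁ ∈ Subgroup.normalizer (Y : Set L), g₁ * ι ⟨z, hzT⟩ * g₁⁻¹ = ι ⟨z, hzT⟩ := by
    intro g₁ hg₁
    have hVT := wOn_le (W := W) (normalizerIn S U)
    have hgc : ∀ x : normalizerIn S U, (x : Ω) ∈ wOn W (normalizerIn S U) → g₁ * ι x * g₁⁻¹ ∈ ι.range := by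
      intro x hx
      have h1 : ι x ∈ Y := (hmemR _).2 ⟨x, hx, rfl⟩
      exact hYR ((Subgroup.mem_normalizer_iff.1 hg₁ _).1 h1)
    obtain ⟨β, hβ, hβv⟩ := exists_map_of_gconj hreal hVT g₁ hgc
    have hβF : IsMapOn F (wOn W (normalizerIn S U)) β := by
      obtain ⟨φ, hφ, hv⟩ := hβ
      rw [hE] at hφ
      exact ⟨φ, hφ.1, hv⟩
    have hβi : IsImage β (wOn W (normalizerIn S U)) (wOn W (normalizerIn S U)) := by
      intro y
      constructor
      · intro hy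
        have hyT := hVT hy
        have h1 : ι ⟨y, hyT⟩ ∈ Y := (hmemR _).2 ⟨⟨y, hyT⟩, hy, rfl⟩
        have h2 : g₁⁻¹ * ι ⟨y, hyT⟩ * g₁⁻¹⁻¹ ∈ Y := (Subgroup.mem_normalizer_iff.1 (Subgroup.inv_mem _ hg₁) _).1 h1
        obtain ⟨t, ht, htv⟩ := (hmemR _).1 h2
        refine ⟨t, ht, ?_⟩
        have h3 := hβv t ht
        rw [htv] at h3
        have h4 : ι (toS (normalizerIn S U) (β t)) = ι ⟨y, hyT⟩ := by
          rw [h3]
          group
        have h5 := hι h4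
        have h6 := congrArg (fun s : normalizerIn S U => (s : Ω)) h5
        simp only at h6
        rwa [coe_toS (hβ.mem_S ht)] at h6
      · rintro ⟨x, hx, rfl⟩
        have hxT := hVT hx
        have h1 : ι ⟨x, hxT⟩ ∈ Y := (hmemR _).2 ⟨⟨x, hxT⟩, hx, rfl⟩
        have h2 := (Subgroup.mem_normalizer_iff.1 hg₁ _).1 h1
        rw [← hβv ⟨x, hxT⟩ hx] at h2
        obtain ⟨t, ht, htv⟩ := (hmemR _).1 h2
        have h5 := hι htv
        have h6 := congrArg (fun s : normalizerIn S U => (s : Ω)) h5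
        simp only at h6
        rw [coe_toS (hβ.mem_S hx)] at h6
        rw [← h6]
        exact ht
    have hfix := h β hβF hβi
    have h1 := hβv ⟨z, hzT⟩ hzV
    simp only at h1
    rw [hfix, toS_of_mem hzT] at h1
    exact h1.symm
  have hyU : y ∈ U := by
    refine hUc.2 U (isConj_refl hUS) ⟨hyS, ?_⟩
    show y ∈ Subgroup.centralizer (U : Set Ω)
    rw [Subgroup.mem_centralizer_iff]
    intro x hx
    exact hyc x (hUS hx)
  have hyT : y ∈ normalizerIn S U := hQ hyU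
  have hzy : ι ⟨z, hzT⟩ = (ι ⟨y, hyT⟩) ^ p := by
    rw [← map_pow]
    congr 1
    exact Subtype.ext hzdef
  have hyR : ι ⟨y, hyT⟩ ∈ (R : Subgroup L) := by
    rw [hR]
    exact ⟨_, rfl⟩
  have hcentral := central_of_hq W hW2 hq _ L R rfl hcen (ι ⟨y, hyT⟩) hyR (by
    intro t ht
    rw [hR] at ht
    obtain ⟨s, rfl⟩ := ht
    rw [← map_mul, ← map_mul]
    congr 1
    exact Subtype.ext (hyc _ ((normalizerIn_le U) s.2))) (by
    intro g₁ hg₁
    rw [← hzy]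
    exact key g₁ hg₁)
  have h1 := hd.conj g ⟨z, hzU⟩
  have h2 : Subgroup.inclusion hQ ⟨z, hzU⟩ = ⟨z, hzT⟩ := rfl
  rw [h2] at h1
  have h3 : g * ι ⟨z, hzT⟩ * g⁻¹ = ι ⟨z, hzT⟩ := by
    rw [hzy]
    exact hcentral g
  rw [h3, hg] at h1
  have h4 := hι h1
  have h5 := congrArg (fun s : normalizerIn S U => (s : Ω)) h4
  rw [fn_of_mem _ hzU]
  exact h5.symm


/-- The theorem on `p`-th powers of central elements. -/
theorem pow_inf_center_le (hW2 : ∀ (Q R : Type u) [Group Q] [Group R] [Finite Q], IsPGroup p Q → ∀ φ : Q ≃* R, (W Q).map φ.toMonoidHom = W R)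
    (hWZ : ∀ (Q : Type u) [Group Q] [Finite Q], IsPGroup p Q → Subgroup.center Q ≤ W Q)
    (hq : ∀ (G : Type u) [Group G] [Finite G] (P : Sylow p G), ¬ (((W ↥(P : Subgroup G)).map (P : Subgroup G).subtype : Subgroup G)).Normal → ∃ g : G, g ∈ (P : Subgroup G) ∧ g ∉ Cfsg.pCore p G ∧ ⁅⁅Subgroup.center ↥(Cfsg.pCore p G) |>.map (Cfsg.pCore p G).subtype, Subgroup.zpowers g⁆, Subgroup.zpowers g⁆ = ⊥)
    (hS : IsPGroup p S) (hF : F.IsSaturated p) (N : FusionSystem (normalizerIn S ((W ↥S).map S.subtype))) (hN : F.IsNormalizerSystem ((W ↥S).map S.subtype) N) :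
    Subgroup.closure ((fun z => z ^ p) '' ((S ⊓ Subgroup.centralizer (S : Set Ω) : Subgroup Ω) : Set Ω)) ⊓ N.center ≤ F.center := by
  classical
  have hYS : wOn W S ≤ S := wOn_le S
  have hSN' : S ≤ Subgroup.normalizer ((wOn W S : Subgroup Ω) : Set Ω) := fun x hx => wOn_normalizer hS hW2 le_rfl hx (Subgroup.le_normalizer hx)
  have hNS : normalizerIn S (wOn W S) = S := le_antisymm (normalizerIn_le _) (fun x hx => ⟨hx, hSN' hx⟩)
  haveI hTf : Finite (normalizerIn S (wOn W S)) := finite_of_le (normalizerIn_le _)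
  have hcenN : N.IsCentral N.center := sSup_mem_of_closed (S := normalizerIn S (wOn W S)) {Q | N.IsCentral Q} (fun Q hQ => hQ.1) isCentral_bot (fun _ hA _ hB => isCentral_sup hA hB)
  have hpow : ∀ x ∈ Subgroup.closure ((fun z => z ^ p) '' ((S ⊓ Subgroup.centralizer (S : Set Ω) : Subgroup Ω) : Set Ω)),
      ∃ y ∈ S, (∀ s ∈ S, s * y = y * s) ∧ x = y ^ p := by
    intro x hx
    induction hx using Subgroup.closure_induction with
    | mem x hx =>
      obtain ⟨y, ⟨hy1, hy2⟩, rfl⟩ := hx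
      exact ⟨y, hy1, fun s hs => Subgroup.mem_centralizer_iff.1 hy2 s hs, rfl⟩
    | one => exact ⟨1, S.one_mem, by simp, by simp⟩
    | mul a b _ _ iha ihb =>
      obtain ⟨y₁, h1, h2, rfl⟩ := iha
      obtain ⟨y₂, h3, h4, rfl⟩ := ihb
      refine ⟨y₁ * y₂, S.mul_mem h1 h3, fun s hs => ?_, ?_⟩
      · rw [← mul_assoc, h2 s hs, mul_assoc, h4 s hs, mul_assoc]
      · have hcm : Commute y₁ y₂ := (h2 y₂ h3).symm
        exact (hcm.mul_pow p).symm
    | inv a _ iha =>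
      obtain ⟨y₁, h1, h2, rfl⟩ := iha
      refine ⟨y₁⁻¹, S.inv_mem h1, fun s hs => ?_, by simp⟩
      have h5 := h2 s hs
      calc s * y₁⁻¹ = y₁⁻¹ * (y₁ * s) * y₁⁻¹ := by group
        _ = y₁⁻¹ * (s * y₁) * y₁⁻¹ := by rw [h5]
        _ = y₁⁻¹ * s := by group
  have hQS : Subgroup.closure ((fun z => z ^ p) '' ((S ⊓ Subgroup.centralizer (S : Set Ω) : Subgroup Ω) : Set Ω)) ⊓ N.center ≤ S := by
    intro x hx
    obtain ⟨y, hy, -, rfl⟩ := hpow x hx.1
    exact S.pow_mem hy p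
  apply le_sSup
  show F.IsCentral _
  refine isCentral_of_singleton hS hF hQS (fun z hz w hw => ?_)
  obtain ⟨y, hyS, hyc, hzdef⟩ := hpow z hz.1
  have hz2 := hz.2
  have hzS : z ∈ S := hQS hz
  have hzc : ∀ s ∈ S, s * z = z * s := by
    intro s hs
    rw [hzdef]
    exact (show Commute s y from hyc s hs).pow_right p
  have hz₀ : ∀ f, IsMapOn F (wOn W S) f → IsImage f (wOn W S) (wOn W S) → f z = z := by
    intro f hf hi
    have hzY : z ∈ wOn W S := by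
      refine mem_wOn.2 ⟨hzS, hWZ _ hS ?_⟩
      rw [Subgroup.mem_center_iff]
      intro t
      apply Subtype.ext
      exact hzc t t.2
    obtain ⟨φ, hφ, hv⟩ := hf
    have hφN : φ ∈ N.Hom (wOn W S) := by
      rw [hN]
      have hle : wOn W S ⊔ wOn W S ≤ wOn W S := sup_le le_rfl le_rfl
      refine ⟨hφ, fun x hx => ⟨hYS hx, hSN' (hYS hx)⟩, fun x => ⟨val_mem hφ x, hSN' (val_mem hφ x)⟩, φ.comp (Subgroup.inclusion hle), restrict_mem hφ hle, fun x => rfl, ?_⟩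
      ext y
      constructor
      · rintro ⟨x, hx, rfl⟩
        show φ (Subgroup.inclusion hle x) ∈ wOn W S
        rw [hv]
        exact hi.mem hx
      · intro hy
        obtain ⟨x, hx, rfl⟩ := hi.exists_of_mem hy
        exact ⟨⟨x, Subgroup.mem_sup_left hx⟩, hx, hv ⟨x, hx⟩⟩
    have h1 := singleton_of_isCentral hcenN z hz2 _ (isConjElt_of_hom hφN ⟨z, hzY⟩)
    rw [← hv ⟨z, hzY⟩]
    exact h1
  have hall := fix_all hS hF hzS hzc (wOn W) (fun T hT hzT => ?_) (fun T _ => wOn_le T) (fun T hT g hg hgn => wOn_normalizer hS hW2 hT hg hgn)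
    (fun U hU hUc α hα h => local_step_hq hS hF hW2 hWZ hq hyS hyc hzdef hzS hzc hU hUc hα h) hz₀
  · obtain ⟨φ, hφ, hφy⟩ := hw
    rw [← hφy]
    exact ((fix_of_aut hS hF hzS hzc 0 (fun U h1 h2 _ α hα => hall U h1 h2 α hα) hφ (Nat.zero_le _) ⟨z, Subgroup.mem_zpowers z⟩).1 rfl)
  · refine mem_wOn.2 ⟨hzT, ?_⟩
    haveI := finite_of_le hT
    refine hWZ _ (hS.to_le hT) ?_
    rw [Subgroup.mem_center_iff]
    intro t
    apply Subtype.ext
    exact hzc t (hT t.2)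

end system

end Cfsg.Agent.Lib.Fusion2.FunctorPow
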