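/-
Strongly closed generalized extraspecial subgroups: the fusion part.
-/
import Cfsg.Agent.Lib.Fusion2.Heis

set_option autoImplicit false

namespace Cfsg.Agent.Lib.Fusion2

open Cfsg Cfsg.FusionSystem Cfsg.Agent.Lib.Fusion

section Chain4

variable {U : Type*} [Group U] [Finite U] {p : ℕ} [hp : Fact p.Prime]

/-- A chain of length four. -/
def chain4 (A B C : Subgroup U) : ℕ → Subgroup U
  | 0 => ⊥
  | 1 => A
  | 2 => B
  | 3 => C
  | _ => ⊤

/-- The group fixing `c`, `u` and acting on `D` through powers. -/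
theorem both_in_chain (hU : IsPGroup p U) {D : Subgroup U} {β₁ β₂ : MulAut U} (h1C : β₁ ∈ stabComm D) (h2C : β₂ ∈ stabComm D)
    {c u : U} (hcD : c ∈ D) (huD : u ∈ D) (h1c : β₁ c = c) (h1u : β₁ u = u) (h2c : β₂ c = c)
    (h1 : ∀ z ∈ D, ∃ k : ℕ, β₁ z = z * u ^ k) (h2 : ∀ z ∈ D, ∃ k : ℕ, β₂ z = z * c ^ k) :
    ∃ W : Subgroup (MulAut U), IsPGroup p W ∧ β₁ ∈ W ∧ β₂ ∈ W := by
  let Fx : Subgroup U :=
    { carrier := {z | z ∈ D ∧ β₁ z = z}
      one_mem' := ⟨D.one_mem, map_one _⟩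
      mul_mem' := fun ha hb => ⟨D.mul_mem ha.1 hb.1, by rw [map_mul, ha.2, hb.2]⟩
      inv_mem' := fun ha => ⟨D.inv_mem ha.1, by rw [map_inv, ha.2]⟩ }
  have hcF : c ∈ Fx := ⟨hcD, h1c⟩
  have huF : u ∈ Fx := ⟨huD, h1u⟩
  have hmono : ∀ i < 4, chain4 (Subgroup.zpowers c) Fx D i ≤ chain4 (Subgroup.zpowers c) Fx D (i + 1) := by
    intro i hi
    interval_cases i
    · exact bot_le
    · exact (Subgroup.zpowers_le (H := Fx)).2 hcF
    · exact fun z hz => hz.1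
    · exact le_top
  have hzc : ∀ (β : MulAut U), β c = c → ∀ z ∈ Subgroup.zpowers c, β z = z := by
    intro β hβ z hz
    obtain ⟨n, rfl⟩ := Subgroup.mem_zpowers_iff.1 hz
    rw [map_zpow, hβ]
  refine ⟨stabChain (chain4 (Subgroup.zpowers c) Fx D) 4 hmono,
    stabChain_isPGroup hU _ 4 rfl hmono rfl, ?_, ?_⟩
  · intro i hi x hx
    interval_cases i
    · have hx' : x ∈ Subgroup.zpowers c := hx
      rw [hzc β₁ h1c x hx', inv_mul_cancel]
      exact Subgroup.one_mem _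
    · have hx' : x ∈ Fx := hx
      rw [hx'.2, inv_mul_cancel]
      exact Subgroup.one_mem _
    · obtain ⟨k, hk⟩ := h1 x hx
      rw [hk, inv_mul_cancel_left]
      exact Subgroup.pow_mem _ huF k
    · exact h1C x
  · intro i hi x hx
    interval_cases i
    · have hx' : x ∈ Subgroup.zpowers c := hx
      rw [hzc β₂ h2c x hx', inv_mul_cancel]
      exact Subgroup.one_mem _
    · have hx' : x ∈ Fx := hx
      obtain ⟨k, hk⟩ := h2 x hx'.1
      rw [hk, inv_mul_cancel_left]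
      exact Subgroup.pow_mem _ (Subgroup.mem_zpowers c) k
    · obtain ⟨k, hk⟩ := h2 x hx
      rw [hk, inv_mul_cancel_left]
      exact Subgroup.pow_mem _ hcF k
    · exact h2C x

end Chain4

variable {Ω : Type*} [Group Ω] {S : Subgroup Ω} {F : FusionSystem S} {p : ℕ} [hp : Fact p.Prime] [Finite S]

/-- The hypotheses. -/
structure GESCtx (F : FusionSystem S) (p : ℕ) [Fact p.Prime] (P E : Subgroup Ω) (a : Ω) : Prop where
  hS : IsPGroup p S
  hF : F.IsSaturated p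
  hP : F.StronglyClosed P
  hE : F.IsEssential p E
  haP : a ∈ P
  ha1 : a ≠ 1
  hap : a ^ p = 1
  hac : ∀ s ∈ S, s * a = a * s
  hcomm : ∀ u ∈ P, ∀ v ∈ P, ∃ k : ℕ, u * v * u⁻¹ * v⁻¹ = a ^ k
  hpow : ∀ u ∈ P, ∃ k : ℕ, u ^ p = a ^ k

namespace GESCtx

variable {P E : Subgroup Ω} {a : Ω} (h : GESCtx F p P E a)

include h

theorem hES : E ≤ S := h.hE.1.1

theorem hPS : P ≤ S := h.hP.1

theorem hcent : centralizerIn S E ≤ E := h.hE.1.2 E (isConj_refl h.hES)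

theorem haS : a ∈ S := h.hPS h.haP

theorem haE : a ∈ E := by
  refine h.hcent ⟨h.haS, ?_⟩
  show a ∈ Subgroup.centralizer (E : Set Ω)
  rw [Subgroup.mem_centralizer_iff]
  intro e he
  exact h.hac e (h.hES he)

/-- The element `a` in `E`. -/
def aE : E := ⟨a, h.haE⟩

@[simp] theorem aE_coe : ((h.aE : E) : Ω) = a := rfl

theorem aE_central (e : E) : e * h.aE = h.aE * e :=
  Subtype.ext (h.hac e (h.hES e.2))

theorem aE_D : h.aE ∈ P.subgroupOf E := h.haP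

theorem aE_pow : h.aE ^ p = 1 := Subtype.ext h.hap

theorem aE_ne : h.aE ≠ 1 := fun e => h.ha1 (congrArg Subtype.val e)

theorem comm_D {d₁ d₂ : E} (h₁ : d₁ ∈ P.subgroupOf E) (h₂ : d₂ ∈ P.subgroupOf E) :
    ∃ k : ℕ, d₁ * d₂ * d₁⁻¹ * d₂⁻¹ = h.aE ^ k := by
  obtain ⟨k, hk⟩ := h.hcomm _ h₁ _ h₂
  exact ⟨k, Subtype.ext hk⟩

theorem pow_D {d : E} (h₁ : d ∈ P.subgroupOf E) : ∃ k : ℕ, d ^ p = h.aE ^ k := by
  obtain ⟨k, hk⟩ := h.hpow _ h₁
  exact ⟨k, Subtype.ext hk⟩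

/-- An element of `P` normalizing `E` acts by powers of `a` on `E ⊓ P`. -/
theorem aut_D {y : Ω} (hy : y ∈ P) (hyn : y ∈ Subgroup.normalizer (E : Set Ω)) {d : E} (hd : d ∈ P.subgroupOf E) :
    ∃ k : ℕ, autOfNormalizer hyn d = d * h.aE ^ k := by
  obtain ⟨k, hk⟩ := h.hcomm y hy d hd
  refine ⟨k, Subtype.ext ?_⟩
  have h2 : y * d * y⁻¹ = (y * d * y⁻¹ * (d : Ω)⁻¹) * d := by group
  show y * d * y⁻¹ = (d : Ω) * a ^ k
  rw [h2, hk]
  have hc : Commute (a ^ k) (d : Ω) := (Commute.pow_right (h.hac d (h.hES d.2)) k).symm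
  exact hc.eq

theorem aut_a {y : Ω} (hy : y ∈ P) (hyn : y ∈ Subgroup.normalizer (E : Set Ω)) : autOfNormalizer hyn h.aE = h.aE := by
  apply Subtype.ext
  show y * a * y⁻¹ = a
  rw [h.hac y (h.hPS hy)]
  group

theorem aut_mem {y : Ω} (hy : y ∈ P) (hyn : y ∈ Subgroup.normalizer (E : Set Ω)) :
    autOfNormalizer hyn ∈ autInducedBy S E := autOfNormalizer_mem_autInducedBy hyn (h.hPS hy)

theorem aut_not_inn {y : Ω} (hy : y ∈ P) (hyn : y ∈ Subgroup.normalizer (E : Set Ω)) (hyE : y ∉ E) :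
    autOfNormalizer hyn ∉ Inn E :=
  fun e => hyE (mem_of_autOfNormalizer_mem_inn h.hES h.hcent ⟨h.hPS hy, hyn⟩ e)

theorem aut_G {y : Ω} (hy : y ∈ P) (hyn : y ∈ Subgroup.normalizer (E : Set Ω)) :
    autOfNormalizer hyn ∈ F.autGroup E := autInducedBy_le_autGroup h.hES (h.aut_mem hy hyn)

theorem aut_C {y : Ω} (hy : y ∈ P) (hyn : y ∈ Subgroup.normalizer (E : Set Ω)) :
    autOfNormalizer hyn ∈ stabComm (P.subgroupOf E) := autOfNormalizer_mem_stabComm h.hP h.hES hy hyn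

theorem hG : F.autGroup E ≤ stabD (P.subgroupOf E) := autGroup_le_stabD h.hP h.hES

theorem hU : IsPGroup p E := h.hS.to_le h.hES

omit h in
/-- Separation. -/
theorem x_key {A : Type*} [Group A] {a₀ : A} (ha : a₀ ^ p = 1) {x : MulAut A} (hxa : x a₀ ∉ Subgroup.zpowers a₀) {w : A}
    (hw : ∃ k : ℕ, w = a₀ ^ k) (hxw : ∃ k : ℕ, x w = a₀ ^ k) : w = 1 := by
  by_contra hw1
  obtain ⟨k, rfl⟩ := hw
  obtain ⟨l, hl⟩ := hxw
  obtain ⟨m, hm⟩ := exists_pow_pow_eq' ha hw1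
  apply hxa
  have e : x a₀ = (a₀ ^ l) ^ m := by
    nth_rewrite 1 [← hm]
    rw [map_pow, hl]
  rw [e]
  exact Subgroup.pow_mem _ (Subgroup.pow_mem _ (Subgroup.mem_zpowers a₀) l) m

/-- There is an automorphism moving `a`. -/
theorem exists_x (hne : ¬ P ≤ E) : ∃ H : Subgroup (MulAut E), H ≤ F.autGroup E ∧
    (∀ w ∈ autInducedBy S E, w ∉ Inn E → ∀ x ∈ F.autGroup E, x * w * x⁻¹ ∈ autInducedBy S E → x ∈ H) ∧
    ∃ x ∈ F.autGroup E, x ∉ H ∧ x h.aE ∉ Subgroup.zpowers h.aE := by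
  haveI : Finite E := finite_of_le h.hES
  obtain ⟨H, hHG, ⟨x₀, hx₀G, hx₀H⟩, hHs⟩ := essential_spec h.hS h.hF h.hE
  refine ⟨H, hHG, hHs, ?_⟩
  by_contra hcon
  push Not at hcon
  have hfo : IsOfFinOrder h.aE := isOfFinOrder_iff_pow_eq_one.2 ⟨p, (Fact.out : p.Prime).pos, h.aE_pow⟩
  have hall : ∀ g ∈ F.autGroup E, g h.aE ∈ Subgroup.zpowers h.aE := by
    intro g hg
    by_cases hgH : g ∈ H
    · have h1 : g * x₀ ∉ H := fun e => hx₀H (by
        have := H.mul_mem (H.inv_mem hgH) e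
        simpa using this)
      have h2 := hcon _ ((F.autGroup E).mul_mem hg hx₀G) h1
      have h3 := hcon _ hx₀G hx₀H
      obtain ⟨m, hm⟩ := hfo.mem_powers_iff_mem_zpowers.2 h3
      replace hm : h.aE ^ m = x₀ h.aE := hm
      have hm1 : h.aE ^ m ≠ 1 := by
        rw [hm]
        intro e
        exact h.aE_ne ((map_eq_one_iff x₀ x₀.injective).1 e)
      obtain ⟨l, hl⟩ := exists_pow_pow_eq' h.aE_pow hm1
      have h4 : g h.aE = (g (x₀ h.aE)) ^ l := by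
        nth_rewrite 1 [← hl]
        rw [map_pow, hm]
      rw [h4]
      exact Subgroup.pow_mem _ h2 l
    · exact hcon g hg hgH
  obtain ⟨y, hyP, hyE, hyn, -⟩ := exists_elt_normalizing h.hS h.hES h.hPS (normalizer_of_stronglyClosed h.hP) hne
  have hmono : ∀ i < 4, chain4 (Subgroup.zpowers h.aE) (Subgroup.zpowers h.aE) (P.subgroupOf E) i ≤
      chain4 (Subgroup.zpowers h.aE) (Subgroup.zpowers h.aE) (P.subgroupOf E) (i + 1) := by
    intro i hi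
    interval_cases i
    · exact bot_le
    · exact le_rfl
    · exact (Subgroup.zpowers_le (H := P.subgroupOf E)).2 h.aE_D
    · exact le_top
  have hmem : autOfNormalizer hyn ∈ stabChain (chain4 (Subgroup.zpowers h.aE) (Subgroup.zpowers h.aE) (P.subgroupOf E)) 4 hmono := by
    intro i hi x hx
    interval_cases i
    · have hx' : x ∈ Subgroup.zpowers h.aE := hx
      obtain ⟨n, rfl⟩ := Subgroup.mem_zpowers_iff.1 hx'
      rw [map_zpow, h.aut_a hyP hyn, inv_mul_cancel]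
      exact Subgroup.one_mem _
    · have hx' : x ∈ Subgroup.zpowers h.aE := hx
      obtain ⟨n, rfl⟩ := Subgroup.mem_zpowers_iff.1 hx'
      rw [map_zpow, h.aut_a hyP hyn, inv_mul_cancel]
      exact Subgroup.one_mem _
    · obtain ⟨k, hk⟩ := h.aut_D hyP hyn hx
      rw [hk, inv_mul_cancel_left]
      exact Subgroup.pow_mem _ (Subgroup.mem_zpowers _) k
    · exact h.aut_C hyP hyn x
  have hinv : ∀ g ∈ F.autGroup E, ∀ i ≤ 4, ∀ x ∈ chain4 (Subgroup.zpowers h.aE) (Subgroup.zpowers h.aE) (P.subgroupOf E) i,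
      g x ∈ chain4 (Subgroup.zpowers h.aE) (Subgroup.zpowers h.aE) (P.subgroupOf E) i := by
    intro g hg i hi x hx
    have hz : ∀ x ∈ Subgroup.zpowers h.aE, g x ∈ Subgroup.zpowers h.aE := by
      intro x hx
      obtain ⟨n, rfl⟩ := Subgroup.mem_zpowers_iff.1 hx
      rw [map_zpow]
      exact Subgroup.zpow_mem _ (hall g hg) n
    interval_cases i
    · have hx' : x = 1 := hx
      rw [hx', map_one]
      exact Subgroup.one_mem _
    · exact hz x hx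
    · exact hz x hx
    · exact (h.hG hg x).1 hx
    · trivial
  have hcore := stabChain_mem_pCore h.hU _ 4 rfl hmono rfl hinv (h.aut_G hyP hyn) hmem
  have hrad := isRadical_of_essential h.hS h.hE
  rw [hrad.2] at hcore
  exact h.aut_not_inn hyP hyn hyE hcore

end GESCtx

/-- The data after choosing `x` and `y`. -/
structure GESX {P E : Subgroup Ω} {a : Ω} (h : GESCtx F p P E a) (H : Subgroup (MulAut E)) (x : MulAut E) (y : Ω) : Prop where
  hHG : H ≤ F.autGroup E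
  hHs : ∀ w ∈ autInducedBy S E, w ∉ Inn E → ∀ x ∈ F.autGroup E, x * w * x⁻¹ ∈ autInducedBy S E → x ∈ H
  hxG : x ∈ F.autGroup E
  hxH : x ∉ H
  hxa : x h.aE ∉ Subgroup.zpowers h.aE
  hyP : y ∈ P
  hyE : y ∉ E
  hyn : y ∈ Subgroup.normalizer (E : Set Ω)
  hyp : y ^ p ∈ E

namespace GESX

variable {P E : Subgroup Ω} {a : Ω} {h : GESCtx F p P E a} {H : Subgroup (MulAut E)} {x : MulAut E} {y : Ω}
  (X : GESX h H x y)

include X

theorem D_comm {d₁ d₂ : E} (h₁ : d₁ ∈ P.subgroupOf E) (h₂ : d₂ ∈ P.subgroupOf E) : d₁ * d₂ = d₂ * d₁ := by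
  have hx₁ : x d₁ ∈ P.subgroupOf E := (h.hG X.hxG _).1 h₁
  have hx₂ : x d₂ ∈ P.subgroupOf E := (h.hG X.hxG _).1 h₂
  have h1 := GESCtx.x_key h.aE_pow X.hxa (w := d₁ * d₂ * d₁⁻¹ * d₂⁻¹) (h.comm_D h₁ h₂) (by
    obtain ⟨l, hl⟩ := h.comm_D hx₁ hx₂
    refine ⟨l, ?_⟩
    rw [← hl]
    simp only [map_mul, map_inv])
  have h2 : d₁ * d₂ = d₁ * d₂ * d₁⁻¹ * d₂⁻¹ * (d₂ * d₁) := by group
  rw [h2, h1, one_mul]

theorem D_exp {d : E} (h₁ : d ∈ P.subgroupOf E) : d ^ p = 1 := by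
  have hx₁ : x d ∈ P.subgroupOf E := (h.hG X.hxG _).1 h₁
  exact GESCtx.x_key h.aE_pow X.hxa (h.pow_D h₁) (by
    obtain ⟨l, hl⟩ := h.pow_D hx₁
    refine ⟨l, ?_⟩
    rw [← hl, map_pow])

theorem a₂_D : x h.aE ∈ P.subgroupOf E := (h.hG X.hxG _).1 h.aE_D

theorem a₂_pow : (x h.aE) ^ p = 1 := by
  rw [← map_pow, h.aE_pow, map_one]

theorem a₂_ne : x h.aE ≠ 1 := fun e => h.aE_ne ((map_eq_one_iff x x.injective).1 e)

theorem a₂_central (e : E) : e * x h.aE = x h.aE * e := by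
  have h1 := h.aE_central (x⁻¹ e)
  have h2 := congrArg x h1
  rwa [map_mul, map_mul, MulAut.apply_inv_self] at h2

theorem tp_G : x * autOfNormalizer X.hyn * x⁻¹ ∈ F.autGroup E :=
  (F.autGroup E).mul_mem ((F.autGroup E).mul_mem X.hxG (h.aut_G X.hyP X.hyn)) ((F.autGroup E).inv_mem X.hxG)

theorem tp_C : x * autOfNormalizer X.hyn * x⁻¹ ∈ stabComm (P.subgroupOf E) :=
  conj_mem_stabComm (h.hG X.hxG) (h.aut_C X.hyP X.hyn)

theorem tp_D {z : E} (hz : z ∈ P.subgroupOf E) : ∃ k : ℕ, (x * autOfNormalizer X.hyn * x⁻¹) z = z * (x h.aE) ^ k := by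
  have h1 : x⁻¹ z ∈ P.subgroupOf E := (h.hG ((F.autGroup E).inv_mem X.hxG) _).1 hz
  obtain ⟨k, hk⟩ := h.aut_D X.hyP X.hyn h1
  refine ⟨k, ?_⟩
  simp only [MulAut.mul_apply]
  rw [hk, map_mul, map_pow, MulAut.apply_inv_self]

theorem tp_a₂ : (x * autOfNormalizer X.hyn * x⁻¹) (x h.aE) = x h.aE := by
  simp only [MulAut.mul_apply, MulAut.inv_apply_self]
  rw [h.aut_a X.hyP X.hyn]

/-- Every element of `P` normalizing but not in `E` moves `x a`. -/
theorem moved {y₁ : Ω} (hy₁ : y₁ ∈ P) (hyn₁ : y₁ ∈ Subgroup.normalizer (E : Set Ω)) (hy₁E : y₁ ∉ E) :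
    autOfNormalizer hyn₁ (x h.aE) ≠ x h.aE := by
  intro hfix
  haveI : Finite E := finite_of_le h.hES
  obtain ⟨W, hWp, hW1, hW2⟩ := both_in_chain (p := p) h.hU (h.aut_C hy₁ hyn₁) X.tp_C X.a₂_D h.aE_D hfix (h.aut_a hy₁ hyn₁)
    X.tp_a₂ (fun z hz => h.aut_D hy₁ hyn₁ hz) (fun z hz => X.tp_D hz)
  exact not_pGroup_of_not_mem h.hS h.hF h.hE.2.1 X.hHG X.hHs (h.aut_mem hy₁ hyn₁) (h.aut_not_inn hy₁ hyn₁ hy₁E)
    (h.aut_mem X.hyP X.hyn) (h.aut_not_inn X.hyP X.hyn X.hyE) X.hxG X.hxH (W := W ⊓ F.autGroup E) inf_le_right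
    (hWp.to_le inf_le_left) ⟨hW1, h.aut_G hy₁ hyn₁⟩ ⟨hW2, X.tp_G⟩

theorem moved2 : (x * autOfNormalizer X.hyn * x⁻¹) h.aE ≠ h.aE := by
  intro hfix
  haveI : Finite E := finite_of_le h.hES
  obtain ⟨W, hWp, hW1, hW2⟩ := both_in_chain (p := p) h.hU X.tp_C (h.aut_C X.hyP X.hyn) h.aE_D X.a₂_D hfix X.tp_a₂
    (h.aut_a X.hyP X.hyn) (fun z hz => X.tp_D hz) (fun z hz => h.aut_D X.hyP X.hyn hz)
  exact not_pGroup_of_not_mem h.hS h.hF h.hE.2.1 X.hHG X.hHs (h.aut_mem X.hyP X.hyn) (h.aut_not_inn X.hyP X.hyn X.hyE)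
    (h.aut_mem X.hyP X.hyn) (h.aut_not_inn X.hyP X.hyn X.hyE) X.hxG X.hxH (W := W ⊓ F.autGroup E) inf_le_right
    (hWp.to_le inf_le_left) ⟨hW2, h.aut_G X.hyP X.hyn⟩ ⟨hW1, X.tp_G⟩

/-- `N_P(E)` is generated over `E` by `y`. -/
theorem hNP {q : Ω} (hq : q ∈ P) (hqn : q ∈ Subgroup.normalizer (E : Set Ω)) : ∃ m : ℕ, q * (y ^ m)⁻¹ ∈ E := by
  set A₂ : Ω := ((x h.aE : E) : Ω) with hA₂
  have hA₂P : A₂ ∈ P := X.a₂_D
  have hyS : y ∈ S := h.hPS X.hyP
  obtain ⟨k, hk⟩ := h.hcomm y X.hyP A₂ hA₂P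
  have hk1 : a ^ k ≠ 1 := by
    intro e
    apply X.moved X.hyP X.hyn X.hyE
    apply Subtype.ext
    show y * A₂ * y⁻¹ = A₂
    rw [e] at hk
    exact mul_inv_eq_one.1 hk
  obtain ⟨l, hl⟩ := h.hcomm q hq A₂ hA₂P
  obtain ⟨m₀, hm₀⟩ := exists_pow_pow_eq' h.hap hk1
  have hacomm : ∀ n : ℕ, ∀ s ∈ S, Commute s (a ^ n) := fun n s hs => Commute.pow_right (h.hac s hs) n
  have hAS : A₂ ∈ S := h.hPS hA₂P
  have hqS : q ∈ S := h.hPS hq
  have hyA : y * A₂ * y⁻¹ = A₂ * a ^ k := by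
    have h1 : y * A₂ * y⁻¹ = (y * A₂ * y⁻¹ * A₂⁻¹) * A₂ := by group
    rw [h1, hk]
    exact ((hacomm k A₂ hAS).eq).symm
  have hconj := heis_conj (y := y) (A := A₂) (B := a ^ k) (hacomm k y hyS).eq (hacomm k A₂ hAS).eq hyA (m₀ * l) 1
  simp only [pow_one, mul_one] at hconj
  have hpowm : (a ^ k) ^ (m₀ * l) = a ^ l := by
    rw [pow_mul, hm₀]
  rw [hpowm] at hconj
  refine ⟨m₀ * l, ?_⟩
  by_contra hcon
  have hq₁ : q * (y ^ (m₀ * l))⁻¹ ∈ P := P.mul_mem hq (P.inv_mem (P.pow_mem X.hyP _))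
  have hq₁n : q * (y ^ (m₀ * l))⁻¹ ∈ Subgroup.normalizer (E : Set Ω) :=
    (Subgroup.normalizer (E : Set Ω)).mul_mem hqn ((Subgroup.normalizer (E : Set Ω)).inv_mem (Subgroup.pow_mem _ X.hyn _))
  apply X.moved hq₁ hq₁n hcon
  apply Subtype.ext
  show q * (y ^ (m₀ * l))⁻¹ * A₂ * (q * (y ^ (m₀ * l))⁻¹)⁻¹ = A₂
  have hYS : y ^ (m₀ * l) ∈ S := S.pow_mem hyS _
  generalize y ^ (m₀ * l) = Y at hconj hYS
  have hcY : Y * a ^ l = a ^ l * Y := (hacomm l Y hYS).eq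
  have hcq : q * a ^ l = a ^ l * q := (hacomm l q hqS).eq
  have h1 : Y⁻¹ * A₂ * Y = A₂ * (a ^ l)⁻¹ := by
    have h2 : A₂ = Y⁻¹ * A₂ * Y * a ^ l := by
      have h3 : A₂ = Y⁻¹ * (Y * A₂) := by group
      rw [h3]
      nth_rewrite 1 [hconj]
      rw [mul_assoc A₂ (a ^ l) Y, ← hcY]
      group
    rw [eq_mul_inv_iff_mul_eq]
    exact h2.symm
  have h4 : q * A₂ * q⁻¹ = a ^ l * A₂ := by
    rw [← hl]
    group
  calc q * Y⁻¹ * A₂ * (q * Y⁻¹)⁻¹ = q * (Y⁻¹ * A₂ * Y) * q⁻¹ := by group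
    _ = q * (A₂ * (a ^ l)⁻¹) * q⁻¹ := by rw [h1]
    _ = (q * A₂ * q⁻¹) * (q * (a ^ l)⁻¹ * q⁻¹) := by group
    _ = (a ^ l * A₂) * (a ^ l)⁻¹ := by
        rw [h4]
        congr 1
        have h5 : q * (a ^ l)⁻¹ = (a ^ l)⁻¹ * q := by
          rw [eq_inv_mul_iff_mul_eq, ← mul_assoc, ← hcq, mul_assoc, mul_inv_cancel, mul_one]
        rw [h5]
        group
    _ = A₂ := by
        have h6 : A₂ * a ^ l = a ^ l * A₂ := (hacomm l A₂ hAS).eq
        rw [← h6]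
        group

/-- `P` is generated over `E ⊓ P` by `y`. -/
theorem hPy : ∀ u ∈ P, ∃ i : ℕ, ∃ d ∈ E ⊓ P, u = y ^ i * d := by
  have hES := h.hES
  have hPS := h.hPS
  have hyS : y ∈ S := hPS X.hyP
  have hzN : Subgroup.zpowers y ≤ Subgroup.normalizer (E : Set Ω) := (Subgroup.zpowers_le (H := Subgroup.normalizer (E : Set Ω))).2 X.hyn
  have hzS : Subgroup.zpowers y ≤ S := (Subgroup.zpowers_le (H := S)).2 hyS
  have hE₁S : Subgroup.zpowers y ⊔ E ≤ S := sup_le hzS hES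
  have hfo : IsOfFinOrder y := by
    obtain ⟨k, hk⟩ := h.hS ⟨y, hyS⟩
    have hk' : y ^ p ^ k = 1 := by simpa using congrArg Subtype.val hk
    exact isOfFinOrder_iff_pow_eq_one.2 ⟨p ^ k, pow_pos (Fact.out : p.Prime).pos k, hk'⟩
  have hP₁ : P ≤ Subgroup.zpowers y ⊔ E := by
    by_contra hne
    obtain ⟨q, hqP, hqE₁, hqn, -⟩ := exists_elt_normalizing h.hS hE₁S hPS (normalizer_of_stronglyClosed h.hP) hne
    have hqnE : q ∉ Subgroup.normalizer (E : Set Ω) := by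
      intro hq
      obtain ⟨m, hm⟩ := X.hNP hqP hq
      apply hqE₁
      have e₁ : q = y ^ m * ((y ^ m)⁻¹ * (q * (y ^ m)⁻¹) * y ^ m) := by group
      rw [e₁]
      refine (Subgroup.zpowers y ⊔ E).mul_mem (Subgroup.mem_sup_left (Subgroup.pow_mem _ (Subgroup.mem_zpowers y) m)) (Subgroup.mem_sup_right ?_)
      have := conj_mem_of_normalizer ((Subgroup.normalizer (E : Set Ω)).inv_mem (Subgroup.pow_mem _ X.hyn m)) hm
      simpa using this
    obtain ⟨e, he, heq⟩ : ∃ e ∈ E, q * e * q⁻¹ ∉ E := by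
      by_contra hcon
      push Not at hcon
      exact hqnE (mem_normalizer_of_conj_mem hES hcon)
    have hwE₁ : q * e * q⁻¹ ∈ Subgroup.zpowers y ⊔ E := conj_mem_of_normalizer hqn (Subgroup.mem_sup_right he)
    obtain ⟨u, hu, e₀, he₀, hw⟩ := exists_mul_of_mem_sup hzN hwE₁
    obtain ⟨i, rfl⟩ := hfo.mem_powers_iff_mem_zpowers.2 hu
    replace hw : y ^ i * e₀ = q * e * q⁻¹ := hw
    have huE : y ^ i ∉ E := fun he' => heq (by
      rw [← hw]
      exact E.mul_mem he' he₀)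
    apply X.moved (P.pow_mem X.hyP i) (Subgroup.pow_mem _ X.hyn i) huE
    set A₂ : Ω := ((x h.aE : E) : Ω) with hA₂
    have hA₂P : A₂ ∈ P := X.a₂_D
    obtain ⟨l, hl⟩ := h.hcomm q hqP A₂ hA₂P
    have hcE : ∀ f ∈ E, f * A₂ = A₂ * f := fun f hf => congrArg Subtype.val (X.a₂_central ⟨f, hf⟩)
    have h1 : (q * e * q⁻¹) * (q * A₂ * q⁻¹) = (q * A₂ * q⁻¹) * (q * e * q⁻¹) := by
      have h2 : (q * e * q⁻¹) * (q * A₂ * q⁻¹) = q * (e * A₂) * q⁻¹ := by group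
      have h3 : (q * A₂ * q⁻¹) * (q * e * q⁻¹) = q * (A₂ * e) * q⁻¹ := by group
      rw [h2, h3, hcE e he]
    have h4 : q * A₂ * q⁻¹ = a ^ l * A₂ := by
      rw [← hl]
      group
    have hwS : q * e * q⁻¹ ∈ S := S.mul_mem (S.mul_mem (hPS hqP) (hES he)) (S.inv_mem (hPS hqP))
    have hc : Commute (q * e * q⁻¹) (a ^ l) := Commute.pow_right (h.hac _ hwS) l
    rw [h4] at h1
    have h5 : (q * e * q⁻¹) * A₂ = A₂ * (q * e * q⁻¹) := by
      apply mul_left_cancel (a := a ^ l)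
      calc a ^ l * ((q * e * q⁻¹) * A₂) = (a ^ l * (q * e * q⁻¹)) * A₂ := by group
        _ = ((q * e * q⁻¹) * a ^ l) * A₂ := by rw [hc.eq]
        _ = (q * e * q⁻¹) * (a ^ l * A₂) := by group
        _ = (a ^ l * A₂) * (q * e * q⁻¹) := h1
        _ = a ^ l * (A₂ * (q * e * q⁻¹)) := by group
    rw [← hw] at h5
    have h6 : y ^ i * A₂ = A₂ * y ^ i := by
      apply mul_right_cancel (b := e₀)
      calc y ^ i * A₂ * e₀ = y ^ i * (A₂ * e₀) := by group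
        _ = y ^ i * (e₀ * A₂) := by rw [hcE e₀ he₀]
        _ = (y ^ i * e₀) * A₂ := by group
        _ = A₂ * (y ^ i * e₀) := h5
        _ = A₂ * y ^ i * e₀ := by group
    apply Subtype.ext
    show y ^ i * A₂ * (y ^ i)⁻¹ = A₂
    rw [h6]
    group
  intro u hu
  obtain ⟨v, hv, e, he, rfl⟩ := exists_mul_of_mem_sup hzN (hP₁ hu)
  obtain ⟨i, rfl⟩ := hfo.mem_powers_iff_mem_zpowers.2 hv
  refine ⟨i, e, ⟨he, ?_⟩, rfl⟩
  have h1 := P.mul_mem (P.inv_mem (P.pow_mem X.hyP i)) hu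
  have h2 : ((fun x => y ^ x) i)⁻¹ * ((fun x => y ^ x) i * e) = e := by
    simp
  rwa [h2] at h1

omit X in
/-- Coprime powers in a subgroup. -/
theorem mem_of_pow_mem {V : Type*} [Group V] {E' : Subgroup V} {y' : V} {i q : ℕ} (hc : Nat.Coprime i q) (hi : y' ^ i ∈ E')
    (hq : y' ^ q ∈ E') : y' ∈ E' := by
  have h1 := Nat.gcd_eq_gcd_ab i q
  rw [hc.gcd_eq_one] at h1
  have h2 : y' = (y' ^ i) ^ (Nat.gcdA i q) * (y' ^ q) ^ (Nat.gcdB i q) := by
    rw [← zpow_natCast, ← zpow_natCast, ← zpow_mul, ← zpow_mul, ← zpow_add, ← h1]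
    simp
  rw [h2]
  exact E'.mul_mem (E'.zpow_mem hi _) (E'.zpow_mem hq _)

/-- The contradiction. -/
theorem contra
    (h2 : p = 2 → ¬ ∃ (A : Type) (_ : CommGroup A), (∀ a : A, a ^ 2 = 1) ∧ Nonempty (↥P ≃* DihedralGroup 4 × A))
    (hodd : p ≠ 2 → ¬ ∃ (E : Type) (_ : Group E) (A : Type) (_ : CommGroup A), Cfsg.IsExtraspecial p E ∧ Nat.card E = p ^ 3 ∧
      Monoid.exponent E = p ∧ (∀ a : A, a ^ p = 1) ∧ Nonempty (↥P ≃* E × A)) : False := by
  have hpp : p.Prime := Fact.out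
  have hES := h.hES
  have hPS := h.hPS
  haveI : Finite E := finite_of_le hES
  haveI : Finite P := finite_of_le hPS
  have hG := h.hG
  have htG := h.aut_G X.hyP X.hyn
  have htpG := X.tp_G
  let tD := resD (P.subgroupOf E) ⟨autOfNormalizer X.hyn, hG htG⟩
  let tpD := resD (P.subgroupOf E) ⟨x * autOfNormalizer X.hyn * x⁻¹, hG htpG⟩
  let aD : P.subgroupOf E := ⟨h.aE, h.aE_D⟩
  let a₂D : P.subgroupOf E := ⟨x h.aE, X.a₂_D⟩
  have hcD : ∀ u v : P.subgroupOf E, u * v = v * u := fun u v => Subtype.ext (X.D_comm u.2 v.2)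
  have hexpD : ∀ u : P.subgroupOf E, u ^ p = 1 := fun u => Subtype.ext (X.D_exp u.2)
  have h1 : ∀ z, ∃ k : ℕ, tD z = z * aD ^ k := fun z => by
    obtain ⟨k, hk⟩ := h.aut_D X.hyP X.hyn z.2
    exact ⟨k, Subtype.ext hk⟩
  have h1a : tD aD = aD := Subtype.ext (h.aut_a X.hyP X.hyn)
  have h2' : ∀ z, ∃ k : ℕ, tpD z = z * a₂D ^ k := fun z => by
    obtain ⟨k, hk⟩ := X.tp_D z.2
    exact ⟨k, Subtype.ext hk⟩
  have h2a : tpD a₂D = a₂D := Subtype.ext X.tp_a₂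
  have h3 : tD a₂D ≠ a₂D := fun e => X.moved X.hyP X.hyn X.hyE (congrArg Subtype.val e)
  have h4 : tpD aD ≠ aD := fun e => X.moved2 (congrArg Subtype.val e)
  obtain ⟨b, j, ⟨k₁, hb⟩, ⟨k₂, hab⟩, hta, hdec, hsb, hsa⟩ :=
    transvection_pair' hcD (hexpD aD) (hexpD a₂D) h1 h1a h2' h2a h3 h4
  -- to `↥P`
  let ι : (P.subgroupOf E) →* P :=
    { toFun := fun d => ⟨((d : E) : Ω), d.2⟩, map_one' := rfl, map_mul' := fun _ _ => rfl }
  have hιinj : Function.Injective ι := fun u v e => Subtype.ext (Subtype.ext (congrArg (fun z : P => (z : Ω)) e))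
  let yP : P := ⟨y, X.hyP⟩
  let A : P := ι a₂D
  let B : P := ι b
  have hbΩ : ((b : E) : Ω) = a ^ k₁ := by
    rw [hb]
    rfl
  have hcS : ∀ s ∈ S, s * ((b : E) : Ω) = ((b : E) : Ω) * s := by
    intro s hs
    rw [hbΩ]
    exact (Commute.pow_right (h.hac s hs) k₁).eq
  have hBy : yP * B = B * yP := Subtype.ext (hcS y (hPS X.hyP))
  have hBA : A * B = B * A := by
    show ι a₂D * ι b = ι b * ι a₂D
    rw [← map_mul, ← map_mul, hcD]
  have hyA : yP * A * yP⁻¹ = A * B := by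
    have h5 := congrArg ι hta
    rw [map_mul] at h5
    exact h5
  have hAp : A ^ p = 1 := by
    show (ι a₂D) ^ p = 1
    rw [← map_pow, hexpD, map_one]
  have hBp : B ^ p = 1 := by
    show (ι b) ^ p = 1
    rw [← map_pow, hexpD, map_one]
  have hb1 : b ≠ 1 := by
    intro e
    have h5 : aD = b ^ k₂ := hab
    rw [e, one_pow] at h5
    exact h.aE_ne (congrArg Subtype.val h5)
  have hB1 : B ≠ 1 := fun e => hb1 (hιinj (e.trans (map_one ι).symm))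
  have hAB : A ∉ Subgroup.zpowers B := by
    intro hmem
    obtain ⟨n, hn⟩ := (isOfFinOrder_of_finite B).mem_powers_iff_mem_zpowers.2 hmem
    replace hn : B ^ n = A := hn
    have hb2 : b ^ n = a₂D := hιinj (by rw [map_pow]; exact hn)
    apply X.hxa
    have h5 : a₂D = aD ^ (k₁ * n) := by
      rw [← hb2, hb, ← pow_mul]
    have h6 : x h.aE = h.aE ^ (k₁ * n) := congrArg Subtype.val h5
    rw [h6]
    exact Subgroup.pow_mem _ (Subgroup.mem_zpowers _) _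
  obtain ⟨k₃, hk₃⟩ := h.hpow y X.hyP
  have haΩ : a = ((b : E) : Ω) ^ k₂ := by
    have h5 := congrArg (fun d : P.subgroupOf E => ((d : E) : Ω)) hab
    simpa [aD] using h5
  have hym : yP ^ p = B ^ (k₂ * k₃) := by
    apply Subtype.ext
    show y ^ p = ((b : E) : Ω) ^ (k₂ * k₃)
    rw [hk₃, pow_mul, ← haΩ]
  have hAE : A ∈ E.subgroupOf P := (x h.aE).2
  have hBE : B ∈ E.subgroupOf P := (b : E).2
  have hyE : yP ∉ E.subgroupOf P := X.hyE
  let C₀ : Subgroup (P.subgroupOf E) :=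
    (MonoidHom.eqLocus tD.toMonoidHom (MonoidHom.id _)) ⊓ (MonoidHom.eqLocus tpD.toMonoidHom (MonoidHom.id _))
  let C : Subgroup P := C₀.map ι
  have hC : ∀ c ∈ C, ∀ u : P, c * u = u * c := by
    rintro _ ⟨c₀, ⟨hc1, hc2⟩, rfl⟩ u
    have hc1' : tD c₀ = c₀ := hc1
    have hcy : ((c₀ : E) : Ω) * y = y * ((c₀ : E) : Ω) := by
      have h5 : y * ((c₀ : E) : Ω) * y⁻¹ = ((c₀ : E) : Ω) := congrArg (fun d : P.subgroupOf E => ((d : E) : Ω)) hc1'
      exact (mul_inv_eq_iff_eq_mul.1 h5).symm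
    obtain ⟨i, d, hd, hu⟩ := X.hPy u u.2
    apply Subtype.ext
    show ((c₀ : E) : Ω) * (u : Ω) = (u : Ω) * ((c₀ : E) : Ω)
    rw [hu]
    have hcd : ((c₀ : E) : Ω) * d = d * ((c₀ : E) : Ω) :=
      congrArg (fun d : P.subgroupOf E => ((d : E) : Ω)) (hcD c₀ ⟨⟨d, hd.1⟩, hd.2⟩)
    have hcyi : ((c₀ : E) : Ω) * y ^ i = y ^ i * ((c₀ : E) : Ω) := (Commute.pow_right hcy i).eq
    calc ((c₀ : E) : Ω) * (y ^ i * d) = (((c₀ : E) : Ω) * y ^ i) * d := by group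
      _ = y ^ i * (((c₀ : E) : Ω) * d) := by rw [hcyi]; group
      _ = y ^ i * d * ((c₀ : E) : Ω) := by rw [hcd]; group
  have hCexp : ∀ c ∈ C, c ^ p = 1 := by
    rintro _ ⟨c₀, -, rfl⟩
    rw [← map_pow, hexpD, map_one]
  have hbfix : tD b = b := by
    rw [hb, map_pow, h1a]
  have hcomm_ab : Commute a₂D b := hcD _ _
  have hmeet : ∀ z ∈ heisSub hBy hBA hyA (isOfFinOrder_of_finite yP) (isOfFinOrder_of_finite A) (isOfFinOrder_of_finite B),
      z ∈ C → z = 1 := by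
    rintro z ⟨v, i, w, rfl⟩ ⟨c₀, ⟨hc1, hc2⟩, hc₀⟩
    have hc1' : tD c₀ = c₀ := hc1
    have hc2' : tpD c₀ = c₀ := hc2
    have hzE : ((A ^ v * yP ^ i * B ^ w : P) : Ω) ∈ E := by
      rw [← hc₀]
      exact (c₀ : E).2
    have hyi : y ^ i ∈ E := by
      have h5 : ((A ^ v * yP ^ i * B ^ w : P) : Ω) = ((A : P) : Ω) ^ v * y ^ i * ((B : P) : Ω) ^ w := rfl
      rw [h5] at hzE
      have hAE' : ((A : P) : Ω) ∈ E := hAE
      have hBE' : ((B : P) : Ω) ∈ E := hBE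
      have h6 := E.mul_mem (E.mul_mem (E.inv_mem (E.pow_mem hAE' v)) hzE) (E.inv_mem (E.pow_mem hBE' w))
      simpa [mul_assoc] using h6
    have hpi : p ∣ i := by
      by_contra hcon
      have hcop : Nat.Coprime i p := ((Nat.Prime.coprime_iff_not_dvd hpp).2 hcon).symm
      exact X.hyE (mem_of_pow_mem hcop hyi X.hyp)
    obtain ⟨n, rfl⟩ := hpi
    have e₁ : yP ^ (p * n) = B ^ ((k₂ * k₃) * n) := by
      rw [pow_mul, hym, ← pow_mul]
    have e₂ : ι c₀ = ι (a₂D ^ v * b ^ ((k₂ * k₃) * n + w)) := by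
      have e₄ : ι (a₂D ^ v * b ^ ((k₂ * k₃) * n + w)) = A ^ v * (B ^ (k₂ * k₃ * n) * B ^ w) := by
        rw [map_mul, map_pow, map_pow, pow_add]
      rw [hc₀, e₁, e₄, mul_assoc]
    have e₃ : c₀ = a₂D ^ v * b ^ ((k₂ * k₃) * n + w) := hιinj e₂
    generalize (k₂ * k₃) * n + w = w₁ at e₃
    have hbv : b ^ v = 1 := by
      rw [e₃, map_mul, map_pow, map_pow, hta, hbfix, hcomm_ab.mul_pow] at hc1'
      have h5 : a₂D ^ v * (b ^ v * b ^ w₁) = a₂D ^ v * (1 * b ^ w₁) := by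
        rw [one_mul, ← mul_assoc]
        exact hc1'
      exact mul_right_cancel (mul_left_cancel h5)
    have hordb : orderOf b = p := orderOf_eq_prime (hexpD b) hb1
    have hpv : p ∣ v := by
      rw [← hordb]
      exact orderOf_dvd_of_pow_eq_one hbv
    have ha₂v : a₂D ^ v = 1 := by
      obtain ⟨q, rfl⟩ := hpv
      rw [pow_mul, hexpD, one_pow]
    rw [ha₂v, one_mul] at e₃
    obtain ⟨l, hl⟩ := h2' b
    have hl1 : a₂D ^ l ≠ 1 := by
      intro e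
      rw [e, mul_one] at hl
      apply h4
      have h5 : aD = b ^ k₂ := hab
      rw [h5, map_pow, hl]
    have hcb : Commute b (a₂D ^ l) := hcD _ _
    have hw₁ : (a₂D ^ l) ^ w₁ = 1 := by
      rw [e₃, map_pow, hl, hcb.mul_pow] at hc2'
      exact mul_left_cancel (hc2'.trans (mul_one _).symm)
    have hord2 : orderOf (a₂D ^ l) = p := orderOf_eq_prime (hexpD _) hl1
    have hpw : p ∣ w₁ := by
      rw [← hord2]
      exact orderOf_dvd_of_pow_eq_one hw₁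
    have hc₀1 : c₀ = 1 := by
      obtain ⟨q, rfl⟩ := hpw
      rw [e₃, pow_mul, hexpD, one_pow]
    rw [← hc₀, hc₀1, map_one]
  have hgen : ∀ u : P, ∃ h' ∈ heisSub hBy hBA hyA (isOfFinOrder_of_finite yP) (isOfFinOrder_of_finite A) (isOfFinOrder_of_finite B),
      ∃ c ∈ C, u = h' * c := by
    intro u
    obtain ⟨i, d, hd, hu⟩ := X.hPy u u.2
    obtain ⟨c, s, v, hc1, hc2, hdec'⟩ := hdec ⟨⟨d, hd.1⟩, hd.2⟩
    have hyH : yP ∈ heisSub hBy hBA hyA (isOfFinOrder_of_finite yP) (isOfFinOrder_of_finite A) (isOfFinOrder_of_finite B) :=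
      ⟨0, 1, 0, by simp⟩
    have hAH : A ∈ heisSub hBy hBA hyA (isOfFinOrder_of_finite yP) (isOfFinOrder_of_finite A) (isOfFinOrder_of_finite B) :=
      ⟨1, 0, 0, by simp⟩
    have hBH : B ∈ heisSub hBy hBA hyA (isOfFinOrder_of_finite yP) (isOfFinOrder_of_finite A) (isOfFinOrder_of_finite B) :=
      ⟨0, 0, 1, by simp⟩
    refine ⟨yP ^ i * (B ^ s * A ^ v), Subgroup.mul_mem _ (Subgroup.pow_mem _ hyH i)
      (Subgroup.mul_mem _ (Subgroup.pow_mem _ hBH s) (Subgroup.pow_mem _ hAH v)), ι c, ⟨c, ⟨hc1, hc2⟩, rfl⟩, ?_⟩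
    have e₅ : (⟨⟨d, hd.1⟩, hd.2⟩ : P.subgroupOf E) = (b ^ s * a₂D ^ v) * c := by
      rw [hdec', mul_assoc, hcD c]
    have e₆ : ι ⟨⟨d, hd.1⟩, hd.2⟩ = B ^ s * A ^ v * ι c := by
      rw [e₅, map_mul, map_mul, map_pow, map_pow]
    have e₇ : u = yP ^ i * ι ⟨⟨d, hd.1⟩, hd.2⟩ := Subtype.ext hu
    rw [e₇, e₆]
    group
  -- `y ^ p = 1` for odd `p`
  have hy1 : p ≠ 2 → yP ^ p = 1 := by
    intro hp2
    let s₀ : MulAut E := autOfNormalizer X.hyn * (x * autOfNormalizer X.hyn * x⁻¹) ^ j * autOfNormalizer X.hyn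
    have hs₀G : s₀ ∈ F.autGroup E := (F.autGroup E).mul_mem ((F.autGroup E).mul_mem htG (Subgroup.pow_mem _ htpG _)) htG
    have hρG : s₀ * s₀ ∈ F.autGroup E := (F.autGroup E).mul_mem hs₀G hs₀G
    let sD : MulAut (P.subgroupOf E) := tD * tpD ^ j * tD
    have hρD : resD (P.subgroupOf E) ⟨s₀ * s₀, hG hρG⟩ = sD * sD := by
      have e : (⟨s₀ * s₀, hG hρG⟩ : stabD (P.subgroupOf E)) =
          (⟨autOfNormalizer X.hyn, hG htG⟩ * ⟨x * autOfNormalizer X.hyn * x⁻¹, hG htpG⟩ ^ j * ⟨autOfNormalizer X.hyn, hG htG⟩) *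
          (⟨autOfNormalizer X.hyn, hG htG⟩ * ⟨x * autOfNormalizer X.hyn * x⁻¹, hG htpG⟩ ^ j * ⟨autOfNormalizer X.hyn, hG htG⟩) := rfl
      rw [e]
      simp only [map_mul, map_pow]
      rfl
    have hcfix : ∀ c, tD c = c → tpD c = c → sD c = c := by
      intro c hc1 hc2
      have hpow : ∀ n : ℕ, (tpD ^ n) c = c := by
        intro n
        induction n with
        | zero => rfl
        | succ n ih =>
          rw [pow_succ, MulAut.mul_apply, hc2, ih]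
      show (tD * tpD ^ j * tD) c = c
      simp only [MulAut.mul_apply]
      rw [hc1, hpow, hc1]
    -- commutation on `D`
    have hcomm_ρ : (sD * sD) * tD = tD * (sD * sD) := by
      ext z
      obtain ⟨c, u, v, hc1, hc2, rfl⟩ := hdec z
      have hc := hcfix c hc1 hc2
      have hb' : (sD * sD) b = b⁻¹ := by
        show sD (sD b) = b⁻¹
        have h5 : sD b = a₂D⁻¹ := hsb
        have h6 : sD a₂D = b := hsa
        rw [h5, map_inv, h6]
      have ha' : (sD * sD) a₂D = a₂D⁻¹ := by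
        show sD (sD a₂D) = a₂D⁻¹
        have h5 : sD b = a₂D⁻¹ := hsb
        have h6 : sD a₂D = b := hsa
        rw [h6, h5]
      have hc' : (sD * sD) c = c := by
        show sD (sD c) = c
        rw [hc, hc]
      have hinvab : (a₂D * b)⁻¹ = a₂D⁻¹ * b⁻¹ := by
        rw [mul_inv_rev, hcD]
      have e₁ : sD (sD c) = c := hc'
      have e₂ : sD (sD b) = b⁻¹ := hb'
      have e₃ : sD (sD a₂D) = a₂D⁻¹ := ha'
      have g1 : sD (sD (tD c)) = tD (sD (sD c)) := by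
        rw [hc1, e₁, hc1]
      have g2 : sD (sD (tD b)) = tD (sD (sD b)) := by
        rw [hbfix, e₂, map_inv, hbfix]
      have g3 : sD (sD (tD a₂D)) = tD (sD (sD a₂D)) := by
        rw [hta, map_mul, map_mul, e₂, e₃, map_inv, hta, hinvab]
      simp only [MulAut.mul_apply, map_mul, map_pow]
      rw [g1, g2, g3]
    -- the commutator is inner
    have hρS : s₀ * s₀ ∈ stabD (P.subgroupOf E) := hG hρG
    have hκC : (s₀ * s₀) * autOfNormalizer X.hyn * (s₀ * s₀)⁻¹ * (autOfNormalizer X.hyn)⁻¹ ∈ stabComm (P.subgroupOf E) :=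
      (stabComm _).mul_mem (conj_mem_stabComm hρS (h.aut_C X.hyP X.hyn)) ((stabComm _).inv_mem (h.aut_C X.hyP X.hyn))
    have hκG : (s₀ * s₀) * autOfNormalizer X.hyn * (s₀ * s₀)⁻¹ * (autOfNormalizer X.hyn)⁻¹ ∈ F.autGroup E :=
      (F.autGroup E).mul_mem ((F.autGroup E).mul_mem ((F.autGroup E).mul_mem hρG htG) ((F.autGroup E).inv_mem hρG))
        ((F.autGroup E).inv_mem htG)
    have hκres : resD (P.subgroupOf E) ⟨(s₀ * s₀) * autOfNormalizer X.hyn * (s₀ * s₀)⁻¹ * (autOfNormalizer X.hyn)⁻¹, stabComm_le _ hκC⟩ = 1 := by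
      have e : (⟨(s₀ * s₀) * autOfNormalizer X.hyn * (s₀ * s₀)⁻¹ * (autOfNormalizer X.hyn)⁻¹, stabComm_le _ hκC⟩ : stabD (P.subgroupOf E)) =
          ⟨s₀ * s₀, hρS⟩ * ⟨autOfNormalizer X.hyn, hG htG⟩ * ⟨s₀ * s₀, hρS⟩⁻¹ * ⟨autOfNormalizer X.hyn, hG htG⟩⁻¹ := rfl
      rw [e, map_mul, map_mul, map_mul, map_inv, map_inv, hρD]
      show (sD * sD) * tD * (sD * sD)⁻¹ * tD⁻¹ = 1
      rw [hcomm_ρ]
      group
    have hκfix : ∀ z ∈ P.subgroupOf E, ((s₀ * s₀) * autOfNormalizer X.hyn * (s₀ * s₀)⁻¹ * (autOfNormalizer X.hyn)⁻¹) z = z := by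
      intro z hz
      have e := congrArg (fun f : MulAut (P.subgroupOf E) => ((f ⟨z, hz⟩ : P.subgroupOf E) : E)) hκres
      exact e
    have hmono : ∀ i < 4, chain4 (P.subgroupOf E) (P.subgroupOf E) (P.subgroupOf E) i ≤
        chain4 (P.subgroupOf E) (P.subgroupOf E) (P.subgroupOf E) (i + 1) := by
      intro i hi
      interval_cases i
      · exact bot_le
      · exact le_rfl
      · exact le_rfl
      · exact le_top
    have hκchain : (s₀ * s₀) * autOfNormalizer X.hyn * (s₀ * s₀)⁻¹ * (autOfNormalizer X.hyn)⁻¹ ∈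
        stabChain (chain4 (P.subgroupOf E) (P.subgroupOf E) (P.subgroupOf E)) 4 hmono := by
      intro i hi z hz
      interval_cases i
      · rw [hκfix z hz, inv_mul_cancel]
        exact Subgroup.one_mem _
      · rw [hκfix z hz, inv_mul_cancel]
        exact Subgroup.one_mem _
      · rw [hκfix z hz, inv_mul_cancel]
        exact Subgroup.one_mem _
      · exact hκC z
    have hinv : ∀ g ∈ F.autGroup E, ∀ i ≤ 4, ∀ z ∈ chain4 (P.subgroupOf E) (P.subgroupOf E) (P.subgroupOf E) i,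
        g z ∈ chain4 (P.subgroupOf E) (P.subgroupOf E) (P.subgroupOf E) i := by
      intro g hg i hi z hz
      interval_cases i
      · have hz' : z = 1 := hz
        rw [hz', map_one]
        exact Subgroup.one_mem _
      · exact (hG hg z).1 hz
      · exact (hG hg z).1 hz
      · exact (hG hg z).1 hz
      · trivial
    have hcore := stabChain_mem_pCore h.hU _ 4 rfl hmono rfl hinv hκG hκchain
    have hrad := isRadical_of_essential h.hS h.hE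
    rw [hrad.2] at hcore
    obtain ⟨d, hd, hρd⟩ := exists_pow_of_normalize h.hS h.hF h.hP h.hE X.hyP X.hyn X.hyp hρG hcore
    obtain ⟨k, hk⟩ := h.aut_D X.hyP X.hyn (d := ⟨d, hd.1⟩) hd.2
    have hyd : y * d * y⁻¹ = d * a ^ k := congrArg Subtype.val hk
    have hc1 : y * a ^ k = a ^ k * y := (Commute.pow_right (h.hac y (hPS X.hyP)) k).eq
    have hc2 : d * a ^ k = a ^ k * d := (Commute.pow_right (h.hac d (hES hd.1)) k).eq
    have hcp : (a ^ k) ^ p = 1 := by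
      rw [← pow_mul, mul_comm, pow_mul, h.hap, one_pow]
    have hpw := class2_pow_p hp2 hc1 hc2 hyd hcp
    have hdp : d ^ p = 1 := congrArg Subtype.val (X.D_exp (d := ⟨d, hd.1⟩) hd.2)
    rw [hdp, mul_one] at hpw
    have hρy : ((s₀ * s₀) ⟨y ^ p, X.hyp⟩ : E) = ⟨y ^ p, X.hyp⟩ := Subtype.ext (hρd.trans hpw)
    -- in `D`
    have hyD : (⟨⟨y ^ p, X.hyp⟩, P.pow_mem X.hyP p⟩ : P.subgroupOf E) = b ^ (k₂ * k₃) := by
      apply Subtype.ext
      apply Subtype.ext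
      show y ^ p = ((b : E) : Ω) ^ (k₂ * k₃)
      rw [hk₃, pow_mul, ← haΩ]
    have hfixD : (sD * sD) (b ^ (k₂ * k₃)) = b ^ (k₂ * k₃) := by
      rw [← hyD, ← hρD]
      exact Subtype.ext hρy
    have hb' : (sD * sD) b = b⁻¹ := by
      show sD (sD b) = b⁻¹
      have h5 : sD b = a₂D⁻¹ := hsb
      have h6 : sD a₂D = b := hsa
      rw [h5, map_inv, h6]
    rw [map_pow, hb', inv_pow] at hfixD
    have hsq : (b ^ (k₂ * k₃)) ^ 2 = 1 := by
      rw [sq]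
      nth_rewrite 1 [← hfixD]
      exact inv_mul_cancel _
    have hcop : Nat.Coprime 2 p := (Nat.coprime_primes Nat.prime_two hpp).2 (Ne.symm hp2)
    have h5 := Nat.dvd_gcd (orderOf_dvd_of_pow_eq_one hsq) (orderOf_dvd_of_pow_eq_one (hexpD (b ^ (k₂ * k₃))))
    rw [hcop, Nat.dvd_one, orderOf_eq_one_iff] at h5
    rw [hym]
    show (ι b) ^ (k₂ * k₃) = 1
    rw [← map_pow, h5, map_one]
  exact ges_final (h.hS.to_le hPS) hBy hBA hyA hAp hBp hB1 hAB hym hAE hBE hyE hC hCexp hmeet hgen h2 hodd hy1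

end GESX

/-- A strongly closed generalized extraspecial subgroup of the excluded types is normal. -/
theorem isNormal_of_ges (hS : IsPGroup p S) (hF : F.IsSaturated p) {P : Subgroup Ω} (hP : F.StronglyClosed P)
    (hge : frattini ↥P = commutator ↥P ∧ Nat.card ↥(commutator ↥P) = p)
    (h2 : p = 2 → ¬ ∃ (A : Type) (_ : CommGroup A), (∀ a : A, a ^ 2 = 1) ∧ Nonempty (↥P ≃* DihedralGroup 4 × A))
    (hodd : p ≠ 2 → ¬ ∃ (E : Type) (_ : Group E) (A : Type) (_ : CommGroup A), Cfsg.IsExtraspecial p E ∧ Nat.card E = p ^ 3 ∧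
      Monoid.exponent E = p ∧ (∀ a : A, a ^ p = 1) ∧ Nonempty (↥P ≃* E × A)) : F.IsNormal P := by
  refine isNormal_of_essential_le hS hF hP (fun E hE => ?_)
  by_contra hne
  obtain ⟨a, haP, ha1, hap, hac, hcomm, hpow⟩ := exists_ges_data hS hP hge
  have h : GESCtx F p P E a := ⟨hS, hF, hP, hE, haP, ha1, hap, hac, hcomm, hpow⟩
  obtain ⟨H, hHG, hHs, x, hxG, hxH, hxa⟩ := h.exists_x hne
  obtain ⟨y, hyP, hyE, hyn, hyp⟩ := exists_elt_normalizing hS h.hES h.hPS (normalizer_of_stronglyClosed hP) hne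
  exact (⟨hHG, hHs, hxG, hxH, hxa, hyP, hyE, hyn, hyp⟩ : GESX h H x y).contra h2 hodd

end Cfsg.Agent.Lib.Fusion2
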