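import Cfsg.Agent.Lib.Fusion2.SimpleReal
import Cfsg.Agent.Lib.Fusion2.NormalAPI
import Cfsg.Agent.Lib.Fusion.Model3
import Cfsg.Agent.Lib.Char.RelIto
import Cfsg.Agent.Lib.PGroups.CyclicSylow
import Cfsg.Agent.Lib.Coprime.PSolvable
import Cfsg.Agent.Lib.Char.PBlock
import Cfsg.Agent.Lib.Basic.Solv1
import Cfsg.Agent.Lib.PLocal.PConstrained

/-!
# Fusion systems of `p`-soluble groups
-/

set_option autoImplicit false
set_option linter.unusedSectionVars false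

namespace Cfsg.Agent.Lib.Fusion2.PSolvReal

open Cfsg Cfsg.FusionSystem Cfsg.Agent.Lib.Fusion Cfsg.Agent.Lib.Fusion2.SimpleReal

universe u

variable {Ω : Type u} [Group Ω] {S : Subgroup Ω} {F : FusionSystem S} {G : Type*} [Group G] {ι : S →* G}

/-- The image of `Q`. -/
noncomputable def Qi (ι : S →* G) (Q : Subgroup Ω) : Subgroup G := (Q.subgroupOf S).map ι

theorem mem_Qi {Q : Subgroup Ω} {y : G} : y ∈ Qi ι Q ↔ ∃ x ∈ Q, x ∈ S ∧ jj ι x = y := by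
  constructor
  · rintro ⟨⟨x, hxS⟩, hx, rfl⟩
    exact ⟨x, hx, hxS, jj_of_mem hxS⟩
  · rintro ⟨x, hx, hxS, rfl⟩
    exact ⟨⟨x, hxS⟩, hx, (jj_of_mem hxS).symm⟩

/-- `Q` and its image. -/
noncomputable def eQ (hι : Function.Injective ι) {Q : Subgroup Ω} (hQ : Q ≤ S) : Q ≃* Qi ι Q :=
  (Subgroup.subgroupOfEquivOfLe hQ).symm.trans (Subgroup.equivMapOfInjective _ ι hι)

theorem eQ_coe (hι : Function.Injective ι) {Q : Subgroup Ω} (hQ : Q ≤ S) (x : Q) :
    ((eQ hι hQ x : Qi ι Q) : G) = jj ι (x : Ω) :=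
  (jj_of_mem (hQ x.2)).symm

/-- The action of the normalizer of the image. -/
noncomputable def ff (hι : Function.Injective ι) {Q : Subgroup Ω} (hQ : Q ≤ S) :
    Subgroup.normalizer ((Qi ι Q : Subgroup G) : Set G) →* MulAut Q :=
  (MulAut.congr (eQ hι hQ).symm).toMonoidHom.comp (Qi ι Q).normalizerMonoidHom

theorem jj_ff (hι : Function.Injective ι) {Q : Subgroup Ω} (hQ : Q ≤ S)
    (a : Subgroup.normalizer ((Qi ι Q : Subgroup G) : Set G)) (x : Q) :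
    jj ι ((ff hι hQ a x : Q) : Ω) = (a : G) * jj ι (x : Ω) * (a : G)⁻¹ := by
  have h1 : eQ hι hQ (ff hι hQ a x) = (Qi ι Q).normalizerMonoidHom a (eQ hι hQ x) := by
    show eQ hι hQ ((eQ hι hQ).symm _) = _
    rw [MulEquiv.apply_symm_apply]
    rfl
  rw [← eQ_coe hι hQ, h1, ← eQ_coe hι hQ]
  rfl

theorem ff_mem (hreal : F.IsRealizedBy ι) {Q : Subgroup Ω} (hQ : Q ≤ S)
    (a : Subgroup.normalizer ((Qi ι Q : Subgroup G) : Set G)) : ff hreal.1 hQ a ∈ F.autGroup Q := by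
  refine (mem_autGroup_iff hQ).2 ?_
  refine (hreal.2 Q hQ _ (fun x => hQ (ff hreal.1 hQ a x).2)).2 ⟨a, fun x => ?_⟩
  rw [← jj_of_mem, ← jj_of_mem (hQ x.2)]
  exact jj_ff hreal.1 hQ a x

/-- The normalizer of the image maps to `Aut_F(Q)`. -/
noncomputable def gg (hreal : F.IsRealizedBy ι) {Q : Subgroup Ω} (hQ : Q ≤ S) :
    Subgroup.normalizer ((Qi ι Q : Subgroup G) : Set G) →* F.autGroup Q :=
  (ff hreal.1 hQ).codRestrict _ (ff_mem hreal hQ)

theorem gg_surjective [Finite G] (hreal : F.IsRealizedBy ι) {Q : Subgroup Ω} (hQ : Q ≤ S) : Function.Surjective (gg hreal hQ) := by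
  rintro ⟨α, hα⟩
  have hφ := (mem_autGroup_iff hQ).1 hα
  obtain ⟨g, hg⟩ := (hreal.2 Q hQ _ (val_mem hφ)).1 hφ
  have hgv : ∀ x : Q, jj ι ((α x : Q) : Ω) = g * jj ι (x : Ω) * g⁻¹ := by
    intro x
    rw [jj_of_mem (hQ (α x).2), jj_of_mem (hQ x.2)]
    exact hg x
  have hn : g ∈ Subgroup.normalizer ((Qi ι Q : Subgroup G) : Set G) := by
    refine mem_normalizer_of_conj_mem (S := (⊤ : Subgroup G)) le_top (fun y hy => ?_)
    obtain ⟨x, hx, -, rfl⟩ := mem_Qi.1 hy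
    rw [← hgv ⟨x, hx⟩]
    exact mem_Qi.2 ⟨_, (α ⟨x, hx⟩).2, hQ (α ⟨x, hx⟩).2, rfl⟩
  refine ⟨⟨g, hn⟩, Subtype.ext (MulEquiv.ext (fun x => Subtype.ext ?_))⟩
  apply jj_inj hreal.1 (hQ (ff hreal.1 hQ _ x).2) (hQ (α x).2)
  show jj ι ((ff hreal.1 hQ _ x : Q) : Ω) = _
  rw [jj_ff, hgv]

theorem mem_centralizer_of_ker (hreal : F.IsRealizedBy ι) {Q : Subgroup Ω} (hQ : Q ≤ S)
    {a : Subgroup.normalizer ((Qi ι Q : Subgroup G) : Set G)} (ha : gg hreal hQ a = 1) :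
    (a : G) ∈ Subgroup.centralizer ((Qi ι Q : Subgroup G) : Set G) := by
  rw [Subgroup.mem_centralizer_iff]
  intro y hy
  obtain ⟨x, hx, -, rfl⟩ := mem_Qi.1 hy
  have h1 : ff hreal.1 hQ a = 1 := congrArg Subtype.val ha
  have h2 := jj_ff hreal.1 hQ a ⟨x, hx⟩
  rw [h1] at h2
  have h3 : jj ι x = (a : G) * jj ι x * (a : G)⁻¹ := h2
  rw [eq_mul_inv_iff_mul_eq] at h3
  exact h3

variable {p : ℕ} [hp : Fact p.Prime]

/-- All `Aut_F(Q)` are `p`-soluble for `F` realized by a `p`-soluble group. -/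
theorem isPSolvable_autGroup [Finite G] (hreal : F.IsRealizedBy ι) (hG : IsPSolvable p G) {Q : Subgroup Ω} (hQ : Q ≤ S) :
    IsPSolvable p (F.autGroup Q) :=
  Cfsg.Agent.Lib.Coprime.isPSolvable_map (gg hreal hQ) (gg_surjective hreal hQ) (Cfsg.Agent.Lib.Char.isPSolvable_subgroup hG _)

/-- A model of `F` is `p`-soluble if `Aut_F(O_p(F))` is. -/
theorem isPSolvable_of_model [Finite S] (hM : F.IsModel p G ι) (haut : IsPSolvable p (F.autGroup F.core)) : IsPSolvable p G := by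
  classical
  obtain ⟨hfin, hreal, ⟨T, hT⟩, hcen⟩ := hM
  have hι := hreal.1
  have hOn : (pCore p G).Normal := Cfsg.Agent.Lib.Basic.pCore_normal p
  have hOT : pCore p G ≤ ι.range := by
    rw [← hT]
    exact Cfsg.Agent.Lib.Basic.normal_pGroup_le_sylow hOn (Cfsg.Agent.Lib.Basic.pCore_isPGroup p) T
  have hO₀n := isNormal_pullback hreal hOn hOT
  have hQn := Cfsg.Agent.Lib.Fusion2.core_isNormal F
  have hO₀Q : pullback ι (pCore p G) ≤ F.core := le_sSup hO₀n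
  have hQS := hQn.1
  have hO₀S := pullback_le (ι := ι) (pCore p G)
  have hOQ : ∀ y ∈ pCore p G, ∃ x ∈ pullback ι (pCore p G), jj ι x = y := by
    intro y hy
    obtain ⟨x, hxS, rfl⟩ := exists_jj (hOT hy)
    exact ⟨x, mem_pull.2 ⟨hxS, hy⟩, rfl⟩
  have hOQi : pCore p G ≤ Qi ι F.core := by
    intro y hy
    obtain ⟨x, hx, rfl⟩ := hOQ y hy
    exact mem_Qi.2 ⟨x, hO₀Q hx, hO₀S hx, rfl⟩
  have hnorm : ∀ g y, y ∈ Qi ι F.core → g * y * g⁻¹ ∈ Qi ι F.core := by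
    intro g y hy
    obtain ⟨f, hf, hfv⟩ := exists_map_of_conj hreal hO₀S (d := g) (fun y hy => hOT (hOn.conj_mem _ (mem_pull.1 hy).2 g))
    obtain ⟨φ, hφ, hφv⟩ := hf
    obtain ⟨ψ, hψ, hag, him⟩ := hQn.2 _ φ hφ
    have hXS : pullback ι (pCore p G) ⊔ F.core ≤ S := sup_le hO₀S hQS
    obtain ⟨h, hh⟩ := (hreal.2 _ hXS ψ (val_mem hψ)).1 hψ
    have hhj : ∀ x : ↥(pullback ι (pCore p G) ⊔ F.core), jj ι (ψ x) = h * jj ι (x : Ω) * h⁻¹ := by
      intro x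
      rw [jj_of_mem (val_mem hψ x), jj_of_mem (hXS x.2)]
      exact hh x
    have hc : h⁻¹ * g ∈ Subgroup.centralizer ((pCore p G : Subgroup G) : Set G) := by
      rw [Subgroup.mem_centralizer_iff]
      intro o ho
      obtain ⟨x, hx, rfl⟩ := hOQ o ho
      have h1 := hhj (Subgroup.inclusion le_sup_left ⟨x, hx⟩)
      rw [hag, hφv, (hfv x hx).2] at h1
      have h2 : g * jj ι x * g⁻¹ = h * jj ι x * h⁻¹ := h1
      have h3 : jj ι x = (h⁻¹ * g) * jj ι x * (h⁻¹ * g)⁻¹ := by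
        calc jj ι x = h⁻¹ * (h * jj ι x * h⁻¹) * h := by group
          _ = h⁻¹ * (g * jj ι x * g⁻¹) * h := by rw [h2]
          _ = _ := by group
      rw [eq_mul_inv_iff_mul_eq] at h3
      exact h3
    have hcO := hOQi (hcen hc)
    have hg1 : g = h * (h⁻¹ * g) := by group
    obtain ⟨c, hcdef⟩ : ∃ c, c = h⁻¹ * g := ⟨_, rfl⟩
    rw [← hcdef] at hcO hg1
    have hcy : c * y * c⁻¹ ∈ Qi ι F.core := Subgroup.mul_mem _ (Subgroup.mul_mem _ hcO hy) (Subgroup.inv_mem _ hcO)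
    obtain ⟨x', hx', hx'S, hx'e⟩ := mem_Qi.1 hcy
    have h1 := hhj ⟨x', Subgroup.mem_sup_right hx'⟩
    have hψQ : ψ ⟨x', Subgroup.mem_sup_right hx'⟩ ∈ F.core := him.le ⟨⟨x', Subgroup.mem_sup_right hx'⟩, hx', rfl⟩
    have h2 : g * y * g⁻¹ = h * (c * y * c⁻¹) * h⁻¹ := by
      rw [hg1]
      group
    rw [h2, ← hx'e]
    refine mem_Qi.2 ⟨_, hψQ, hQS hψQ, ?_⟩
    rw [h1]
  have hQiN : (Qi ι F.core).Normal := ⟨fun y hy g => hnorm g y hy⟩
  have hQip : IsPGroup p (Qi ι F.core) := by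
    have h1 : IsPGroup p (T : Subgroup G) := T.isPGroup'
    refine h1.to_le ?_
    rw [hT]
    rintro _ ⟨x, -, rfl⟩
    exact ⟨x, rfl⟩
  have hQiO : Qi ι F.core ≤ pCore p G := Cfsg.Agent.Lib.Basic.le_pCore hQiN hQip
  have hC : Subgroup.centralizer ((Qi ι F.core : Subgroup G) : Set G) ≤ pCore p G :=
    (Subgroup.centralizer_le hOQi).trans hcen
  have hker : IsPGroup p (gg hreal hQS).ker := by
    rintro ⟨a, ha⟩
    have h1 := hC (mem_centralizer_of_ker hreal hQS ha)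
    obtain ⟨k, hk⟩ := Cfsg.Agent.Lib.Basic.pCore_isPGroup p ⟨_, h1⟩
    refine ⟨k, Subtype.ext (Subtype.ext ?_)⟩
    simpa using congrArg Subtype.val hk
  obtain ⟨m, hm⟩ := IsPGroup.iff_card.1 hker
  have h1 : IsPSolvable p (Subgroup.normalizer ((Qi ι F.core : Subgroup G) : Set G) ⧸ (gg hreal hQS).ker) :=
    Cfsg.Agent.Lib.Coprime.isPSolvable_map (QuotientGroup.quotientKerEquivOfSurjective _ (gg_surjective hreal hQS)).symm.toMonoidHom
      (MulEquiv.surjective _) haut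
  have h2 := Cfsg.Agent.Lib.PGroups.isPSolvable_of_quotient (gg hreal hQS).ker (Or.inl ⟨m, hm⟩) h1
  refine Cfsg.Agent.Lib.Coprime.isPSolvable_map (Subgroup.normalizer ((Qi ι F.core : Subgroup G) : Set G)).subtype ?_ h2
  intro g
  refine ⟨⟨g, Subgroup.mem_normalizer_iff.2 (fun y => ⟨fun h => hnorm g y h, fun h => ?_⟩)⟩, rfl⟩
  have := hnorm g⁻¹ _ h
  simpa [mul_assoc] using this

theorem main {Ω : Type u} [Group Ω] {S : Subgroup Ω} [Finite S] (hS : IsPGroup p S) (F : FusionSystem S) (hF : F.IsSaturated p) :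
    (∃ (G : Type u) (_ : Group G) (_ : Finite G) (ι : S →* G), IsPSolvable p G ∧ F.IsRealizedBy ι ∧
        ∃ T : Sylow p G, (T : Subgroup G) = ι.range) ↔
      (F.IsConstrained p ∧ IsPSolvable p ↥(F.autGroup F.core)) := by
  constructor
  · rintro ⟨G, i1, i2, ι, hG, hreal, T, hT⟩
    refine ⟨?_, isPSolvable_autGroup hreal hG (Cfsg.Agent.Lib.Fusion2.core_isNormal F).1⟩
    -- the quotient by `O_{p'}(G)` is a model
    haveI hK : (pPrimeCore p G).Normal := pPrimeCore_normal p G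
    have hbot : pullback ι (pPrimeCore p G) = ⊥ := by
      rw [eq_bot_iff]
      intro x hx
      obtain ⟨hxS, hxK⟩ := mem_pull.1 hx
      have h1 : jj ι x ∈ pPrimeCore p G ⊓ (T : Subgroup G) := by
        refine ⟨hxK, ?_⟩
        rw [hT]
        exact jj_mem_range hxS
      have hcop : (Nat.card (pPrimeCore p G)).Coprime p := Cfsg.Agent.Lib.Basic.pPrimeCore_coprime p
      rw [Cfsg.Agent.Lib.PLocal.inf_bot_of_coprime hcop T.isPGroup', Subgroup.mem_bot] at h1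
      have h2 : x = 1 := jj_inj hreal.1 hxS S.one_mem (by rw [h1, jj_one])
      rw [h2]
      exact Subgroup.one_mem _
    obtain ⟨h1, h2⟩ := realized_quot hreal (pPrimeCore p G) T hT hbot
    have hGq : IsPSolvable p (G ⧸ pPrimeCore p G) :=
      Cfsg.Agent.Lib.Coprime.isPSolvable_map (QuotientGroup.mk' _) (QuotientGroup.mk'_surjective _) hG
    have hM : F.IsModel p (G ⧸ pPrimeCore p G) ((QuotientGroup.mk' (pPrimeCore p G)).comp ι) :=
      ⟨inferInstance, h1, h2, Cfsg.Agent.Lib.Char.centralizer_pCore_le_of_isPSolvable hGq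
        (Cfsg.Agent.Lib.Basic.pPrimeCore_quotient_eq_bot p)⟩
    exact isConstrained_of_model hM
  · rintro ⟨hc, haut⟩
    obtain ⟨G, i1, ι, hM⟩ := exists_model hS hc
    exact ⟨G, i1, hM.1, ι, isPSolvable_of_model hM haut, hM.2.1, hM.2.2.1⟩

end Cfsg.Agent.Lib.Fusion2.PSolvReal
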