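import Cfsg.Agent.Lib.Fusion.ParkAb
import Cfsg.Agent.Lib.Fusion2.CharBiset
import Cfsg.Agent.Lib.Fusion.MapOn

/-!
# Every fusion system over a finite group is realized inside a finite group
-/

set_option autoImplicit false
set_option linter.unusedSectionVars false

namespace Cfsg.Agent.Lib.Fusion2.ParkAny

open Cfsg Cfsg.FusionSystem Cfsg.Agent.Lib.Fusion Cfsg.Agent.Lib.Fusion2

universe u

variable {G₀ : Type*} [Group G₀] [Finite G₀]

theorem mk_mul (c : ℕ) (m : Subgroup G₀ → ℕ) (L : Subgroup G₀) :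
    mk (XS (fun K => c * m K)) L = c * mk (XS m) L := by
  classical
  letI : Fintype (Subgroup G₀) := Fintype.ofFinite _
  rw [mk_XS, mk_XS, Finset.mul_sum]
  refine Finset.sum_congr rfl (fun K _ => ?_)
  ring

theorem fp_self_dvd (K : Subgroup G₀) : fp K K ∣ Nat.card G₀ := by
  rw [fp_self]
  exact (Subgroup.index_dvd_card _).trans (Subgroup.card_subgroup_dvd_card _)

variable {Ω : Type u} [Group Ω] {S : Subgroup Ω} {F : FusionSystem S} [Finite S]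

/-- The step between two levels, for any fusion system. -/
theorem exists_level (m : Subgroup (↥S × ↥S) → ℕ) (hm : ∀ K, m K ≠ 0 → IsG F K)
    (n : ℕ) (hst : StableAt F (XS m) (n + 1)) :
    ∃ m' : Subgroup (↥S × ↥S) → ℕ, (∀ K, m' K ≠ 0 → IsG F K) ∧ StableAt F (XS m') n ∧
      ∀ L : Subgroup (↥S × ↥S), n < Nat.card L → 0 < mk (XS m) L → 0 < mk (XS m') L := by
  classical
  have hNpos : 0 < Nat.card (↥S × ↥S) := Nat.card_pos
  obtain ⟨N, hN⟩ : ∃ N, N = Nat.card (↥S × ↥S) := ⟨_, rfl⟩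
  rw [← hN] at hNpos
  let 𝓛 : Set (Subgroup (↥S × ↥S)) := {K | ∃ (P : Subgroup Ω) (φ : P →* Ω), φ ∈ F.Hom P ∧ K = gr S P φ ∧ Nat.card P = n}
  have hmkle : ∀ L : Subgroup (↥S × ↥S), mk (XS m) L ≤ Nat.card (XS m) := fun L =>
    Nat.card_le_card_of_injective (fun x : {x : XS m // ∀ g ∈ L, g • x = x} => x.1) Subtype.val_injective
  obtain ⟨m', h1, h2, h3⟩ := exists_step (fun K => N * m K) 𝓛 n
    (by
      rintro K ⟨P, φ, hφ, rfl, hcard⟩
      rw [card_gr hφ, hcard])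
    (by
      rintro K ⟨P, φ, hφ, rfl, hcard⟩ g
      obtain ⟨R', χ', hχ', h, hc⟩ := (tw_cj (F := F) (gr S P φ) g).isG hφ rfl
      exact ⟨R', χ', hχ', h, by rw [← isConj_card_eq hc, hcard]⟩)
    (fun _ => N * Nat.card (XS m))
    (fun _ _ _ => rfl)
    (by
      rintro K -
      rw [mk_mul]
      refine ⟨Nat.mul_le_mul_left _ (hmkle K), ?_⟩
      rw [← Nat.mul_sub]
      exact Dvd.dvd.mul_right (hN ▸ fp_self_dvd K) _)
  refine ⟨m', ?_, ?_, ?_⟩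
  · intro K hK
    by_cases hK𝓛 : K ∈ 𝓛
    · obtain ⟨P, φ, hφ, hKeq, -⟩ := hK𝓛
      exact ⟨P, φ, hφ, hKeq⟩
    · rw [h1 K hK𝓛] at hK
      exact hm K (fun h => hK (by rw [h, mul_zero]))
  · intro P P' φ φ' hφ hφ' hc hle
    have hcc := isConj_card_eq hc
    rcases eq_or_lt_of_le hle with heq | hlt
    · have hP1 : gr S P φ ∈ 𝓛 := ⟨P, φ, hφ, rfl, heq.symm⟩
      have hP2 : gr S P' φ' ∈ 𝓛 := ⟨P', φ', hφ', rfl, by rw [← hcc, ← heq]⟩
      rw [h2 _ hP1, h2 _ hP2]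
    · rw [h3 _ (by rwa [card_gr hφ]), h3 _ (by rwa [card_gr hφ', ← hcc]), mk_mul, mk_mul, hst P P' φ φ' hφ hφ' hc hlt]
  · intro L hL hpos
    rw [h3 _ hL, mk_mul]
    exact Nat.mul_pos hNpos hpos

/-- **The multiplicities of a stable biset.** -/
theorem exists_marks :
    ∃ m : Subgroup (↥S × ↥S) → ℕ, (∀ K, m K ≠ 0 → IsG F K) ∧ StableAt F (XS m) 0 ∧
      ∀ ψ ∈ F.Hom S, 0 < mk (XS m) (gr S S ψ) := by
  classical
  have key : ∀ k, k ≤ Nat.card S → ∃ m : Subgroup (↥S × ↥S) → ℕ, (∀ K, m K ≠ 0 → IsG F K) ∧ StableAt F (XS m) (Nat.card S - k) ∧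
      ∀ ψ ∈ F.Hom S, 0 < mk (XS m) (gr S S ψ) := by
    intro k
    induction k with
    | zero =>
      intro _
      let 𝓛 : Set (Subgroup (↥S × ↥S)) := {K | ∃ ψ : ↥S →* Ω, ψ ∈ F.Hom S ∧ K = gr S S ψ}
      obtain ⟨m₁, h1, h2, -⟩ := exists_step (fun _ => 0) 𝓛 (Nat.card S)
        (by
          rintro K ⟨ψ, hψ, rfl⟩
          exact card_gr hψ)
        (by
          rintro K ⟨ψ, hψ, rfl⟩ g
          obtain ⟨R', χ', hχ', h, hc⟩ := (tw_cj (F := F) (gr S S ψ) g).isG hψ rfl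
          have hR' : R' = S := eq_S_of_card (isConj_le_right hc) (isConj_card_eq hc).le
          subst hR'
          exact ⟨χ', hχ', h⟩)
        (fun _ => Nat.card (↥S × ↥S)) (fun _ _ _ => rfl)
        (by
          rintro K ⟨ψ, hψ, rfl⟩
          have h0 : mk (XS (fun _ : Subgroup (↥S × ↥S) => 0)) (gr S S ψ) = 0 := by
            letI : Fintype (Subgroup (↥S × ↥S)) := Fintype.ofFinite _
            rw [mk_XS]
            simp
          rw [h0]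
          exact ⟨Nat.zero_le _, by simpa using fp_self_dvd (gr S S ψ)⟩)
      refine ⟨m₁, ?_, ?_, ?_⟩
      · intro K hK
        by_cases hK𝓛 : K ∈ 𝓛
        · obtain ⟨ψ, hψ, rfl⟩ := hK𝓛
          exact ⟨S, ψ, hψ, rfl⟩
        · rw [h1 K hK𝓛] at hK
          exact (hK rfl).elim
      · intro P P' φ φ' hφ hφ' hc hle
        have hP : P = S := eq_S_of_card (le_of_hom hφ) hle
        subst hP
        have hP' : P' = P := eq_S_of_card (le_of_hom hφ') (by rw [← isConj_card_eq hc])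
        subst hP'
        rw [h2 _ ⟨φ, hφ, rfl⟩, h2 _ ⟨φ', hφ', rfl⟩]
      · intro ψ hψ
        rw [h2 _ ⟨ψ, hψ, rfl⟩]
        exact Nat.card_pos
    | succ k ih =>
      intro hk
      obtain ⟨m, hm, hst, htop⟩ := ih (by omega)
      have hn : Nat.card S - (k + 1) + 1 = Nat.card S - k := by omega
      obtain ⟨m', h1, h2, h3⟩ := exists_level m hm (Nat.card S - (k + 1)) (by rwa [hn])
      refine ⟨m', h1, h2, fun ψ hψ => ?_⟩
      exact h3 _ (by rw [card_gr hψ]; omega) (htop ψ hψ)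
  obtain ⟨m, h1, h2, h3⟩ := key (Nat.card S) le_rfl
  refine ⟨m, h1, ?_, h3⟩
  rwa [Nat.sub_self] at h2

/-- A stable biset is isomorphic to its twist along a map of the system. -/
theorem exists_twist_iso {X : Type*} [MulAction (↥S × ↥S) X] [Finite X]
    (hXG : ∀ x : X, IsG F (MulAction.stabilizer (↥S × ↥S) x)) (hXst : StableAt F X 0)
    {P : Subgroup Ω} {φ : P →* Ω} (hφ : φ ∈ F.Hom P) :
    ∃ g : X ≃ X, (∀ (x : X) (s : ↥S), g (((1 : ↥S), s) • x) = ((1 : ↥S), s) • g x) ∧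
      ∀ (v : P) (x : X), g (((⟨v, le_of_hom hφ v.2⟩ : ↥S), (1 : ↥S)) • x) = ((⟨φ v, val_mem hφ v⟩ : ↥S), (1 : ↥S)) • g x := by
  have hPS : P ≤ S := le_of_hom hφ
  haveI : Finite P := finite_of_le hPS
  let ι₁ : ↥P × ↥S →* ↥S × ↥S := MonoidHom.prodMap (Subgroup.inclusion hPS) (MonoidHom.id ↥S)
  let ι₂ : ↥P × ↥S →* ↥S × ↥S := MonoidHom.prodMap (φ.codRestrict S (val_mem hφ)) (MonoidHom.id ↥S)
  have hmarks : ∀ L : Subgroup (↥P × ↥S), Nat.card {y : TwS ι₁ X // ∀ γ ∈ L, γ • y = y} =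
      Nat.card {y : TwS ι₂ X // ∀ γ ∈ L, γ • y = y} := by
    intro L
    rw [mk_tws, mk_tws]
    refine mk_eq_of_tw hXG ⟨P, S, φ, S.subtype, hφ, subtype_mem F le_rfl, ?_, ?_⟩ ?_
    · rintro _ ⟨γ, hγ, rfl⟩
      exact ⟨γ.1.2, γ.2.2, ι₂ γ, ⟨γ, hγ, rfl⟩, rfl, rfl⟩
    · rintro _ ⟨γ, hγ, rfl⟩
      exact ⟨ι₁ γ, ⟨γ, hγ, rfl⟩, γ.1.2, γ.2.2, rfl, rfl⟩
    · intro R R' χ χ' hχ hχ' h1 h2 hc
      rw [h1, h2]
      exact hXst R R' χ χ' hχ hχ' hc (Nat.zero_le _)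
  obtain ⟨e, he⟩ := exists_equiv_of_marks hmarks
  refine ⟨e, fun x s => ?_, fun v x => ?_⟩
  · let e' : X ≃ X := e
    have h3 : e' (((1 : ↥S), s) • x) = ι₂ ((1 : ↥P), s) • e' x := he ((1 : ↥P), s) x
    have e2 : ι₂ ((1 : ↥P), s) = ((1 : ↥S), s) := Prod.ext (Subtype.ext (map_one φ)) rfl
    rw [e2] at h3
    exact h3
  · have := he (v, (1 : ↥S)) x
    exact this

theorem main : ∃ (G : Type u) (_ : Group G) (_ : Finite G) (ι : ↥S →* G), F.IsRealizedBy ι := by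
  classical
  obtain ⟨m, hm, hst, htop⟩ := exists_marks (F := F)
  have hXG : ∀ x : XS m, IsG F (MulAction.stabilizer (↥S × ↥S) x) := isG_stab_XS hm
  have hid : S.subtype ∈ F.Hom S := subtype_mem F le_rfl
  have hpos := htop _ hid
  obtain ⟨⟨x₀, hx₀⟩⟩ : Nonempty {x : XS m // ∀ g ∈ gr S S S.subtype, g • x = x} := by
    by_contra hne
    rw [not_nonempty_iff] at hne
    rw [mk, Nat.card_of_isEmpty] at hpos
    exact lt_irrefl _ hpos
  have hdiag : ∀ s : ↥S, (s, s) • x₀ = x₀ := fun s => hx₀ _ ⟨s.2, rfl⟩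
  refine ⟨↥(rG ↥S (XS m)), inferInstance, inferInstance, lH, ?_, ?_⟩
  · intro s t hst'
    obtain ⟨P, φ, hφ, hstab⟩ := hXG x₀
    have h1 : ((lH s : rG ↥S (XS m)) : Equiv.Perm (XS m)) x₀ = ((lH t : rG ↥S (XS m)) : Equiv.Perm (XS m)) x₀ := by rw [hst']
    rw [lH_apply, lH_apply] at h1
    have h2 : (t⁻¹ * s, (1 : ↥S)) ∈ MulAction.stabilizer (↥S × ↥S) x₀ := by
      rw [MulAction.mem_stabilizer_iff]
      have : (t⁻¹ * s, (1 : ↥S)) = (t⁻¹, (1 : ↥S)) * (s, (1 : ↥S)) := by simp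
      rw [this, mul_smul, h1, ← mul_smul]
      have e : ((t⁻¹, (1 : ↥S)) : ↥S × ↥S) * (t, (1 : ↥S)) = 1 := by
        refine Prod.ext ?_ ?_ <;> simp
      rw [e, one_smul]
    rw [hstab] at h2
    obtain ⟨h3, h4⟩ := h2
    have h5 : (⟨((t⁻¹ * s : ↥S) : Ω), h3⟩ : P) = 1 := inj hφ (by rw [h4, map_one]; rfl)
    have h6 : ((t⁻¹ * s : ↥S) : Ω) = 1 := congrArg Subtype.val h5
    have h7 : t⁻¹ * s = 1 := Subtype.ext h6
    exact (inv_mul_eq_one.1 h7).symm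
  · intro P hP φ hφS
    constructor
    · intro hφ
      obtain ⟨g, hgr, hgl⟩ := exists_twist_iso hXG hst hφ
      refine ⟨⟨g, hgr⟩, fun x => Subtype.ext (Equiv.ext (fun y => ?_))⟩
      show ((⟨φ x, hφS x⟩ : ↥S), (1 : ↥S)) • y = g (((⟨x, hP x.2⟩ : ↥S), (1 : ↥S)) • g⁻¹ y)
      have := hgl x (g⁻¹ y)
      rw [this]
      simp
    · rintro ⟨g, hg⟩
      have hg1 : ∀ (v : P) (y : XS m), (g : Equiv.Perm (XS m)) (((⟨v, hP v.2⟩ : ↥S), (1 : ↥S)) • y) =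
          ((⟨φ v, hφS v⟩ : ↥S), (1 : ↥S)) • (g : Equiv.Perm (XS m)) y := by
        intro v y
        have h1 := congrArg (fun w : rG ↥S (XS m) => (w : Equiv.Perm (XS m)) ((g : Equiv.Perm (XS m)) y)) (hg v)
        simp only [Subgroup.coe_mul, Equiv.Perm.coe_mul, Function.comp_apply, lH_apply, Subgroup.coe_inv] at h1
        have e : ((g : Equiv.Perm (XS m)))⁻¹ ((g : Equiv.Perm (XS m)) y) = y := by simp
        rw [e] at h1
        exact h1.symm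
      obtain ⟨Q, ψ, hψ, hstab⟩ := hXG ((g : Equiv.Perm (XS m)) x₀)
      have hfix : ∀ v : P, ((⟨φ v, hφS v⟩ : ↥S), (⟨v, hP v.2⟩ : ↥S)) ∈ gr S Q ψ := by
        intro v
        rw [← hstab, MulAction.mem_stabilizer_iff]
        have e : ((⟨φ v, hφS v⟩ : ↥S), (⟨v, hP v.2⟩ : ↥S)) = ((⟨φ v, hφS v⟩ : ↥S), (1 : ↥S)) * ((1 : ↥S), (⟨v, hP v.2⟩ : ↥S)) := by
          simp
        have e2 : ((⟨v, hP v.2⟩ : ↥S), (⟨v, hP v.2⟩ : ↥S)) = ((⟨v, hP v.2⟩ : ↥S), (1 : ↥S)) * ((1 : ↥S), (⟨v, hP v.2⟩ : ↥S)) := by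
          simp
        have h1 := hdiag ⟨v, hP v.2⟩
        rw [e, mul_smul, ← g.2 x₀ ⟨v, hP v.2⟩, ← hg1]
        congr 1
        rw [← mul_smul, ← e2, h1]
      have hle : φ.range ≤ Q := by
        rintro _ ⟨v, rfl⟩
        exact (hfix v).1
      have hψv : ∀ v : P, toFun ψ (φ v) = v := by
        intro v
        obtain ⟨h1, h2⟩ := hfix v
        rw [toFun_of_mem ψ h1]
        exact h2
      have hf : IsMapOn F φ.range (toFun ψ) := (isMapOn_toFun hψ).mono hle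
      have hI : IsImage (toFun ψ) φ.range P := by
        intro y
        constructor
        · intro hy
          exact ⟨φ ⟨y, hy⟩, ⟨_, rfl⟩, hψv _⟩
        · rintro ⟨_, ⟨v, rfl⟩, rfl⟩
          rw [hψv]
          exact v.2
      obtain ⟨i, hi, -, hif, -⟩ := hf.exists_inv hI
      obtain ⟨φ', hφ', hv⟩ := hi
      have : φ' = φ := by
        ext v
        rw [hv]
        have := hif _ (⟨v, rfl⟩ : φ v ∈ φ.range)
        rwa [hψv] at this
      rwa [← this]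

end Cfsg.Agent.Lib.Fusion2.ParkAny
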