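/-
Relative trace on a finite abelian group: `∏_{c ∈ G/T} c.out x`, and the resulting decomposition `C_V(T) = C_V(G) × K` when the
index of `T` is prime to `|V|`.
-/
import Cfsg.Agent.Lib.Fusion2.Abelian

set_option autoImplicit false

namespace Cfsg.Agent.Lib.Fusion2

variable {G V : Type*} [Group G] [Finite G] [Group V]

/-- Relative trace. -/
noncomputable def relTrace (hcomm : ∀ a b : V, a * b = b * a) (ρ : G →* MulAut V) (T : Subgroup G) (x : V) : V :=
  letI : CommGroup V := { (inferInstance : Group V) with mul_comm := hcomm }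
  letI : Fintype (G ⧸ T) := Fintype.ofFinite _
  ∏ c : G ⧸ T, ρ c.out x

theorem relTrace_mul (hcomm : ∀ a b : V, a * b = b * a) (ρ : G →* MulAut V) (T : Subgroup G) (x y : V) :
    relTrace hcomm ρ T (x * y) = relTrace hcomm ρ T x * relTrace hcomm ρ T y := by
  letI : CommGroup V := { (inferInstance : Group V) with mul_comm := hcomm }
  letI : Fintype (G ⧸ T) := Fintype.ofFinite _
  show (∏ c : G ⧸ T, ρ c.out (x * y)) = (∏ c : G ⧸ T, ρ c.out x) * ∏ c : G ⧸ T, ρ c.out y
  simp only [map_mul]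
  exact Finset.prod_mul_distrib

theorem relTrace_apply (hcomm : ∀ a b : V, a * b = b * a) (ρ : G →* MulAut V) (T : Subgroup G) {x : V}
    (hx : x ∈ fixedSub (T.map ρ)) (g : G) : ρ g (relTrace hcomm ρ T x) = relTrace hcomm ρ T x := by
  letI : CommGroup V := { (inferInstance : Group V) with mul_comm := hcomm }
  letI : Fintype (G ⧸ T) := Fintype.ofFinite _
  show ρ g (∏ c : G ⧸ T, ρ c.out x) = ∏ c : G ⧸ T, ρ c.out x
  rw [map_prod]
  refine Fintype.prod_equiv (MulAction.toPerm g) _ _ (fun c => ?_)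
  -- `g * c.out` and `(g • c).out` differ by an element of `T`
  have h1 : ((g • c : G ⧸ T)).out⁻¹ * (g * c.out) ∈ T := by
    rw [← QuotientGroup.eq]
    rw [QuotientGroup.out_eq']
    have : ((g * c.out : G) : G ⧸ T) = g • ((c.out : G) : G ⧸ T) := rfl
    rw [this, QuotientGroup.out_eq']
  have h2 := hx (ρ (((g • c : G ⧸ T)).out⁻¹ * (g * c.out))) ⟨_, h1, rfl⟩
  have h3 : ρ (g * c.out) x = ρ ((g • c : G ⧸ T)).out x := by
    have h4 : g * c.out = ((g • c : G ⧸ T)).out * (((g • c : G ⧸ T)).out⁻¹ * (g * c.out)) := by group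
    rw [h4, map_mul, MulAut.mul_apply, h2]
  show ρ g (ρ c.out x) = ρ ((g • c : G ⧸ T)).out x
  rw [← h3, map_mul, MulAut.mul_apply]

theorem relTrace_of_fixed (hcomm : ∀ a b : V, a * b = b * a) (ρ : G →* MulAut V) (T : Subgroup G) {x : V}
    (hx : ∀ g, ρ g x = x) : relTrace hcomm ρ T x = x ^ T.index := by
  letI : CommGroup V := { (inferInstance : Group V) with mul_comm := hcomm }
  letI : Fintype (G ⧸ T) := Fintype.ofFinite _
  show (∏ c : G ⧸ T, ρ c.out x) = x ^ T.index
  simp only [hx]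
  rw [Subgroup.index_eq_card]
  simp [Nat.card_eq_fintype_card]

/-- The decomposition `C_V(T) = C_V(G) × K` for an index of `T` prime to `|V|`. -/
theorem exists_complement_fixed [Finite V] (hcomm : ∀ a b : V, a * b = b * a) (ρ : G →* MulAut V) (T : Subgroup G)
    (hcop : Nat.Coprime (Nat.card V) T.index) :
    ∃ K : Subgroup V, K ≤ fixedSub (T.map ρ) ∧ fixedSub ρ.range ⊓ K = ⊥ ∧
      fixedSub ρ.range ⊔ K = fixedSub (T.map ρ) := by
  have hZW : fixedSub ρ.range ≤ fixedSub (T.map ρ) := by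
    rintro x hx _ ⟨t, -, rfl⟩
    exact hx _ ⟨t, rfl⟩
  have hZ : ∀ {x : V}, x ∈ fixedSub ρ.range → ∀ g, ρ g x = x := fun hx g => hx _ ⟨g, rfl⟩
  have htr : ∀ {x : V}, x ∈ fixedSub (T.map ρ) → relTrace hcomm ρ T x ∈ fixedSub ρ.range := by
    rintro x hx _ ⟨g, rfl⟩
    exact relTrace_apply hcomm ρ T hx g
  have htr1 : relTrace hcomm ρ T 1 = 1 := by
    have := relTrace_mul hcomm ρ T 1 1
    simpa using this
  let K : Subgroup V :=
    { carrier := {x | x ∈ fixedSub (T.map ρ) ∧ relTrace hcomm ρ T x = 1}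
      mul_mem' := by
        rintro a b ⟨h1, h2⟩ ⟨h3, h4⟩
        exact ⟨Subgroup.mul_mem _ h1 h3, by rw [relTrace_mul, h2, h4, one_mul]⟩
      one_mem' := ⟨Subgroup.one_mem _, htr1⟩
      inv_mem' := by
        rintro a ⟨h1, h2⟩
        refine ⟨Subgroup.inv_mem _ h1, ?_⟩
        have := relTrace_mul hcomm ρ T a⁻¹ a
        rw [inv_mul_cancel, h2, mul_one, htr1] at this
        exact this.symm }
  refine ⟨K, fun x hx => hx.1, ?_, ?_⟩
  · rw [eq_bot_iff]
    rintro x ⟨h1, h2⟩
    have h3 : x ^ T.index = 1 := by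
      rw [← relTrace_of_fixed hcomm ρ T (hZ h1)]
      exact h2.2
    have h5 : orderOf x ∣ T.index := orderOf_dvd_of_pow_eq_one h3
    have h6 : orderOf x ∣ Nat.card V := orderOf_dvd_natCard x
    exact orderOf_eq_one_iff.mp (Nat.eq_one_of_dvd_coprimes hcop h6 h5)
  · apply le_antisymm (sup_le hZW (fun x (hx : x ∈ K) => hx.1))
    intro x hx
    have hcopZ : Nat.Coprime (Nat.card (fixedSub ρ.range)) T.index :=
      Nat.Coprime.coprime_dvd_left (Subgroup.card_subgroup_dvd_card _) hcop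
    obtain ⟨y, hy⟩ := (powCoprime hcopZ).surjective ⟨_, htr hx⟩
    have hy' : (y : V) ^ T.index = relTrace hcomm ρ T x := congrArg Subtype.val hy
    have h7 : relTrace hcomm ρ T y = relTrace hcomm ρ T x := by
      rw [relTrace_of_fixed hcomm ρ T (hZ y.2), hy']
    have h8 : (y : V)⁻¹ * x ∈ K := by
      refine ⟨Subgroup.mul_mem _ (Subgroup.inv_mem _ (hZW y.2)) hx, ?_⟩
      have h9 := relTrace_mul hcomm ρ T (y : V) ((y : V)⁻¹ * x)
      rw [mul_inv_cancel_left, h7] at h9
      exact (mul_eq_left.mp h9.symm)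
    have h10 : x = (y : V) * ((y : V)⁻¹ * x) := by group
    rw [h10]
    exact Subgroup.mul_mem _ (Subgroup.mem_sup_left y.2) (Subgroup.mem_sup_right h8)

end Cfsg.Agent.Lib.Fusion2
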