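import Cfsg.Agent.Lib.Fusion2.InnerChar

/-!
# A criterion for inner fusion systems: weakly embedded subgroups, the lattice argument
-/

set_option autoImplicit false

namespace Cfsg.Agent.Lib.Fusion2.WE

open Cfsg Cfsg.FusionSystem Cfsg.Agent.Lib.Fusion Cfsg.Agent.Lib.Fusion2

variable {Ω : Type*} [Group Ω] {S : Subgroup Ω} {F : FusionSystem S} {p : ℕ}

theorem sc_conj [Finite S] {T : Subgroup Ω} (hT : F.StronglyClosed T) {s t : Ω} (hs : s ∈ S) (ht : t ∈ T) : s * t * s⁻¹ ∈ T :=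
  conj_mem_of_normalizer (normalizer_of_stronglyClosed hT hs) ht

theorem mem_sup_sc [Finite S] {T P : Subgroup Ω} (hT : F.StronglyClosed T) (hP : P ≤ S) {x : Ω} (hx : x ∈ P ⊔ T) :
    ∃ a ∈ P, ∃ b ∈ T, a * b = x := by
  let R : Subgroup Ω :=
    { carrier := {x | ∃ a ∈ P, ∃ b ∈ T, a * b = x}
      one_mem' := ⟨1, P.one_mem, 1, T.one_mem, mul_one 1⟩
      mul_mem' := by
        rintro _ _ ⟨a, ha, b, hb, rfl⟩ ⟨a', ha', b', hb', rfl⟩
        refine ⟨a * a', P.mul_mem ha ha', a'⁻¹ * b * a'⁻¹⁻¹ * b', T.mul_mem (sc_conj hT (S.inv_mem (hP ha')) hb) hb', ?_⟩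
        group
      inv_mem' := by
        rintro _ ⟨a, ha, b, hb, rfl⟩
        refine ⟨a⁻¹, P.inv_mem ha, a * b⁻¹ * a⁻¹, sc_conj hT (hP ha) (T.inv_mem hb), ?_⟩
        group }
  have h : P ⊔ T ≤ R := sup_le (fun a ha => ⟨a, ha, 1, T.one_mem, mul_one a⟩) (fun b hb => ⟨1, P.one_mem, b, hb, one_mul b⟩)
  exact h hx

theorem sc_inf {A B : Subgroup Ω} (hA : F.StronglyClosed A) (hB : F.StronglyClosed B) :
    F.StronglyClosed (A ⊓ B) :=
  ⟨inf_le_left.trans hA.1, fun R hR φ hφ x =>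
    ⟨hA.2 R (hR.trans inf_le_left) φ hφ x, hB.2 R (hR.trans inf_le_right) φ hφ x⟩⟩

theorem exists_min_card {P : Subgroup Ω → Prop} (h : ∃ R, P R) : ∃ R, P R ∧ ∀ R', P R' → Nat.card R ≤ Nat.card R' := by
  classical
  have hex : ∃ m, ∃ R, P R ∧ Nat.card R = m := by
    obtain ⟨R, hR⟩ := h
    exact ⟨_, R, hR, rfl⟩
  obtain ⟨R, hR, hRm⟩ := Nat.find_spec hex
  refine ⟨R, hR, fun R' hR' => ?_⟩
  rw [hRm]
  exact Nat.find_min' hex ⟨R', hR', rfl⟩

theorem exists_max_card {P : Subgroup Ω → Prop} (h : ∃ R, P R) (b : ℕ) (hb : ∀ R, P R → Nat.card R ≤ b) :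
    ∃ R, P R ∧ ∀ R', P R' → Nat.card R' ≤ Nat.card R := by
  classical
  obtain ⟨R₀, hR₀⟩ := h
  have hspec := Nat.findGreatest_spec (P := fun m => ∃ R, P R ∧ Nat.card R = m) (hb R₀ hR₀) ⟨R₀, hR₀, rfl⟩
  obtain ⟨R, hR, hRm⟩ := hspec
  refine ⟨R, hR, fun R' hR' => ?_⟩
  rw [hRm]
  exact Nat.le_findGreatest (hb R' hR') ⟨R', hR', rfl⟩

/-- The lattice step. -/
theorem lattice_step [Finite S] [Fact p.Prime] (hS : IsPGroup p S) (hF : F.IsSaturated p) {T T' Q P : Subgroup Ω}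
    (hT : F.StronglyClosed T) (hT' : F.StronglyClosed T') (hcov : ∀ R, F.StronglyClosed R → T < R → R ≤ T' → R = T')
    (hTQ : T ≤ Q) (h1 : T < Q ⊓ T') (h2 : Q ⊓ T' < T') (hP : F.StronglyClosed P) (hU : F.StronglyClosed (Q ⊔ P))
    (hA : F.StronglyClosed (Q ⊓ P)) : (P ⊔ T) ⊓ T' = T ∧ T' ≤ Q ⊔ P := by
  have hTT' : T ≤ T' := h1.le.trans inf_le_right
  have hA1 : (Q ⊓ P) ⊓ T' ≤ T := by
    have hsc : F.StronglyClosed (((Q ⊓ P) ⊔ T) ⊓ T') := sc_inf (stronglyClosed_sup hS hF hA hT) hT'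
    have hle : T ≤ ((Q ⊓ P) ⊔ T) ⊓ T' := le_inf le_sup_right hTT'
    have hle2 : ((Q ⊓ P) ⊔ T) ⊓ T' ≤ Q ⊓ T' := le_inf (inf_le_left.trans (sup_le inf_le_left hTQ)) inf_le_right
    rcases eq_or_lt_of_le hle with e | hlt
    · intro x hx
      rw [e]
      exact ⟨Subgroup.mem_sup_left hx.1, hx.2⟩
    · have h3 := hcov _ hsc hlt inf_le_right
      exact absurd (h3.symm.le.trans hle2) h2.not_ge
  have hB : (P ⊔ T) ⊓ T' = T := by
    have hsc : F.StronglyClosed ((P ⊔ T) ⊓ T') := sc_inf (stronglyClosed_sup hS hF hP hT) hT'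
    have hle : T ≤ (P ⊔ T) ⊓ T' := le_inf le_sup_right hTT'
    rcases eq_or_lt_of_le hle with e | hlt
    · exact e.symm
    · exfalso
      have h3 := hcov _ hsc hlt inf_le_right
      have h4 : T' ≤ P ⊔ T := by
        rw [← h3]
        exact inf_le_left
      obtain ⟨w, hw, hwT⟩ := SetLike.exists_of_lt h1
      obtain ⟨π, hπ, τ, hτ, rfl⟩ := mem_sup_sc hT hP.1 (h4 hw.2)
      apply hwT
      have hπQ : π ∈ Q := by
        have := Q.mul_mem hw.1 (Q.inv_mem (hTQ hτ))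
        rwa [mul_inv_cancel_right] at this
      have hπT' : π ∈ T' := by
        have := T'.mul_mem hw.2 (T'.inv_mem (hTT' hτ))
        rwa [mul_inv_cancel_right] at this
      exact T.mul_mem (hA1 ⟨⟨hπQ, hπ⟩, hπT'⟩) hτ
  refine ⟨hB, ?_⟩
  have hsc : F.StronglyClosed ((Q ⊔ P) ⊓ T') := sc_inf hU hT'
  have hle : Q ⊓ T' ≤ (Q ⊔ P) ⊓ T' := le_inf (inf_le_left.trans le_sup_left) inf_le_right
  have h3 := hcov _ hsc (lt_of_lt_of_le h1 hle) inf_le_right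
  rw [← h3]
  exact inf_le_left

/-- Subgroups of prescribed order between two subgroups. -/
theorem exists_between_card [hp : Fact p.Prime] {A B : Subgroup Ω} [Finite B] (hB : IsPGroup p B) (hAB : A ≤ B) {k : ℕ}
    (h1 : Nat.card A ≤ p ^ k) (h2 : p ^ k ∣ Nat.card B) : ∃ Q : Subgroup Ω, A ≤ Q ∧ Q ≤ B ∧ Nat.card Q = p ^ k := by
  have hAp : IsPGroup p (A.subgroupOf B) := hB.to_subgroup _
  obtain ⟨a, ha⟩ := IsPGroup.iff_card.1 hAp
  have hca : Nat.card (A.subgroupOf B) = Nat.card A := Nat.card_congr (Subgroup.subgroupOfEquivOfLe hAB).toEquiv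
  have hak : a ≤ k := by
    rw [hca] at ha
    rw [ha] at h1
    exact (Nat.pow_le_pow_iff_right hp.out.one_lt).1 h1
  obtain ⟨K, hK, hHK⟩ := Sylow.exists_subgroup_card_pow_prime_le p h2 (A.subgroupOf B) ha hak
  refine ⟨K.map B.subtype, fun x hx => ⟨⟨x, hAB hx⟩, hHK (Subgroup.mem_subgroupOf.2 hx), rfl⟩, Subgroup.map_subtype_le K, ?_⟩
  rw [← hK]
  exact Nat.card_congr (K.equivMapOfInjective B.subtype B.subtype_injective).symm.toEquiv

section Main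

variable [Finite S] [hp : Fact p.Prime]

/-- Two consecutive strongly closed subgroups do not straddle `n`. -/
theorem no_straddle (hS : IsPGroup p S) (hF : F.IsSaturated p) {k : ℕ}
    (hW : ∀ Q : Subgroup Ω, Q ≤ S → Nat.card Q = p ^ k → ∃ P : Subgroup Ω, F.StronglyClosed P ∧ F.StronglyClosed (Q ⊔ P) ∧ F.StronglyClosed (Q ⊓ P))
    {T T' : Subgroup Ω} (hT : F.StronglyClosed T) (hT' : F.StronglyClosed T') (hTT' : T < T')
    (hcov : ∀ R, F.StronglyClosed R → T < R → R ≤ T' → R = T') (h1 : Nat.card T < p ^ k) (h2 : p ^ k < Nat.card T') : False := by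
  have hT'S := hT'.1
  haveI : Finite T' := finite_of_le hT'S
  have hT'p : IsPGroup p T' := hS.to_le hT'S
  obtain ⟨b, hb⟩ := IsPGroup.iff_card.1 hT'p
  have hkb : k ≤ b := by
    rw [hb] at h2
    exact ((Nat.pow_lt_pow_iff_right hp.out.one_lt).1 h2).le
  obtain ⟨Q, hTQ, hQT', hQc⟩ := exists_between_card hT'p hTT'.le (k := k) h1.le (by rw [hb]; exact pow_dvd_pow p hkb)
  haveI : Finite Q := finite_of_le (hQT'.trans hT'S)
  obtain ⟨P, hP, hU, hA⟩ := hW Q (hQT'.trans hT'S) hQc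
  have hQinf : Q ⊓ T' = Q := inf_eq_left.2 hQT'
  have hlt1 : T < Q ⊓ T' := by
    rw [hQinf]
    refine lt_of_le_of_ne hTQ ?_
    rintro rfl
    exact absurd hQc (ne_of_lt h1)
  have hlt2 : Q ⊓ T' < T' := by
    rw [hQinf]
    refine lt_of_le_of_ne hQT' ?_
    rintro rfl
    exact absurd hQc (ne_of_gt h2)
  obtain ⟨hB, hle⟩ := lattice_step hS hF hT hT' hcov hTQ hlt1 hlt2 hP hU hA
  -- `T' = Q (P ∩ T') ≤ Q`
  apply hlt2.not_ge
  intro x hx
  obtain ⟨q, hq, π, hπ, rfl⟩ := mem_sup_sc hP (hQT'.trans hT'S) (hle hx)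
  have hπT' : π ∈ T' := by
    have := T'.mul_mem (T'.inv_mem (hQT' hq)) hx
    rwa [inv_mul_cancel_left] at this
  have hπT : π ∈ T := by
    rw [← hB]
    exact ⟨Subgroup.mem_sup_left hπ, hπT'⟩
  exact ⟨Q.mul_mem hq (hTQ hπT), hx⟩

/-- A strongly closed subgroup of order `n`. -/
theorem exists_sc_card (hS : IsPGroup p S) (hF : F.IsSaturated p) {k : ℕ} (hkS : p ^ k < Nat.card S)
    (hW : ∀ Q : Subgroup Ω, Q ≤ S → Nat.card Q = p ^ k → ∃ P : Subgroup Ω, F.StronglyClosed P ∧ F.StronglyClosed (Q ⊔ P) ∧ F.StronglyClosed (Q ⊓ P)) :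
    ∃ H : Subgroup Ω, F.StronglyClosed H ∧ Nat.card H = p ^ k := by
  classical
  obtain ⟨T, ⟨hT, hTk⟩, hmax⟩ := exists_max_card (P := fun R => F.StronglyClosed R ∧ Nat.card R ≤ p ^ k)
    ⟨⊥, stronglyClosed_bot, by
      rw [Subgroup.card_bot]
      exact Nat.one_le_pow _ _ hp.out.pos⟩ (p ^ k) (fun R hR => hR.2)
  refine ⟨T, hT, ?_⟩
  by_contra hne
  have hlt : Nat.card T < p ^ k := lt_of_le_of_ne hTk hne
  have hTS : T < S := lt_of_le_of_ne hT.1 (fun e => by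
    rw [e] at hlt
    omega)
  obtain ⟨T', ⟨hT', hTT'⟩, hmin⟩ := exists_min_card (P := fun R => F.StronglyClosed R ∧ T < R) ⟨S, stronglyClosed_self, hTS⟩
  have hT'S := hT'.1
  haveI : Finite T' := finite_of_le hT'S
  refine no_straddle hS hF hW hT hT' hTT' (fun R hR hTR hRT' => ?_) hlt ?_
  · exact eq_of_le_of_card_le hRT' hT'S (hmin R ⟨hR, hTR⟩)
  · by_contra hcon
    have h1 := hmax T' ⟨hT', not_lt.1 hcon⟩
    exact hTT'.ne (eq_of_le_of_card_le hTT'.le hT'S h1)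

end Main

end Cfsg.Agent.Lib.Fusion2.WE
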