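import Cfsg.Agent.Lib.Fusion2.WE1

/-!
# A criterion for inner fusion systems: transfer modulo a strongly closed subgroup
-/

set_option autoImplicit false

namespace Cfsg.Agent.Lib.Fusion2.WE

open Cfsg Cfsg.FusionSystem Cfsg.Agent.Lib.Fusion Cfsg.Agent.Lib.Fusion2
open scoped commutatorElement

variable {Ω : Type*} [Group Ω] {S : Subgroup Ω} {F : FusionSystem S} {p : ℕ}

section Main

variable [Finite S] [hp : Fact p.Prime]

/-- An `F`-invariant homomorphism from the hyperfocal subgroup to an abelian `p`-group is trivial. -/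
theorem kill_on_hyp (hS : IsPGroup p S) (hF : F.IsSaturated p) {A : Type*} [CommGroup A] {e : ℕ} (hA : ∀ a : A, a ^ p ^ e = 1)
    (D : (F.hyperfocalSubgroup p).subgroupOf S →* A)
    (h2 : ∀ (P : Subgroup Ω) (φ : P →* Ω) (hφ : φ ∈ F.Hom P) (x : P) (hx : (⟨x, le_of_hom hφ x.2⟩ : ↥S) ∈ (F.hyperfocalSubgroup p).subgroupOf S)
      (hx' : (⟨φ x, val_mem hφ x⟩ : ↥S) ∈ (F.hyperfocalSubgroup p).subgroupOf S), D ⟨_, hx'⟩ = D ⟨_, hx⟩) :
    ∀ t : (F.hyperfocalSubgroup p).subgroupOf S, D t = 1 := by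
  classical
  -- the transfer on the hyperfocal subgroup, as a function on `Ω`
  let DD : Ω → A := fun w => if h : w ∈ F.hyperfocalSubgroup p then D ⟨⟨w, hyp_le_S h⟩, h⟩ else 1
  have hDD : ∀ w (h : w ∈ F.hyperfocalSubgroup p), DD w = D ⟨⟨w, hyp_le_S h⟩, h⟩ := fun w h => dif_pos h
  have hDDmul : ∀ a ∈ F.hyperfocalSubgroup p, ∀ b ∈ F.hyperfocalSubgroup p, DD (a * b) = DD a * DD b := by
    intro a ha b hb
    rw [hDD _ (Subgroup.mul_mem _ ha hb), hDD _ ha, hDD _ hb, ← map_mul]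
    rfl
  have hDDinv : ∀ a ∈ F.hyperfocalSubgroup p, DD a⁻¹ = (DD a)⁻¹ := by
    intro a ha
    rw [hDD _ (Subgroup.inv_mem _ ha), hDD _ ha, ← map_inv]
    rfl
  have hDDone : DD 1 = 1 := by
    rw [hDD _ (Subgroup.one_mem _)]
    exact map_one D
  -- the kernel
  have hgen : ∀ (P : Subgroup Ω) (hP : P ≤ S) (α : F.autGroup P), α ∈ pResidual p (F.autGroup P) → ∀ x : P,
      DD ((x : Ω)⁻¹ * (((α : MulAut P) x : P) : Ω)) = 1 := by
    intro P hP α hα
    have hmem : ∀ (β : F.autGroup P), β ∈ pResidual p (F.autGroup P) → ∀ x : P,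
        (x : Ω)⁻¹ * (((β : MulAut P) x : P) : Ω) ∈ F.hyperfocalSubgroup p := fun β hβ x => mem_hyp_of hP hβ x
    rw [pResidual] at hα
    induction hα using Subgroup.closure_induction with
    | mem β hβ =>
      intro x
      have hβres : β ∈ pResidual p (F.autGroup P) := Subgroup.subset_closure hβ
      set y : P := x⁻¹ * ((β : MulAut P) x) with hy
      have hyh : (y : Ω) ∈ F.hyperfocalSubgroup p := hmem β hβres x
      have hstep : ∀ i : ℕ, DD ((x : Ω)⁻¹ * ((((β ^ i : F.autGroup P) : MulAut P) x : P) : Ω)) = (DD y) ^ i := by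
        intro i
        induction i with
        | zero =>
          simp only [pow_zero, OneMemClass.coe_one, MulAut.one_apply, inv_mul_cancel]
          exact hDDone
        | succ i ih =>
          have hbi : β ^ i ∈ pResidual p (F.autGroup P) := Subgroup.pow_mem _ hβres i
          have hφi : P.subtype.comp ((β ^ i : F.autGroup P) : MulAut P).toMonoidHom ∈ F.Hom P :=
            (mem_autGroup_iff hP).1 (β ^ i).2
          have hyi : (((β ^ i : F.autGroup P) : MulAut P) y : Ω) ∈ F.hyperfocalSubgroup p := by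
            have h3 := hmem (β ^ i * β * (β ^ i)⁻¹) (Subgroup.mul_mem _ (Subgroup.mul_mem _ hbi hβres) (Subgroup.inv_mem _ hbi)) (((β ^ i : F.autGroup P) : MulAut P) x)
            have h4 : ((β ^ i * β * (β ^ i)⁻¹ : F.autGroup P) : MulAut P) (((β ^ i : F.autGroup P) : MulAut P) x) =
                ((β ^ i : F.autGroup P) : MulAut P) ((β : MulAut P) x) := by
              show (((β ^ i : F.autGroup P) : MulAut P) * (β : MulAut P) * ((β ^ i : F.autGroup P) : MulAut P)⁻¹) (((β ^ i : F.autGroup P) : MulAut P) x) = _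
              simp [MulAut.mul_apply]
            rw [h4] at h3
            have h5 : ((((β ^ i : F.autGroup P) : MulAut P) y : P) : Ω) = ((((β ^ i : F.autGroup P) : MulAut P) x : P) : Ω)⁻¹ * (((β ^ i : F.autGroup P) : MulAut P) ((β : MulAut P) x) : P) := by
              rw [hy, map_mul, map_inv]
              rfl
            rw [h5]
            exact h3
          have hst := h2 P _ hφi y hyh hyi
          have hyDD : DD ((((β ^ i : F.autGroup P) : MulAut P) y : P) : Ω) = DD y := by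
            rw [hDD _ hyi, hDD _ hyh]
            exact hst
          have e1 : (x : Ω)⁻¹ * ((((β ^ (i + 1) : F.autGroup P) : MulAut P) x : P) : Ω) =
              ((x : Ω)⁻¹ * ((((β ^ i : F.autGroup P) : MulAut P) x : P) : Ω)) * ((((β ^ i : F.autGroup P) : MulAut P) y : P) : Ω) := by
            have e2 : ((((β ^ i : F.autGroup P) : MulAut P) y : P) : Ω) = ((((β ^ i : F.autGroup P) : MulAut P) x : P) : Ω)⁻¹ * (((β ^ i : F.autGroup P) : MulAut P) ((β : MulAut P) x) : P) := by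
              rw [hy, map_mul, map_inv]
              rfl
            have e3 : ((((β ^ (i + 1) : F.autGroup P) : MulAut P) x : P) : Ω) = (((β ^ i : F.autGroup P) : MulAut P) ((β : MulAut P) x) : P) := rfl
            rw [e2, e3]
            group
          rw [e1, hDDmul _ (hmem _ hbi x) _ hyi, ih, hyDD, pow_succ]
      have horder := hstep (orderOf β)
      rw [pow_orderOf_eq_one] at horder
      simp only [OneMemClass.coe_one, MulAut.one_apply, inv_mul_cancel] at horder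
      rw [hDDone] at horder
      have h5 : orderOf (DD y) = 1 := by
        have h6 := orderOf_dvd_of_pow_eq_one horder.symm
        have h7 := orderOf_dvd_of_pow_eq_one (hA (DD y))
        exact Nat.Coprime.eq_one_of_dvd (Nat.Coprime.coprime_dvd_left h6 (Nat.Coprime.pow_right e hβ)) h7
      rw [orderOf_eq_one_iff] at h5
      exact h5
    | one =>
      intro x
      simp only [OneMemClass.coe_one, MulAut.one_apply, inv_mul_cancel]
      exact hDDone
    | mul a b ha hb iha ihb =>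
      intro x
      have e1 : (x : Ω)⁻¹ * (((((a * b : F.autGroup P) : MulAut P)) x : P) : Ω) =
          ((x : Ω)⁻¹ * (((b : MulAut P) x : P) : Ω)) * ((((b : MulAut P) x : P) : Ω)⁻¹ * (((a : MulAut P) ((b : MulAut P) x) : P) : Ω)) := by
        have : (((((a * b : F.autGroup P) : MulAut P)) x : P) : Ω) = (((a : MulAut P) ((b : MulAut P) x) : P) : Ω) := rfl
        rw [this]
        group
      rw [e1, hDDmul _ (hmem b hb x) _ (hmem a ha _), ihb, iha, one_mul]
    | inv a ha iha =>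
      intro x
      have h3 := iha (((a⁻¹ : F.autGroup P) : MulAut P) x)
      have e1 : (x : Ω)⁻¹ * ((((a⁻¹ : F.autGroup P) : MulAut P) x : P) : Ω) =
          ((((((a⁻¹ : F.autGroup P) : MulAut P) x : P) : Ω))⁻¹ * (((a : MulAut P) (((a⁻¹ : F.autGroup P) : MulAut P) x) : P) : Ω))⁻¹ := by
        have : (((a : MulAut P) (((a⁻¹ : F.autGroup P) : MulAut P) x) : P) : Ω) = x := by
          have : (a : MulAut P) (((a⁻¹ : F.autGroup P) : MulAut P) x) = x := by
            show ((a : MulAut P) * (a : MulAut P)⁻¹) x = x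
            simp
          rw [this]
        rw [this]
        group
      rw [e1, hDDinv _ (hmem a ha _), h3, inv_one]
  have hDker : ∀ w ∈ F.hyperfocalSubgroup p, DD w = 1 := by
    intro w hw
    let L : Subgroup Ω :=
      { carrier := {w | w ∈ F.hyperfocalSubgroup p ∧ DD w = 1}
        mul_mem' := fun {a b} ha hb => ⟨Subgroup.mul_mem _ ha.1 hb.1, by rw [hDDmul _ ha.1 _ hb.1, ha.2, hb.2, one_mul]⟩
        one_mem' := ⟨Subgroup.one_mem _, hDDone⟩
        inv_mem' := fun {a} ha => ⟨Subgroup.inv_mem _ ha.1, by rw [hDDinv _ ha.1, ha.2, inv_one]⟩ }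
    have hL : F.hyperfocalSubgroup p ≤ L := by
      rw [hyperfocalSubgroup, Subgroup.closure_le]
      rintro _ ⟨P, α, x, hP, hα, rfl⟩
      exact ⟨mem_hyp_of hP hα x, hgen P hP α hα x⟩
    exact (hL hw).2
  have hD : ∀ t : (F.hyperfocalSubgroup p).subgroupOf S, D t = 1 := by
    intro t
    have := hDker _ t.2
    rw [hDD _ t.2] at this
    exact this
  exact hD

/-- A maximal subgroup containing `T` and not the hyperfocal subgroup. -/
theorem exists_index_p (hS : IsPGroup p S) (hF : F.IsSaturated p) {T : Subgroup Ω} (hT : F.StronglyClosed T)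
    (hnot : ¬ F.hyperfocalSubgroup p ≤ T) :
    ∃ M : Subgroup Ω, T ≤ M ∧ M ≤ S ∧ ¬ F.hyperfocalSubgroup p ≤ M ∧ Nat.card S = p * Nat.card M ∧ (∀ t ∈ S, t ^ p ∈ M) ∧
      ∀ s ∈ S, ∀ t ∈ S, t⁻¹ * (s * t * s⁻¹) ∈ M := by
  classical
  have hpp := hp.out
  obtain ⟨Y, hYd⟩ : ∃ Y, Y = F.hyperfocalSubgroup p ⊔ T := ⟨_, rfl⟩
  have hYsc : F.StronglyClosed Y := by
    rw [hYd]
    exact stronglyClosed_sup hS hF (hyp_stronglyClosed hS hF) hT
  have hYS : Y ≤ S := hYsc.1
  have hhY : F.hyperfocalSubgroup p ≤ Y := by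
    rw [hYd]
    exact le_sup_left
  have hTY : T ≤ Y := by
    rw [hYd]
    exact le_sup_right
  obtain ⟨Y₁, hY₁d⟩ : ∃ Y₁, Y₁ = Y.subgroupOf S := ⟨_, rfl⟩
  obtain ⟨T₁, hT₁d⟩ : ∃ T₁, T₁ = T.subgroupOf S := ⟨_, rfl⟩
  haveI hY₁n : Y₁.Normal := by
    rw [hY₁d]
    constructor
    intro t ht s
    rw [Subgroup.mem_subgroupOf] at ht ⊢
    exact sc_conj hYsc s.2 ht
  haveI hT₁n : T₁.Normal := by
    rw [hT₁d]
    constructor
    intro t ht s
    rw [Subgroup.mem_subgroupOf] at ht ⊢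
    exact sc_conj hT s.2 ht
  have hT₁Y₁ : T₁ ≤ Y₁ := by
    rw [hT₁d, hY₁d]
    intro t ht
    rw [Subgroup.mem_subgroupOf] at ht ⊢
    exact hTY ht
  haveI hnil : Group.IsNilpotent ↥S := hS.isNilpotent
  obtain ⟨N, hNd⟩ : ∃ N, N = T₁ ⊔ ⁅Y₁, (⊤ : Subgroup ↥S)⁆ := ⟨_, rfl⟩
  have hNY : N ≤ Y₁ := by
    rw [hNd]
    exact sup_le hT₁Y₁ (Subgroup.commutator_le_left _ _)
  have hY₁p : IsPGroup p Y₁ := hS.to_subgroup Y₁
  obtain ⟨b, hb⟩ := IsPGroup.iff_card.1 hY₁p
  have hNlt : N < Y₁ := by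
    refine lt_of_le_of_ne hNY ?_
    intro he
    apply hnot
    have h1 : Y₁ ≤ T₁ ⊔ ⁅Y₁, (⊤ : Subgroup ↥S)⁆ := by rw [← hNd, he]
    have h2 : Y₁ ≤ T₁ := le_of_le_sup_commutator h1
    intro h hh
    have hhS := hyp_le_S hh
    have h3 : (⟨h, hhS⟩ : ↥S) ∈ Y₁ := by
      rw [hY₁d]
      exact hhY hh
    have h4 := h2 h3
    rw [hT₁d] at h4
    exact h4
  have hNp : IsPGroup p N := hS.to_subgroup N
  obtain ⟨a, ha⟩ := IsPGroup.iff_card.1 hNp
  have hab : a < b := by
    by_contra hcon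
    have h1 : Nat.card Y₁ ≤ Nat.card N := by
      rw [hb, ha]
      exact Nat.pow_le_pow_right hpp.pos (not_lt.1 hcon)
    exact hNlt.ne (Subgroup.eq_of_le_of_card_ge hNY h1)
  obtain ⟨b', rfl⟩ : ∃ b', b = b' + 1 := Nat.exists_eq_succ_of_ne_zero (by omega)
  obtain ⟨K, hNK, hKY, hKc⟩ := exists_between_card (Ω := ↥S) (A := N) (B := Y₁) hY₁p hNY (k := b')
    (by
      rw [ha]
      exact Nat.pow_le_pow_right hpp.pos (by omega))
    (by
      rw [hb]
      exact pow_dvd_pow p (Nat.le_succ b'))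
  obtain ⟨K₁, hK₁d⟩ : ∃ K₁, K₁ = K.subgroupOf Y₁ := ⟨_, rfl⟩
  have hcK : ∀ a b : ↥Y₁, ⁅a, b⁆ ∈ K₁ := by
    intro a b
    rw [hK₁d, Subgroup.mem_subgroupOf]
    refine hNK ?_
    rw [hNd]
    exact Subgroup.mem_sup_right (Subgroup.commutator_mem_commutator a.2 (Subgroup.mem_top _))
  haveI hK₁n : K₁.Normal := by
    constructor
    intro t ht s
    have e' := hcK s t
    have h1 := K₁.mul_mem e' ht
    have e2 : ⁅s, t⁆ * t = s * t * s⁻¹ := by
      simp only [commutatorElement_def]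
      group
    rwa [e2] at h1
  obtain ⟨A, _, e, π, hsurj, hker, hexp⟩ := exists_comm_quotient hY₁p K₁ hcK
  have hcardK₁ : Nat.card K₁ = p ^ b' := by
    rw [← hKc, hK₁d]
    exact Nat.card_congr (Subgroup.subgroupOfEquivOfLe hKY).toEquiv
  have hidx : K₁.index = p := by
    have h1 := Subgroup.card_mul_index K₁
    rw [hcardK₁, hb, pow_succ] at h1
    exact Nat.eq_of_mul_eq_mul_left (pow_pos hpp.pos b') h1
  have hcA : Nat.card A = p := by
    rw [← hidx, ← hker, Subgroup.index_ker, MonoidHom.range_eq_top.2 hsurj, Subgroup.card_top]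
  haveI hAprime : Fact (Nat.card A).Prime := ⟨by rw [hcA]; exact hpp⟩
  haveI : Finite A := Nat.finite_of_card_ne_zero (by rw [hcA]; exact hpp.ne_zero)
  have hAp : ∀ a : A, a ^ p = 1 := fun a => by
    rw [← hcA]
    exact pow_card_eq_one'
  have hAp1 : ∀ a : A, a ^ p ^ 1 = 1 := fun a => by
    rw [pow_one]
    exact hAp a
  have hinv : ∀ (s : ↥S) (t : Y₁), π ⟨s * t * s⁻¹, hY₁n.conj_mem _ t.2 s⟩ = π t := by
    intro s t
    have h1 : (⟨s * t * s⁻¹, hY₁n.conj_mem _ t.2 s⟩ : Y₁) * t⁻¹ ∈ K₁ := by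
      rw [hK₁d, Subgroup.mem_subgroupOf]
      have h2 := Subgroup.commutator_mem_commutator t.2 (Subgroup.mem_top s)
      have h3 := Subgroup.inv_mem _ h2
      have e' : (⁅(t : ↥S), s⁆)⁻¹ = ((⟨s * t * s⁻¹, hY₁n.conj_mem _ t.2 s⟩ : Y₁) * t⁻¹ : Y₁) := by
        apply Subtype.ext
        simp only [commutatorElement_def, Subgroup.coe_mul, Subgroup.coe_inv]
        group
      rw [e'] at h3
      refine hNK ?_
      rw [hNd]
      exact Subgroup.mem_sup_right h3
    rw [← hker, MonoidHom.mem_ker, map_mul, map_inv, mul_inv_eq_one] at h1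
    exact h1
  obtain ⟨m, hX⟩ := exists_isCharBiset hS hF
  have hfin : Finite (XS m) := inferInstance
  have hYmap : Y₁.map S.subtype = Y := by
    rw [hY₁d, Subgroup.subgroupOf_map_subtype]
    exact inf_eq_left.2 hYS
  obtain ⟨D, d, h1, h2, h3⟩ := hX.transfer Y₁ (fun P φ hφ => by
      obtain ⟨g, hg, h⟩ := conj_mod_hyp hS hF hφ
      refine ⟨⟨g, hg⟩, fun x => ?_⟩
      rw [hYmap]
      exact hhY (h x)) π hinv
  have hn := hX.coprime_num hS hF
  have hπK : ∀ t : Y₁, (t : ↥S) ∈ K → π t = 1 := by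
    intro t ht
    have h4 : t ∈ K₁ := by
      rw [hK₁d]
      exact Subgroup.mem_subgroupOf.2 ht
    rw [← hker] at h4
    exact h4
  have hTK : ∀ x, x ∈ T → ∀ hx : x ∈ S, (⟨x, hx⟩ : ↥S) ∈ K := by
    intro x hxT hx
    refine hNK ?_
    rw [hNd]
    refine Subgroup.mem_sup_left ?_
    rw [hT₁d]
    exact hxT
  have hDT : ∀ t : Y₁, ((t : ↥S) : Ω) ∈ T → D t = 1 := by
    intro t ht
    have h4 := h3 t 1 ⊥ (fun k P φ hφ hk hk' => by
      have h5 : φ ⟨_, hk⟩ ∈ T := hom_mem_of_stronglyClosed hT hφ ⟨_, hk⟩ (T.pow_mem ht k)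
      rw [hπK _ (hTK _ h5 _), one_pow, inv_one, one_mul]
      exact Subgroup.one_mem _)
    rw [one_pow, inv_one, mul_one, Subgroup.mem_bot] at h4
    exact h4
  have hle : (F.hyperfocalSubgroup p).subgroupOf S ≤ Y₁ := by
    rw [hY₁d]
    exact fun t ht => hhY ht
  have hkill := kill_on_hyp hS hF hAp1 (D.comp (Subgroup.inclusion hle)) (fun P φ hφ x hx hx' => h2 P φ hφ x (hle hx) (hle hx'))
  have hDh : ∀ w (hw : w ∈ F.hyperfocalSubgroup p), D ⟨⟨w, hyp_le_S hw⟩, hle hw⟩ = 1 := fun w hw => hkill ⟨⟨w, hyp_le_S hw⟩, hw⟩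
  have hex : ∃ w, ∃ hw : w ∈ F.hyperfocalSubgroup p, π ⟨⟨w, hyp_le_S hw⟩, hle hw⟩ ≠ 1 := by
    by_contra hcon
    push Not at hcon
    have h4 : Y ≤ K.map S.subtype := by
      rw [hYd]
      refine sup_le (fun w hw => ?_) (fun w hw => ?_)
      · refine ⟨⟨w, hyp_le_S hw⟩, ?_, rfl⟩
        have h5 := hcon w hw
        rw [← MonoidHom.mem_ker, hker, hK₁d] at h5
        exact h5
      · exact ⟨⟨w, hT.1 hw⟩, hTK w hw _, rfl⟩
    have h5 : Y₁ ≤ K := by
      intro x hx
      have h6 : (x : Ω) ∈ Y := by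
        rw [hY₁d] at hx
        exact hx
      obtain ⟨y, hy, hyx⟩ := h4 h6
      have h7 : y = x := Subtype.ext hyx
      rwa [h7] at hy
    have h6 := Subgroup.card_le_of_le h5
    rw [hb, hKc] at h6
    exact absurd h6 (not_le.2 (Nat.pow_lt_pow_right hpp.one_lt (Nat.lt_succ_self b')))
  obtain ⟨w, hw, hπw⟩ := hex
  have hdw : d ⟨w, hyp_le_S hw⟩ ≠ 1 := by
    have h4 := h1 ⟨⟨w, hyp_le_S hw⟩, hle hw⟩
    rw [hDh w hw, one_mul] at h4
    intro h5
    have h6 := h4.symm.trans h5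
    rw [inv_eq_one] at h6
    have h7 := orderOf_dvd_of_pow_eq_one h6
    rw [orderOf_eq_prime (hAp _) hπw] at h7
    exact hpp.one_lt.ne' (Nat.Coprime.eq_one_of_dvd hn.symm h7)
  refine ⟨d.ker.map S.subtype, ?_, Subgroup.map_subtype_le _, ?_, ?_, ?_, ?_⟩
  · intro t ht
    refine ⟨⟨t, hT.1 ht⟩, ?_, rfl⟩
    have htY : (⟨t, hT.1 ht⟩ : ↥S) ∈ Y₁ := by
      rw [hY₁d]
      exact hTY ht
    have h4 := h1 ⟨⟨t, hT.1 ht⟩, htY⟩
    rw [hDT _ ht, hπK _ (hTK t ht _), one_pow, inv_one, one_mul] at h4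
    exact h4
  · intro hc
    obtain ⟨y, hy, hyw⟩ := hc hw
    have h4 : y = ⟨w, hyp_le_S hw⟩ := Subtype.ext hyw
    rw [h4] at hy
    exact hdw hy
  · have hrange : d.range = ⊤ := by
      rcases Subgroup.eq_bot_or_eq_top_of_prime_card d.range with h4 | h4
      · exfalso
        apply hdw
        have h5 : d ⟨w, hyp_le_S hw⟩ ∈ d.range := ⟨_, rfl⟩
        rw [h4, Subgroup.mem_bot] at h5
        exact h5
      · exact h4
    have h4 := Subgroup.card_mul_index d.ker
    rw [Subgroup.index_ker, hrange, Subgroup.card_top, hcA] at h4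
    have h5 : Nat.card (d.ker.map S.subtype) = Nat.card d.ker :=
      Nat.card_congr (d.ker.equivMapOfInjective S.subtype S.subtype_injective).symm.toEquiv
    rw [h5, mul_comm]
    exact h4.symm
  · intro t ht
    refine ⟨⟨t ^ p, S.pow_mem ht p⟩, ?_, rfl⟩
    have h4 : (⟨t ^ p, S.pow_mem ht p⟩ : ↥S) = (⟨t, ht⟩ : ↥S) ^ p := rfl
    rw [SetLike.mem_coe, MonoidHom.mem_ker, h4, map_pow]
    exact hAp _
  · intro s hs t ht
    refine ⟨(⟨t, ht⟩ : ↥S)⁻¹ * ((⟨s, hs⟩ : ↥S) * ⟨t, ht⟩ * (⟨s, hs⟩ : ↥S)⁻¹), ?_, rfl⟩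
    rw [SetLike.mem_coe, MonoidHom.mem_ker, map_mul, map_inv, map_mul, map_mul, map_inv, mul_comm (d ⟨s, hs⟩), mul_inv_cancel_right, inv_mul_cancel]

end Main

end Cfsg.Agent.Lib.Fusion2.WE
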