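import Cfsg.Agent.Lib.Fusion2.WE2
import Cfsg.Agent.Lib.Fusion.Criterion2

/-!
# A criterion for inner fusion systems: conclusion
-/

set_option autoImplicit false

namespace Cfsg.Agent.Lib.Fusion2.WE

open Cfsg Cfsg.FusionSystem Cfsg.Agent.Lib.Fusion Cfsg.Agent.Lib.Fusion2

variable {Ω : Type*} [Group Ω] {S : Subgroup Ω} {F : FusionSystem S} {p : ℕ}

/-- Generation of the hyperfocal subgroup by the elements coming from `p'`-automorphisms. -/
theorem hyp_le_of_gens {T : Subgroup Ω}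
    (hgen : ∀ P : Subgroup Ω, P ≤ S → ∀ β : F.autGroup P, (orderOf β).Coprime p → ∀ x : P, (x : Ω)⁻¹ * (((β : MulAut P) x : P) : Ω) ∈ T) :
    F.hyperfocalSubgroup p ≤ T := by
  rw [hyperfocalSubgroup, Subgroup.closure_le]
  rintro _ ⟨P, α, x, hP, hα, rfl⟩
  rw [pResidual] at hα
  induction hα using Subgroup.closure_induction generalizing x with
  | mem β hβ => exact hgen P hP β hβ x
  | one =>
    simp only [OneMemClass.coe_one, MulAut.one_apply, inv_mul_cancel]
    exact T.one_mem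
  | mul a b _ _ iha ihb =>
    have e1 : (x : Ω)⁻¹ * (((((a * b : F.autGroup P) : MulAut P)) x : P) : Ω) =
        ((x : Ω)⁻¹ * (((b : MulAut P) x : P) : Ω)) * ((((b : MulAut P) x : P) : Ω)⁻¹ * (((a : MulAut P) ((b : MulAut P) x) : P) : Ω)) := by
      have : (((((a * b : F.autGroup P) : MulAut P)) x : P) : Ω) = (((a : MulAut P) ((b : MulAut P) x) : P) : Ω) := rfl
      rw [this]
      group
    rw [SetLike.mem_coe, e1]
    exact T.mul_mem (ihb x) (iha _)
  | inv a _ iha =>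
    have h3 := T.inv_mem (iha (((a⁻¹ : F.autGroup P) : MulAut P) x))
    have e0 : (a : MulAut P) (((a⁻¹ : F.autGroup P) : MulAut P) x) = x := by
      show ((a : MulAut P) * (a : MulAut P)⁻¹) x = x
      simp
    rw [e0] at h3
    have e1 : (x : Ω)⁻¹ * ((((a⁻¹ : F.autGroup P) : MulAut P) x : P) : Ω) =
        ((((((a⁻¹ : F.autGroup P) : MulAut P) x : P) : Ω))⁻¹ * x)⁻¹ := by
      group
    rw [SetLike.mem_coe, e1]
    exact h3

section Main

variable [Finite S] [hp : Fact p.Prime]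

/-- Maps on subgroups containing `H` are conjugations when `N_F(H)` is inner. -/
theorem conj_of_inner {H : Subgroup Ω} (hH : F.StronglyClosed H)
    (hN : ∀ N : FusionSystem (normalizerIn S H), F.IsNormalizerSystem H N → ∀ P : Subgroup Ω,
      N.Hom P = (innerFusionSystem (normalizerIn S H)).Hom P) {X : Subgroup Ω} (hHX : H ≤ X) {ψ : X →* Ω} (hψ : ψ ∈ F.Hom X) :
    ∃ g ∈ S, ∀ x : X, ψ x = g * x * g⁻¹ := by
  obtain ⟨N, hNn⟩ := kSystem_normalizer F hH.1
  have hXS := le_of_hom hψ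
  have hnor := normalizer_of_stronglyClosed hH
  have hle : X ⊔ H ≤ X := sup_le le_rfl hHX
  have h1 : ψ ∈ N.Hom X := by
    rw [hNn X]
    refine ⟨hψ, fun x hx => ⟨hXS hx, hnor (hXS hx)⟩, fun x => ⟨val_mem hψ x, hnor (val_mem hψ x)⟩, ψ.comp (Subgroup.inclusion hle), restrict_mem hψ hle, fun x => rfl, ?_⟩
    exact map_eq_of_stronglyClosed hH le_sup_right (restrict_mem hψ hle)
  rw [hN N hNn X] at h1
  obtain ⟨-, g, hg, hgx⟩ := h1
  exact ⟨g, hg.1, hgx⟩

theorem sc_fullyNormalized {T : Subgroup Ω} (hT : F.StronglyClosed T) : F.IsFullyNormalized T := by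
  refine ⟨hT.1, fun Q _ => ?_⟩
  have h1 : normalizerIn S T = S := le_antisymm (normalizerIn_le T) (fun s hs => ⟨hs, normalizer_of_stronglyClosed hT hs⟩)
  rw [h1]
  exact Subgroup.card_le_of_le (normalizerIn_le Q)

/-- If every map is a conjugation modulo `T`, the hyperfocal subgroup lies in `T`. -/
theorem hyp_le_of_conj_mod (hS : IsPGroup p S) {T : Subgroup Ω} (hT : F.StronglyClosed T)
    (hc : ∀ (R : Subgroup Ω) (φ : R →* Ω), φ ∈ F.Hom R → ∃ g ∈ S, ∀ x : R, (φ x)⁻¹ * (g * x * g⁻¹) ∈ T) :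
    F.hyperfocalSubgroup p ≤ T := by
  refine hyp_le_of_gens (fun P hP β hβ x => ?_)
  have hφ : P.subtype.comp ((β : MulAut P)).toMonoidHom ∈ F.Hom P := (mem_autGroup_iff hP).1 β.2
  obtain ⟨g, hg, hgx⟩ := hc P _ hφ
  have hg1 : ∀ y : P, (((β : MulAut P) y : P) : Ω)⁻¹ * (g * y * g⁻¹) ∈ T := hgx
  have hstep : ∀ i : ℕ, (((((β ^ i : F.autGroup P) : MulAut P) x : P) : Ω))⁻¹ * (g ^ i * x * (g ^ i)⁻¹) ∈ T := by
    intro i
    induction i with
    | zero => simp [T.one_mem]
    | succ i ih =>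
      have e1 : (((β ^ (i + 1) : F.autGroup P) : MulAut P) x : P) = (β : MulAut P) (((β ^ i : F.autGroup P) : MulAut P) x) := by
        rw [pow_succ']
        rfl
      rw [e1]
      have h1 := hg1 (((β ^ i : F.autGroup P) : MulAut P) x)
      have h2 := sc_conj hT hg ih
      have h3 := T.mul_mem h1 h2
      have e2 : (((β : MulAut P) (((β ^ i : F.autGroup P) : MulAut P) x) : P) : Ω)⁻¹ * (g ^ (i + 1) * x * (g ^ (i + 1))⁻¹) =
          (((β : MulAut P) (((β ^ i : F.autGroup P) : MulAut P) x) : P) : Ω)⁻¹ * (g * (((β ^ i : F.autGroup P) : MulAut P) x : P) * g⁻¹) *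
            (g * ((((((β ^ i : F.autGroup P) : MulAut P) x : P) : Ω))⁻¹ * (g ^ i * x * (g ^ i)⁻¹)) * g⁻¹) := by
        rw [pow_succ']
        group
      rw [e2]
      exact h3
  have hn := hstep (orderOf β)
  rw [pow_orderOf_eq_one] at hn
  simp only [OneMemClass.coe_one, MulAut.one_apply] at hn
  obtain ⟨e, he⟩ := hS ⟨g, hg⟩
  have he' : g ^ p ^ e = 1 := by simpa using congrArg Subtype.val he
  obtain ⟨m, hm⟩ := Cfsg.Agent.Lib.Fusion2.exists_pow_inverse hβ e
  have hc' : ∀ j : ℕ, (x : Ω)⁻¹ * ((g ^ orderOf β) ^ j * x * ((g ^ orderOf β) ^ j)⁻¹) ∈ T := by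
    intro j
    induction j with
    | zero => simp [T.one_mem]
    | succ j ih =>
      have h1 := sc_conj hT (S.pow_mem hg (orderOf β)) ih
      have h3 := T.mul_mem hn h1
      have e2 : (x : Ω)⁻¹ * ((g ^ orderOf β) ^ (j + 1) * x * ((g ^ orderOf β) ^ (j + 1))⁻¹) =
          (x : Ω)⁻¹ * (g ^ orderOf β * x * (g ^ orderOf β)⁻¹) *
            (g ^ orderOf β * ((x : Ω)⁻¹ * ((g ^ orderOf β) ^ j * x * ((g ^ orderOf β) ^ j)⁻¹)) * (g ^ orderOf β)⁻¹) := by
        rw [pow_succ' (g ^ orderOf β) j]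
        group
      rw [e2]
      exact h3
  have h1 := hc' m
  rw [hm g he'] at h1
  have h2 := T.mul_mem h1 (T.inv_mem (hg1 x))
  have e2 : (x : Ω)⁻¹ * (g * x * g⁻¹) * ((((β : MulAut P) x : P) : Ω)⁻¹ * (g * x * g⁻¹))⁻¹ = (x : Ω)⁻¹ * (((β : MulAut P) x : P) : Ω) := by
    group
  rw [e2] at h2
  exact h2

/-- The automorphism group of `T'` acts trivially on `T'/T` when `T'/T` is central and `Aut_F(S)` is inner. -/
theorem trivial_on_section (hS : IsPGroup p S) (hF : F.IsSaturated p) {T T' : Subgroup Ω} (hT : F.StronglyClosed T) (hT' : F.StronglyClosed T')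
    (hcent : ∀ s ∈ S, ∀ t ∈ T', t⁻¹ * (s * t * s⁻¹) ∈ T)
    (hA : ∀ α ∈ F.autGroup S, ∃ g ∈ S, ∀ x : S, ((α x : S) : Ω) = g * x * g⁻¹) {α : MulAut T'} (hα : α ∈ F.autGroup T') (x : T') :
    (x : Ω)⁻¹ * ((α x : T') : Ω) ∈ T := by
  classical
  have hE := sc_fullyNormalized hT'
  have hPS : T' ≤ S := hE.1
  obtain ⟨-, R, hR⟩ := (fullyNormalized_spec hS hF hE).2
  haveI : Finite T' := finite_of_le hPS
  haveI : Finite (F.autGroup T') := inferInstance
  let C : Subgroup (F.autGroup T') :=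
    { carrier := {β | ∀ x : T', (x : Ω)⁻¹ * (((β : MulAut T') x : T') : Ω) ∈ T}
      one_mem' := fun x => by
        simp only [OneMemClass.coe_one, MulAut.one_apply, inv_mul_cancel]
        exact T.one_mem
      mul_mem' := fun {a b} ha hb x => by
        have h := T.mul_mem (hb x) (ha ((b : MulAut T') x))
        have e : (x : Ω)⁻¹ * (((b : MulAut T') x : T') : Ω) * ((((b : MulAut T') x : T') : Ω)⁻¹ * (((a : MulAut T') ((b : MulAut T') x) : T') : Ω)) =
            (x : Ω)⁻¹ * (((a : MulAut T') ((b : MulAut T') x) : T') : Ω) := by group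
        rw [e] at h
        exact h
      inv_mem' := fun {a} ha x => by
        have h := T.inv_mem (ha (((a⁻¹ : F.autGroup T') : MulAut T') x))
        have e0 : (a : MulAut T') (((a⁻¹ : F.autGroup T') : MulAut T') x) = x := by
          show ((a : MulAut T') * (a : MulAut T')⁻¹) x = x
          simp
        rw [e0] at h
        have e : ((((((a⁻¹ : F.autGroup T') : MulAut T') x : T') : Ω))⁻¹ * (x : Ω))⁻¹ = (x : Ω)⁻¹ * (((((a⁻¹ : F.autGroup T') : MulAut T') x : T') : Ω)) := by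
          group
        rw [e] at h
        exact h }
  have hCmem : ∀ β : F.autGroup T', β ∈ C ↔ ∀ x : T', (x : Ω)⁻¹ * (((β : MulAut T') x : T') : Ω) ∈ T := fun β => Iff.rfl
  haveI hCn : C.Normal := by
    constructor
    intro γ hγ β x
    set y : T' := ((β⁻¹ : F.autGroup T') : MulAut T') x with hy
    have hβy : (β : MulAut T') y = x := by
      show ((β : MulAut T') * (β : MulAut T')⁻¹) x = x
      simp
    set u : T' := y⁻¹ * (γ : MulAut T') y with hu
    have hu1 : (u : Ω) ∈ T := hγ y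
    have hφ := autGroup_hom hPS β.2
    have hrs := hT.2 (T ⊓ T') inf_le_left _ (restrict_mem hφ (inf_le_right : T ⊓ T' ≤ T')) ⟨u, hu1, u.2⟩
    have e1 : (((β * γ * β⁻¹ : F.autGroup T') : MulAut T') x : T') = x * (β : MulAut T') u := by
      show ((β : MulAut T') ((γ : MulAut T') (((β⁻¹ : F.autGroup T') : MulAut T') x))) = _
      rw [← hy, hu, map_mul, map_inv, hβy]
      simp
    rw [e1]
    have e2 : (x : Ω)⁻¹ * ((x * (β : MulAut T') u : T') : Ω) = ((β : MulAut T') u : T') := by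
      simp
    rw [e2]
    exact hrs
  have hRC : (R : Subgroup (F.autGroup T')) ≤ C := by
    intro β hβ x
    rw [hR] at hβ
    obtain ⟨g, hg, hgx⟩ := mem_autInducedBy_iff.1 (Subgroup.mem_subgroupOf.1 hβ)
    rw [hgx]
    exact hcent g hg x x.2
  have htop := R.normalizer_sup_eq_top' hRC
  have hNC : Subgroup.normalizer ((R : Subgroup (F.autGroup T')) : Set (F.autGroup T')) ≤ C := by
    intro β hβ x
    have hnor := normalizer_of_stronglyClosed hT'
    have hext : ∀ y ∈ S, ∃ ψ ∈ F.Hom (extender S T' (T'.subtype.comp (β : MulAut T').toMonoidHom)),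
        (∀ (x : T'), ψ ⟨x, le_extender (autGroup_hom hE.1 β.2) x.2⟩ = (β : MulAut T') x) ∧ y ∈ extender S T' (T'.subtype.comp (β : MulAut T').toMonoidHom) := by
      intro y hyS
      have hyn := hnor hyS
      let c : F.autGroup T' := ⟨autOfNormalizer hyn, autInducedBy_le_autGroup hPS (autOfNormalizer_mem_autInducedBy hyn hyS)⟩
      have hc : c ∈ (R : Subgroup (F.autGroup T')) := by
        rw [hR]
        exact Subgroup.mem_subgroupOf.2 (autOfNormalizer_mem_autInducedBy hyn hyS)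
      have hcc : β * c * β⁻¹ ∈ (R : Subgroup (F.autGroup T')) := (Subgroup.mem_normalizer_iff.1 hβ c).1 hc
      rw [hR] at hcc
      have hcc' : (β : MulAut T') * autOfNormalizer hyn * (β : MulAut T')⁻¹ ∈ autInducedBy S T' := Subgroup.mem_subgroupOf.1 hcc
      exact exists_ext_over hS hF hE β.2 hyS hyn hcc'
    obtain ⟨ψ, hψ, hψx, -⟩ := hext 1 S.one_mem
    have hSX : S ≤ extender S T' (T'.subtype.comp (β : MulAut T').toMonoidHom) := fun y hy => (hext y hy).choose_spec.2.2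
    have hf := isMapOn_toFun hψ
    have hfS := hf.mono hSX
    obtain ⟨c, hc, hcv⟩ := exists_aut_of_map hfS (isImage_self_of_le hfS (fun y hy => hf.mem_S (hSX hy)))
    obtain ⟨g, hg, hgx⟩ := hA c hc
    have h1 : (((β : MulAut T') x : T') : Ω) = g * x * g⁻¹ := by
      rw [← hψx x, ← toFun_of_mem ψ (le_extender (autGroup_hom hE.1 β.2) x.2), ← hcv x (hPS x.2), fn_of_mem c (hPS x.2), hgx]
    rw [h1]
    exact hcent g hg x x.2
  have hCtop : C = ⊤ := by
    have h1 : Subgroup.normalizer (R : Set (F.autGroup T')) ⊔ C = C := sup_of_le_right hNC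
    exact h1.symm.trans htop
  have : (⟨α, hα⟩ : F.autGroup T') ∈ C := by
    rw [hCtop]
    trivial
  exact this x

theorem card_mul_le_of_lt (hS : IsPGroup p S) {A B : Subgroup Ω} (hAB : A < B) (hB : B ≤ S) : p * Nat.card A ≤ Nat.card B := by
  haveI : Finite B := finite_of_le hB
  have hA : A ≤ S := hAB.le.trans hB
  haveI : Finite A := finite_of_le hA
  obtain ⟨a, ha⟩ := IsPGroup.iff_card.1 (hS.to_le hA)
  obtain ⟨b, hb⟩ := IsPGroup.iff_card.1 (hS.to_le hB)
  have hlt : a < b := by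
    by_contra hcon
    have h1 : Nat.card B ≤ Nat.card A := by
      rw [ha, hb]
      exact Nat.pow_le_pow_right hp.out.pos (not_lt.1 hcon)
    exact hAB.ne (eq_of_le_of_card_le hAB.le hB h1)
  rw [ha, hb, ← pow_succ']
  exact Nat.pow_le_pow_right hp.out.pos hlt

theorem card_le_of_index {M T' T : Subgroup Ω} (hMS : M ≤ S) (hT'S : T' ≤ S) (hTS : T ≤ S) (hc : Nat.card S = p * Nat.card M)
    (hTinf : T' ⊓ M ≤ T) : Nat.card T' ≤ p * Nat.card T := by
  classical
  haveI : Finite T := finite_of_le hTS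
  haveI : Finite M := finite_of_le hMS
  obtain ⟨M₁, hM₁⟩ : ∃ M₁, M₁ = M.subgroupOf S := ⟨_, rfl⟩
  obtain ⟨T₁, hT₁⟩ : ∃ T₁, T₁ = T'.subgroupOf S := ⟨_, rfl⟩
  have hcM₁ : Nat.card M₁ = Nat.card M := by
    rw [hM₁]
    exact Nat.card_congr (Subgroup.subgroupOfEquivOfLe hMS).toEquiv
  have hcT₁ : Nat.card T₁ = Nat.card T' := by
    rw [hT₁]
    exact Nat.card_congr (Subgroup.subgroupOfEquivOfLe hT'S).toEquiv
  have hidx : M₁.index = p := by
    have h1 := Subgroup.card_mul_index M₁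
    rw [hcM₁, hc, mul_comm p] at h1
    exact Nat.eq_of_mul_eq_mul_left Nat.card_pos h1
  have h1 : M₁.relIndex T₁ ≤ M₁.index := by
    have h2 := Subgroup.relIndex_le_of_le_right (H := M₁) (le_top : T₁ ≤ ⊤) (by
      rw [Subgroup.relIndex_top_right, hidx]
      exact hp.out.ne_zero)
    rwa [Subgroup.relIndex_top_right] at h2
  have h2 := Subgroup.card_mul_index (M₁.subgroupOf T₁)
  have h3 : Nat.card (M₁.subgroupOf T₁) ≤ Nat.card T := by
    subst hM₁
    subst hT₁
    refine Nat.card_le_card_of_injective (fun x => (⟨x.1.1.1, hTinf ⟨x.1.2, Subgroup.mem_subgroupOf.1 x.2⟩⟩ : T)) ?_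
    intro a b hab
    have h4 : a.1.1.1 = b.1.1.1 := congrArg (fun z : T => (z : Ω)) hab
    exact Subtype.ext (Subtype.ext (Subtype.ext h4))
  rw [hcT₁] at h2
  rw [← h2, mul_comm p]
  have h4 : (M₁.subgroupOf T₁).index ≤ p := by
    rw [← hidx]
    exact h1
  exact Nat.mul_le_mul h3 h4

/-- The case where `T'/T` has order `p`. -/
theorem hyp_le_of_section (hS : IsPGroup p S) (hF : F.IsSaturated p) {T T' : Subgroup Ω} (hT : F.StronglyClosed T) (hT' : F.StronglyClosed T')
    (hTT' : T ≤ T') (hhyp : F.hyperfocalSubgroup p ≤ T') (hpow : ∀ t ∈ T', t ^ p ∈ T) (hcard : Nat.card T' ≤ p * Nat.card T)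
    (hG : ∀ α ∈ F.autGroup T', ∀ x : T', (x : Ω)⁻¹ * ((α x : T') : Ω) ∈ T) : F.hyperfocalSubgroup p ≤ T := by
  classical
  have hT'S := hT'.1
  haveI : Finite T' := finite_of_le hT'S
  have hX : ∀ (X : Subgroup Ω), X = T' → ∀ ψ : X →* Ω, ψ ∈ F.Hom X → ∀ x : X, (x : Ω)⁻¹ * ψ x ∈ T := by
    rintro X rfl ψ hψ x
    have hf := isMapOn_toFun hψ
    obtain ⟨c, hc, hcv⟩ := exists_aut_of_map hf (isImage_self_of_le hf (fun y hy => by
      rw [toFun_of_mem ψ hy]
      exact hT'.2 _ le_rfl ψ hψ ⟨y, hy⟩))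
    have h1 := hG c hc x
    have h2 : ((c x : _) : Ω) = toFun ψ x := (fn_of_mem c x.2).symm.trans (hcv x x.2)
    rw [h2, toFun_of_mem ψ x.2] at h1
    exact h1
  refine hyp_le_of_gens (fun P hP β hβ x => ?_)
  have hφ : P.subtype.comp (β : MulAut P).toMonoidHom ∈ F.Hom P := (mem_autGroup_iff hP).1 β.2
  have hstep1 : ∀ z : P, (z : Ω) ∈ T' → (z : Ω)⁻¹ * (((β : MulAut P) z : P) : Ω) ∈ T := by
    intro z hz
    by_cases hzT : (z : Ω) ∈ T
    · have h1 : (((β : MulAut P) z : P) : Ω) ∈ T := hom_mem_of_stronglyClosed hT hφ z hzT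
      exact T.mul_mem (T.inv_mem hzT) h1
    · have hφY := restrict_mem hφ (inf_le_left : P ⊓ T' ≤ P)
      obtain ⟨ψ, hψ, hψv⟩ := exists_ext_mod hS hF hT hφY
      have hYT : (P ⊓ T') ⊔ T = T' := by
        have hle : (P ⊓ T') ⊔ T ≤ T' := sup_le inf_le_right hTT'
        have hlt : T < (P ⊓ T') ⊔ T := lt_of_le_of_ne le_sup_right (fun e => hzT (by
          rw [e]
          exact Subgroup.mem_sup_left ⟨z.2, hz⟩))
        have h1 := card_mul_le_of_lt hS hlt (hle.trans hT'S)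
        exact eq_of_le_of_card_le hle hT'S (hcard.trans h1)
      have h1 := hX _ hYT ψ hψ ⟨z, Subgroup.mem_sup_left ⟨z.2, hz⟩⟩
      have h2 : (((β : MulAut P) z : P) : Ω)⁻¹ * ψ ⟨z, Subgroup.mem_sup_left ⟨z.2, hz⟩⟩ ∈ T := hψv ⟨z, z.2, hz⟩
      have h3 := T.mul_mem h1 (T.inv_mem h2)
      have e : (z : Ω)⁻¹ * ψ ⟨z, Subgroup.mem_sup_left ⟨z.2, hz⟩⟩ * ((((β : MulAut P) z : P) : Ω)⁻¹ * ψ ⟨z, Subgroup.mem_sup_left ⟨z.2, hz⟩⟩)⁻¹ =
          (z : Ω)⁻¹ * (((β : MulAut P) z : P) : Ω) := by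
        group
      rw [e] at h3
      exact h3
  obtain ⟨y, hyd⟩ : ∃ y, y = (x : Ω)⁻¹ * (((β : MulAut P) x : P) : Ω) := ⟨_, rfl⟩
  have hres : β ∈ pResidual p (F.autGroup P) := Subgroup.subset_closure hβ
  have hhypmem : ∀ z : P, (z : Ω)⁻¹ * (((β : MulAut P) z : P) : Ω) ∈ T' := fun z => hhyp (mem_hyp_of hP hres z)
  have hyT' : y ∈ T' := by
    rw [hyd]
    exact hhypmem x
  have hyS : y ∈ S := hT'S hyT'
  obtain ⟨xs, hxsd⟩ : ∃ xs : ℕ → P, ∀ i, xs i = ((β ^ i : F.autGroup P) : MulAut P) x := ⟨_, fun _ => rfl⟩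
  have hxs0 : xs 0 = x := by
    rw [hxsd]
    simp
  have hxs : ∀ i, xs (i + 1) = (β : MulAut P) (xs i) := fun i => by
    rw [hxsd, hxsd, pow_succ']
    rfl
  have hPi : ∀ i, y⁻¹ * ((xs i : Ω)⁻¹ * (xs (i + 1) : Ω)) ∈ T := by
    intro i
    induction i with
    | zero =>
      rw [hxs 0, hxs0, hyd, inv_mul_cancel]
      exact T.one_mem
    | succ i ih =>
      obtain ⟨w, hwd⟩ : ∃ w : P, w = (xs i)⁻¹ * xs (i + 1) := ⟨_, rfl⟩
      have hw : (β : MulAut P) w = (xs (i + 1))⁻¹ * xs (i + 1 + 1) := by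
        rw [hwd, map_mul, map_inv, ← hxs i, ← hxs (i + 1)]
      have hwT' : (w : Ω) ∈ T' := by
        have h1 := hhypmem (xs i)
        rw [← hxs i] at h1
        rw [hwd]
        exact h1
      have h1 := hstep1 w hwT'
      rw [hw] at h1
      have h2 := T.mul_mem ih h1
      have e : y⁻¹ * ((xs i : Ω)⁻¹ * (xs (i + 1) : Ω)) * ((w : Ω)⁻¹ * (((xs (i + 1))⁻¹ * xs (i + 1 + 1) : P) : Ω)) =
          y⁻¹ * ((xs (i + 1) : Ω)⁻¹ * (xs (i + 1 + 1) : Ω)) := by
        rw [hwd]
        simp only [Subgroup.coe_mul, Subgroup.coe_inv]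
        group
      rw [e] at h2
      exact h2
  have hQi : ∀ i, (y ^ i)⁻¹ * ((x : Ω)⁻¹ * (xs i : Ω)) ∈ T := by
    intro i
    induction i with
    | zero =>
      rw [hxs0, inv_mul_cancel, pow_zero, inv_one, one_mul]
      exact T.one_mem
    | succ i ih =>
      have h := T.mul_mem (sc_conj hT (S.inv_mem hyS) ih) (hPi i)
      have e : y⁻¹ * ((y ^ i)⁻¹ * ((x : Ω)⁻¹ * (xs i : Ω))) * y⁻¹⁻¹ * (y⁻¹ * ((xs i : Ω)⁻¹ * (xs (i + 1) : Ω))) =
          (y ^ (i + 1))⁻¹ * ((x : Ω)⁻¹ * (xs (i + 1) : Ω)) := by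
        rw [pow_succ]
        group
      rw [e] at h
      exact h
  have hn := hQi (orderOf β)
  rw [hxsd, pow_orderOf_eq_one] at hn
  simp only [OneMemClass.coe_one, MulAut.one_apply, inv_mul_cancel, mul_one] at hn
  have hyn : y ^ orderOf β ∈ T := by
    have := T.inv_mem hn
    rwa [inv_inv] at this
  have hyp' := hpow y hyT'
  rw [← hyd]
  have hg := Nat.gcd_eq_gcd_ab (orderOf β) p
  rw [Nat.Coprime.gcd_eq_one hβ] at hg
  have e : y = (y ^ orderOf β) ^ (Nat.gcdA (orderOf β) p) * (y ^ p) ^ (Nat.gcdB (orderOf β) p) := by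
    rw [← zpow_natCast y (orderOf β), ← zpow_natCast y p, ← zpow_mul, ← zpow_mul, ← zpow_add, ← hg]
    simp
  rw [e]
  exact T.mul_mem (T.zpow_mem hyn _) (T.zpow_mem hyp' _)

/-- **The main induction.** -/
theorem hyp_le_of_weak (hS : IsPGroup p S) (hF : F.IsSaturated p) {k : ℕ} (hkS : p ^ k < Nat.card S)
    (hW : ∀ Q : Subgroup Ω, Q ≤ S → Nat.card Q = p ^ k → ∃ P : Subgroup Ω, F.StronglyClosed P ∧ F.StronglyClosed (Q ⊔ P) ∧ F.StronglyClosed (Q ⊓ P))
    (hN : ∀ H : Subgroup Ω, F.IsFullyNormalized H → Nat.card H = p ^ k → ∀ N : FusionSystem (normalizerIn S H), F.IsNormalizerSystem H N → ∀ P : Subgroup Ω,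
      N.Hom P = (innerFusionSystem (normalizerIn S H)).Hom P) {T : Subgroup Ω} (hT : F.StronglyClosed T) (hTk : Nat.card T ≤ p ^ k) :
    F.hyperfocalSubgroup p ≤ T := by
  classical
  obtain ⟨H, hH, hHc⟩ := exists_sc_card hS hF hkS hW
  have hA : ∀ α ∈ F.autGroup S, ∃ g ∈ S, ∀ x : S, ((α x : S) : Ω) = g * x * g⁻¹ := by
    intro α hα
    exact conj_of_inner hH (hN H (sc_fullyNormalized hH) hHc) hH.1 ((mem_autGroup_iff le_rfl).1 hα)
  have key : ∀ (m : ℕ) (T : Subgroup Ω), F.StronglyClosed T → Nat.card T ≤ p ^ k → p ^ k - Nat.card T = m → F.hyperfocalSubgroup p ≤ T := by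
    intro m
    induction m using Nat.strong_induction_on with
    | _ m IH =>
      intro T hT hTk hm
      by_cases heq : Nat.card T = p ^ k
      · refine hyp_le_of_conj_mod hS hT (fun R φ hφ => ?_)
        obtain ⟨ψ, hψ, hψv⟩ := exists_ext_mod hS hF hT hφ
        obtain ⟨g, hg, hgx⟩ := conj_of_inner hT (hN T (sc_fullyNormalized hT) heq) le_sup_right hψ
        refine ⟨g, hg, fun x => ?_⟩
        have h1 := hψv x
        rw [hgx] at h1
        exact h1
      have hlt : Nat.card T < p ^ k := lt_of_le_of_ne hTk heq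
      by_contra hnot
      haveI : Finite T := finite_of_le hT.1
      have ih : ∀ T₁, F.StronglyClosed T₁ → T < T₁ → Nat.card T₁ ≤ p ^ k → F.hyperfocalSubgroup p ≤ T₁ := by
        intro T₁ hT₁ hTT₁ hk₁
        have hc : Nat.card T < Nat.card T₁ := by
          by_contra hcon
          exact hTT₁.ne (eq_of_le_of_card_le hTT₁.le hT₁.1 (not_lt.1 hcon))
        exact IH (p ^ k - Nat.card T₁) (by omega) T₁ hT₁ hk₁ rfl
      have hcovex : ∀ P, F.StronglyClosed P → T < P → F.hyperfocalSubgroup p ≤ P := by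
        intro P hP hTP
        obtain ⟨C, ⟨hC, hTC, hCP⟩, hmin⟩ := exists_min_card (P := fun R => F.StronglyClosed R ∧ T < R ∧ R ≤ P) ⟨P, hP, hTP, le_rfl⟩
        have hCk : Nat.card C ≤ p ^ k := by
          by_contra hcon
          exact no_straddle hS hF hW hT hC hTC (fun R hR hTR hRC => eq_of_le_of_card_le hRC hC.1 (hmin R ⟨hR, hTR, hRC.trans hCP⟩)) hlt (not_le.1 hcon)
        exact (ih C hC hTC hCk).trans hCP
      obtain ⟨T', hT'd⟩ : ∃ T', T' = F.hyperfocalSubgroup p ⊔ T := ⟨_, rfl⟩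
      have hT'sc : F.StronglyClosed T' := by
        rw [hT'd]
        exact stronglyClosed_sup hS hF (hyp_stronglyClosed hS hF) hT
      have hhT' : F.hyperfocalSubgroup p ≤ T' := by
        rw [hT'd]
        exact le_sup_left
      have hTT'le : T ≤ T' := by
        rw [hT'd]
        exact le_sup_right
      have hTT' : T < T' := lt_of_le_of_ne hTT'le (fun e => hnot (by
        rw [e]
        exact hhT'))
      have hleast : ∀ P, F.StronglyClosed P → T < P → T' ≤ P := by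
        intro P hP hTP
        rw [hT'd]
        exact sup_le (hcovex P hP hTP) hTP.le
      have hcov' : ∀ R, F.StronglyClosed R → T < R → R ≤ T' → R = T' := fun R hR hTR hRT' => le_antisymm hRT' (hleast R hR hTR)
      have hT'k : Nat.card T' ≤ p ^ k := by
        by_contra hcon
        exact no_straddle hS hF hW hT hT'sc hTT' hcov' hlt (not_le.1 hcon)
      obtain ⟨M, hTM, hMS, hMh, hMc, hMp, hMcom⟩ := exists_index_p hS hF hT hnot
      have hT'S := hT'sc.1
      haveI : Finite T' := finite_of_le hT'S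
      haveI : Finite M := finite_of_le hMS
      have hTW : T ≤ T' ⊓ M := le_inf hTT'le hTM
      have hWT' : T' ⊓ M < T' := lt_of_le_of_ne inf_le_left (fun e => hMh (hhT'.trans (by
        rw [← e]
        exact inf_le_right)))
      rcases eq_or_lt_of_le hTW with e | hlt'
      · -- the case of order `p`
        refine hnot (hyp_le_of_section hS hF hT hT'sc hTT'le hhT' (fun t ht => ?_) (card_le_of_index hMS hT'S hT.1 hMc e.ge) ?_)
        · rw [e]
          exact ⟨T'.pow_mem ht p, hMp t (hT'S ht)⟩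
        · intro α hα x
          refine trivial_on_section hS hF hT hT'sc (fun s hs t ht => ?_) hA hα x
          rw [e]
          refine ⟨T'.mul_mem (T'.inv_mem ht) (sc_conj hT'sc hs ht), hMcom s hs t (hT'S ht)⟩
      · -- the lattice argument
        have hMp' : IsPGroup p M := hS.to_le hMS
        obtain ⟨b, hb⟩ := IsPGroup.iff_card.1 hMp'
        have hkb : k ≤ b := by
          rw [hMc, hb, ← pow_succ'] at hkS
          exact Nat.lt_succ_iff.1 ((Nat.pow_lt_pow_iff_right hp.out.one_lt).1 hkS)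
        have hWcard : Nat.card (T' ⊓ M : Subgroup Ω) ≤ p ^ k := (Subgroup.card_le_of_le inf_le_left).trans hT'k
        obtain ⟨Q, hWQ, hQM, hQc⟩ := exists_between_card hMp' (inf_le_right : T' ⊓ M ≤ M) hWcard (by
          rw [hb]
          exact pow_dvd_pow p hkb)
        have hQS := hQM.trans hMS
        obtain ⟨P, hP, hU, hA'⟩ := hW Q hQS hQc
        have hQinf : Q ⊓ T' = T' ⊓ M := le_antisymm (le_inf inf_le_right (inf_le_left.trans hQM)) (le_inf hWQ inf_le_left)
        have hTQ : T ≤ Q := hTW.trans hWQ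
        obtain ⟨hB, hle⟩ := lattice_step hS hF hT hT'sc hcov' hTQ (by rw [hQinf]; exact hlt') (by rw [hQinf]; exact hWT') hP hU hA'
        have hPT : P ≤ T := by
          by_contra hcon
          have hlt2 : T < P ⊔ T := lt_of_le_of_ne le_sup_right (fun e => hcon (by
            rw [e]
            exact le_sup_left))
          have h1 := hleast _ (stronglyClosed_sup hS hF hP hT) hlt2
          rw [inf_eq_right.2 h1] at hB
          exact hTT'.ne hB.symm
        have hQP : Q ⊔ P = Q := sup_of_le_left (hPT.trans hTQ)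
        rw [hQP] at hle
        apply hWT'.not_ge
        rw [← hQinf]
        exact le_inf hle le_rfl
  exact key _ T hT hTk rfl

end Main

end Cfsg.Agent.Lib.Fusion2.WE
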