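/-
Yoshida's theorem for fusion systems.
-/
import Cfsg.Agent.Lib.Fusion2.Wreath
import Cfsg.Agent.Lib.Fusion2.Tate
import Cfsg.Agent.Lib.Fusion2.PStable

set_option autoImplicit false

namespace Cfsg.Agent.Lib.Fusion2

open Cfsg Cfsg.FusionSystem Cfsg.Agent.Lib.Fusion
open scoped commutatorElement

variable {Ω : Type*} [Group Ω] {S : Subgroup Ω} {F : FusionSystem S} {p : ℕ} [hp : Fact p.Prime]

omit [Fact p.Prime] in
theorem exists_functional {V : Type*} [AddCommGroup V] [hp : Fact p.Prime] (hV : ∀ v : V, p • v = 0) {v : V} (hv : v ≠ 0) :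
    ∃ φ : V →+ ZMod p, φ v ≠ 0 := by
  letI : Module (ZMod p) V := AddCommGroup.zmodModule hV
  have h1 : Module.Projective (ZMod p) V := @Module.Projective.of_free (ZMod p) _ V _ _ (Module.Free.of_divisionRing _ _)
  obtain ⟨f, hf⟩ := @Module.Projective.exists_dual_ne_zero V _ (ZMod p) _ _ h1 v hv
  exact ⟨f.toAddMonoidHom, hf⟩

section Sec

variable [Finite S] {X : Type*} [MulAction (↥S × ↥S) X] (hX : IsCharBiset F X)
  {ξ : X → ↥S} (hξ : ∀ (x : X) (s : ↥S), ξ (((1 : ↥S), s) • x) = ξ x * s⁻¹)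

include hX hξ

/-- Non-trivial orbits contribute trivially at elements of minimal order. -/
theorem orbit_prod_eq_one (hS : IsPGroup p S) (hnw : ¬ HasWreathQuot p ↥S) [Fintype {x : X // ξ x = 1}]
    (lam : ↥S →* Multiplicative (ZMod p)) (x : ↥S) (hmin : ∀ y : ↥S, orderOf y < orderOf x → lam y = 1)
    (b₀ : {x : X // ξ x = 1}) (hb₀ : ∃ u : ↥S, pii ξ u (b₀ : X) ≠ b₀) (O : Finset {x : X // ξ x = 1})
    (hO : ∀ b : {x : X // ξ x = 1}, b ∈ O ↔ ∃ u : ↥S, pii ξ u (b₀ : X) = b) :
    ∏ b ∈ O, lam (hh ξ x (b : X)) = 1 := by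
  classical
  letI := secAct hξ
  haveI : Group.IsNilpotent ↥S := hS.isNilpotent
  let ψ : ↥S → {x : X // ξ x = 1} → Multiplicative (ZMod p) := fun u b => lam (hh ξ u (b : X))
  have hψ : ∀ u v b, ψ (u * v) b = ψ u (v • b) * ψ v b := by
    intro u v b
    show lam (hh ξ (u * v) (b : X)) = lam (hh ξ u (pii ξ v (b : X))) * lam (hh ξ v (b : X))
    rw [hh_mul hξ, map_mul]
  have hO' : ∀ b, b ∈ O ↔ b ∈ MulAction.orbit ↥S b₀ := by
    intro b
    rw [hO, MulAction.mem_orbit_iff]
    constructor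
    · rintro ⟨u, hu⟩
      exact ⟨u, Subtype.ext hu⟩
    · rintro ⟨u, hu⟩
      exact ⟨u, congrArg Subtype.val hu⟩
  have hQ : MulAction.stabilizer ↥S b₀ ≠ ⊤ := by
    intro h
    obtain ⟨u, hu⟩ := hb₀
    have : u ∈ MulAction.stabilizer ↥S b₀ := by
      rw [h]
      trivial
    exact hu (congrArg Subtype.val (MulAction.mem_stabilizer_iff.1 this))
  have hR : MulAction.stabilizer ↥S b₀ ⊔ frattini ↥S ≠ ⊤ := fun h => hQ (frattini_nongenerating h)
  by_cases hxR : x ∈ MulAction.stabilizer ↥S b₀ ⊔ frattini ↥S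
  · by_contra hne
    obtain ⟨M, hMn, hMi, hRM⟩ := exists_normal_index_ge hS hR le_sup_right
    exact hnw (hasWreathQuot_of_orbit hS ψ hψ hMi b₀ (le_sup_left.trans hRM) (hRM hxR) O hO' hne)
  · have hcomm : commutator ↥S ≤ MulAction.stabilizer ↥S b₀ ⊔ frattini ↥S :=
      (Cfsg.Agent.Lib.Basic.commutator_le_frattini_of_isNilpotent).trans le_sup_right
    have hnofix : ∀ b ∈ O, x • b ≠ b := by
      intro b hb h
      obtain ⟨u, rfl⟩ := (hO' b).1 hb
      apply hxR
      have h1 : u⁻¹ * x * u ∈ MulAction.stabilizer ↥S b₀ := by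
        rw [MulAction.mem_stabilizer_iff, mul_smul, mul_smul]
        simp only [] at h
        rw [h, inv_smul_smul]
      have h2 := Subgroup.mul_mem _ (hcomm (Subgroup.commutator_mem_commutator (Subgroup.mem_top u) (Subgroup.mem_top (u⁻¹ * x * u))))
        ((le_sup_left : MulAction.stabilizer ↥S b₀ ≤ _) h1)
      have e : ⁅u, u⁻¹ * x * u⁆ * (u⁻¹ * x * u) = x := by
        simp only [commutatorElement_def]
        group
      rwa [e] at h2
    let G : {x : X // ξ x = 1} → Multiplicative (ZMod p) := fun b => if b ∈ O then lam (hh ξ x (b : X)) else 1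
    have hOstep : ∀ (u : ↥S) b, b ∈ O → u • b ∈ O := by
      intro u b hb
      obtain ⟨v, rfl⟩ := (hO' b).1 hb
      exact (hO' _).2 ⟨u * v, mul_smul _ _ _⟩
    have hOinv : ∀ b, x • b ∈ O ↔ b ∈ O := by
      intro b
      refine ⟨fun h => ?_, hOstep x b⟩
      have := hOstep x⁻¹ _ h
      rwa [inv_smul_smul] at this
    have hiter : ∀ (j : ℕ) (b : {x : X // ξ x = 1}), (fun b : {x : X // ξ x = 1} => x • b)^[j] b = x ^ j • b :=
      fun j b => congrFun (smul_iterate x j) b
    have key := prod_eq_of_cycle (fun b : {x : X // ξ x = 1} => x • b) (MulAction.injective x) G (fun _ => 1) (fun b => ?_)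
    · simp only [Finset.prod_const_one] at key
      have e : ∏ b, G b = ∏ b ∈ O, lam (hh ξ x (b : X)) := by
        simp only [G]
        rw [Finset.prod_ite_mem, Finset.univ_inter]
      rw [← e, key]
    · simp only [Finset.prod_const_one]
      set k := Function.minimalPeriod (fun b : {x : X // ξ x = 1} => x • b) b with hk
      by_cases hb : b ∈ O
      · have hmemj : ∀ j, x ^ j • b ∈ O := fun j => hOstep _ _ hb
        have h1 : ∏ j ∈ Finset.range k, G ((fun b : {x : X // ξ x = 1} => x • b)^[j] b) =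
            ∏ j ∈ Finset.range k, lam (hh ξ x (pii ξ (x ^ j) (b : X))) := by
          refine Finset.prod_congr rfl (fun j _ => ?_)
          rw [hiter]
          simp only [G]
          rw [if_pos (hmemj j)]
          rfl
        rw [h1]
        have hT : ∀ (u : ↥S) (b : X), ξ b = 1 → hh ξ u b * u⁻¹ ∈ (⊤ : Subgroup ↥S) := fun _ _ _ => trivial
        have hf₁ : ∀ a ∈ (⊤ : Subgroup ↥S), ∀ b ∈ (⊤ : Subgroup ↥S), lam (a * b) = lam a * lam b := fun a _ b _ => map_mul _ _ _
        have hf₂ : ∀ (s t : ↥S), t ∈ (⊤ : Subgroup ↥S) → lam (s * t * s⁻¹) = lam t := by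
          intro s t _
          rw [map_mul, map_mul, map_inv, mul_comm (lam s), mul_assoc, mul_inv_cancel, mul_one]
        rw [prod_cycle hξ (⊤ : Subgroup ↥S) lam hf₁ hf₂ hT (Subgroup.mem_top x) b.2 k]
        -- the cycle
        have hper : x ^ k • b = b := by
          rw [← hiter]
          exact Function.iterate_minimalPeriod
        have hk1 : k ≠ 1 := by
          intro h1
          rw [h1, pow_one] at hper
          exact hnofix b hb hper
        have hodvd : k ∣ orderOf x := by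
          have h2 : Function.IsPeriodicPt (fun b : {x : X // ξ x = 1} => x • b) (orderOf x) b := by
            show (fun b : {x : X // ξ x = 1} => x • b)^[orderOf x] b = b
            rw [hiter, pow_orderOf_eq_one, one_smul]
          exact h2.minimalPeriod_dvd
        have hopos : 0 < orderOf x := orderOf_pos x
        have hkpos : k ≠ 0 := fun h0 => by
          rw [h0] at hodvd
          have := Nat.eq_zero_of_zero_dvd hodvd
          omega
        have hlt : orderOf (x ^ k) < orderOf x := by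
          rw [orderOf_pow_of_dvd hkpos hodvd]
          exact Nat.div_lt_self hopos (by omega)
        have hfix := fix_of_pii hξ (b := (b : X)) (u := x ^ k) (congrArg Subtype.val hper)
        obtain ⟨P, φ, hφ, hst⟩ := hX.hG (b : X)
        have h2 : (x ^ k, hh ξ (x ^ k) (b : X)) ∈ gr S P φ := by
          rw [← hst]
          exact hfix
        obtain ⟨h3, h4⟩ := h2
        have horder : orderOf (hh ξ (x ^ k) (b : X)) = orderOf (x ^ k) := by
          rw [← Subgroup.orderOf_coe, ← h4, orderOf_injective φ (inj hφ), Subgroup.orderOf_mk, Subgroup.orderOf_coe]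
        exact hmin _ (by rw [horder]; exact hlt)
      · have hnotj : ∀ j, x ^ j • b ∉ O := by
          intro j h
          have := hOstep (x ^ j)⁻¹ _ h
          rw [inv_smul_smul] at this
          exact hb this
        refine Finset.prod_eq_one (fun j _ => ?_)
        rw [hiter]
        simp only [G]
        rw [if_neg (hnotj j)]

/-- The value of the transfer at an element of minimal order. -/
theorem prod_eq_pow_of_min (hS : IsPGroup p S) (hnw : ¬ HasWreathQuot p ↥S) [Fintype {x : X // ξ x = 1}]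
    (lam : ↥S →* Multiplicative (ZMod p)) (x : ↥S) (hmin : ∀ y : ↥S, orderOf y < orderOf x → lam y = 1)
    (hstab : ∀ (φ : ↥S →* Ω) (_ : φ ∈ F.Hom S) (u : ↥S) (h : φ u ∈ S), lam ⟨φ u, h⟩ = lam u)
    (hexp : lam x ^ p = 1) :
    ∏ b : {x : X // ξ x = 1}, lam (hh ξ x (b : X)) = lam x ^ Fintype.card {x : X // ξ x = 1} := by
  classical
  letI := secAct hξ
  let g : {x : X // ξ x = 1} → Multiplicative (ZMod p) := fun b => if ∀ u : ↥S, u • b = b then lam x else 1
  have key : ∀ s : Finset {x : X // ξ x = 1}, (∀ (u : ↥S) (b : {x : X // ξ x = 1}), b ∈ s → u • b ∈ s) →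
      ∏ b ∈ s, lam (hh ξ x (b : X)) = ∏ b ∈ s, g b := by
    intro s
    induction s using Finset.strongInduction with
    | _ s ih =>
    intro hs
    rcases s.eq_empty_or_nonempty with rfl | ⟨b₀, hb₀⟩
    · simp
    let O : Finset {x : X // ξ x = 1} := Finset.univ.filter (fun b => ∃ u : ↥S, pii ξ u (b₀ : X) = b)
    have hO : ∀ b : {x : X // ξ x = 1}, b ∈ O ↔ ∃ u : ↥S, pii ξ u (b₀ : X) = b := fun b => by simp [O]
    have hOs : O ⊆ s := by
      intro b hb
      obtain ⟨u, hu⟩ := (hO b).1 hb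
      have : b = u • b₀ := Subtype.ext hu.symm
      rw [this]
      exact hs _ _ hb₀
    have hb₀O : b₀ ∈ O := (hO b₀).2 ⟨1, pii_of_sec hξ b₀.2⟩
    have hlt : s \ O ⊂ s := by
      refine Finset.ssubset_iff_subset_ne.2 ⟨Finset.sdiff_subset, fun h => ?_⟩
      have : b₀ ∈ s \ O := by rw [h]; exact hb₀
      exact (Finset.mem_sdiff.1 this).2 hb₀O
    have hOstep : ∀ (u : ↥S) b, b ∈ O → u • b ∈ O := by
      intro u b hb
      obtain ⟨v, hv⟩ := (hO b).1 hb
      refine (hO _).2 ⟨u * v, ?_⟩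
      rw [pii_mul hξ, hv]
      rfl
    have hinv : ∀ (u : ↥S) (b : {x : X // ξ x = 1}), b ∈ s \ O → u • b ∈ s \ O := by
      intro u b hb
      obtain ⟨h1, h2⟩ := Finset.mem_sdiff.1 hb
      refine Finset.mem_sdiff.2 ⟨hs _ _ h1, fun h => h2 ?_⟩
      have := hOstep u⁻¹ _ h
      rwa [inv_smul_smul] at this
    rw [← Finset.prod_sdiff hOs, ← Finset.prod_sdiff hOs, ih _ hlt hinv]
    congr 1
    by_cases hfix : ∀ u : ↥S, u • b₀ = b₀
    · have hOe : O = {b₀} := by
        ext b
        rw [hO, Finset.mem_singleton]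
        constructor
        · rintro ⟨u, hu⟩
          have h1 := hfix u
          have : b = u • b₀ := Subtype.ext hu.symm
          rw [this, h1]
        · intro hbb
          rw [hbb]
          exact ⟨1, pii_of_sec hξ b₀.2⟩
      rw [hOe, Finset.prod_singleton, Finset.prod_singleton]
      have hg : g b₀ = lam x := if_pos hfix
      rw [hg]
      obtain ⟨P, φ, hφ, hst⟩ := hX.hG (b₀ : X)
      have hmem : ∀ u : ↥S, (u, hh ξ u (b₀ : X)) ∈ gr S P φ := by
        intro u
        rw [← hst]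
        exact fix_of_pii hξ (congrArg Subtype.val (hfix u))
      have hPS : P = S := le_antisymm (le_of_hom hφ) (fun u hu => (hmem ⟨u, hu⟩).1)
      subst hPS
      obtain ⟨h3, h4⟩ := hmem x
      have h5 := hstab φ hφ x (val_mem hφ x)
      have e : (⟨φ x, val_mem hφ x⟩ : ↥P) = hh ξ x (b₀ : X) := Subtype.ext h4
      rw [e] at h5
      exact h5
    · push_neg at hfix
      obtain ⟨u₀, hu₀⟩ := hfix
      rw [orbit_prod_eq_one hX hξ hS hnw lam x hmin b₀ ⟨u₀, fun h => hu₀ (Subtype.ext h)⟩ O hO]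
      symm
      refine Finset.prod_eq_one (fun b hb => ?_)
      refine if_neg (fun h => ?_)
      obtain ⟨v, hv⟩ := (hO b).1 hb
      have hbv : b = v • b₀ := Subtype.ext hv.symm
      apply hu₀
      have h1 := h (v * u₀ * v⁻¹)
      rw [hbv] at h1
      have e : (v * u₀ * v⁻¹) • v • b₀ = v • u₀ • b₀ := by
        rw [← mul_smul, ← mul_smul]
        simp
      rw [e] at h1
      exact MulAction.injective v h1
  rw [key Finset.univ (fun _ _ _ => Finset.mem_univ _)]
  have h1 : ∏ b : {x : X // ξ x = 1}, g b = lam x ^ (Finset.univ.filter (fun b : {x : X // ξ x = 1} => ∀ u : ↥S, u • b = b)).card := by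
    simp only [g]
    rw [Finset.prod_ite]
    simp
  rw [h1]
  have hmod := IsPGroup.card_modEq_card_fixedPoints hS {x : X // ξ x = 1}
  have h2 : Nat.card (MulAction.fixedPoints ↥S {x : X // ξ x = 1}) =
      (Finset.univ.filter (fun b : {x : X // ξ x = 1} => ∀ u : ↥S, u • b = b)).card := by
    rw [← Fintype.card_subtype]
    exact Nat.card_eq_fintype_card
  rw [h2, Nat.card_eq_fintype_card] at hmod
  rw [pow_eq_pow_iff_modEq]
  exact (Nat.ModEq.of_dvd (orderOf_dvd_of_pow_eq_one hexp) hmod).symm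

end Sec

/-- **Yoshida's theorem, core.** -/
theorem focal_le_of_no_wreath [Finite S] (hS : IsPGroup p S) (hF : F.IsSaturated p) (hnw : ¬ HasWreathQuot p ↥S)
    (N : FusionSystem (normalizerIn S S)) (hN : F.IsNormalizerSystem S N) : F.focalSubgroup ≤ N.focalSubgroup := by
  classical
  have hpp := hp.out
  haveI : Fact p.Prime := hp
  obtain ⟨m, hX⟩ := exists_isCharBiset hS hF
  haveI hfin : Finite (XS m) := inferInstance
  obtain ⟨ξ, hξ, hT⟩ := hX.exists_xi_of (⊤ : Subgroup ↥S) (fun P φ hφ => ⟨1, fun x => ⟨⟨_, by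
    exact S.mul_mem (S.mul_mem (S.mul_mem S.one_mem (val_mem hφ x)) (S.inv_mem S.one_mem)) (S.inv_mem (le_of_hom hφ x.2))⟩, trivial, rfl⟩⟩)
  letI : Fintype {x : XS m // ξ x = 1} := Fintype.ofFinite _
  have hcardn : Fintype.card {x : XS m // ξ x = 1} = IsCharBiset.num (XS m) S := by
    rw [← Nat.card_eq_fintype_card, IsCharBiset.card_sec_eq_num hξ]
  have hn : (Fintype.card {x : XS m // ξ x = 1}).Coprime p := by
    rw [hcardn]
    exact hX.coprime_num hS hF
  have hexpA : ∀ a : Multiplicative (ZMod p), a ^ p = 1 := by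
    intro a
    apply Multiplicative.toAdd.injective
    show p • (Multiplicative.toAdd a) = 0
    simp
  -- the transfer
  have hfs : ∀ (lam : ↥S →* Multiplicative (ZMod p)) (s t : ↥S), t ∈ (⊤ : Subgroup ↥S) → lam (s * t * s⁻¹) = lam t := by
    intro lam s t _
    rw [map_mul, map_mul, map_inv, mul_comm (lam s), mul_assoc, mul_inv_cancel, mul_one]
  let DD : (↥S →* Multiplicative (ZMod p)) → (↥S →* Multiplicative (ZMod p)) := fun lam =>
    MonoidHom.mk' (fun u => ∏ b : {x : XS m // ξ x = 1}, lam (hh ξ u (b : XS m))) (fun u v =>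
      DD_mul hξ (⊤ : Subgroup ↥S) lam (fun a _ b _ => map_mul _ _ _) (hfs lam) hT (Subgroup.mem_top u) (Subgroup.mem_top v))
  have hDDv : ∀ lam u, DD lam u = ∏ b : {x : XS m // ξ x = 1}, lam (hh ξ u (b : XS m)) := fun _ _ => rfl
  have hDDfoc : ∀ (lam : ↥S →* Multiplicative (ZMod p)) (y : ↥S), (y : Ω) ∈ F.focalSubgroup → DD lam y = 1 := by
    intro lam
    have hker : F.focalSubgroup ≤ ((DD lam).ker).map S.subtype := by
      rw [focalSubgroup, Subgroup.closure_le]
      rintro _ ⟨P, φ, x, hφ, rfl⟩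
      refine ⟨⟨_, S.mul_mem (S.inv_mem (le_of_hom hφ x.2)) (val_mem hφ x)⟩, ?_, rfl⟩
      obtain ⟨g, hg₁, hg₂⟩ := hX.exists_twist_iso hφ
      have h4 := DD_stable hξ (⊤ : Subgroup ↥S) lam (fun a _ b _ => map_mul _ _ _) (hfs lam) hT (Subgroup.mem_top (⟨x, le_of_hom hφ x.2⟩ : ↥S))
        (Subgroup.mem_top (⟨φ x, val_mem hφ x⟩ : ↥S)) g g.injective hg₁ (hg₂ x)
      have e : (⟨(x : Ω)⁻¹ * φ x, S.mul_mem (S.inv_mem (le_of_hom hφ x.2)) (val_mem hφ x)⟩ : ↥S) =
          (⟨x, le_of_hom hφ x.2⟩ : ↥S)⁻¹ * ⟨φ x, val_mem hφ x⟩ := rfl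
      rw [SetLike.mem_coe, MonoidHom.mem_ker, e, map_mul, map_inv, hDDv lam ⟨φ x, val_mem hφ x⟩, hDDv lam ⟨x, le_of_hom hφ x.2⟩, h4, inv_mul_cancel]
    intro y hy
    obtain ⟨y', hy', hyy⟩ := hker hy
    have : y' = y := Subtype.ext hyy
    rw [← this]
    exact hy'
  have hDDmul : ∀ a b : ↥S →* Multiplicative (ZMod p), ∀ u, DD (a * b⁻¹) u = DD a u * (DD b u)⁻¹ := by
    intro a b u
    rw [hDDv, hDDv, hDDv, ← Finset.prod_inv_distrib, ← Finset.prod_mul_distrib]
    rfl
  -- the normalizer system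
  have hNF : N.focalSubgroup ≤ F.focalSubgroup := by
    rw [focalSubgroup, Subgroup.closure_le]
    rintro _ ⟨P, φ, x, hφ, rfl⟩
    rw [hN P] at hφ
    exact Subgroup.subset_closure ⟨P, φ, x, hφ.1, rfl⟩
  have hcN : ⁅S, S⁆ ≤ N.focalSubgroup := by
    rw [Subgroup.commutator_le]
    intro a ha b hb
    have hSN : ∀ g ∈ S, g ∈ normalizerIn S S := fun g hg => le_normalizerIn le_rfl hg
    have hNc : conjHom S b ∈ N.Hom S := by
      have h1 : (conjHom S b) = (conjHom S b) := rfl
      exact N.conj_mem (le_normalizerIn le_rfl) (hSN b hb)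
    apply Subgroup.subset_closure
    refine ⟨S, conjHom S b, ⟨a⁻¹, S.inv_mem ha⟩, hNc, ?_⟩
    simp [commutatorElement_def, mul_assoc]
  -- stability of the homomorphisms trivial on `foc(N)`
  have hstab : ∀ (lam : ↥S →* Multiplicative (ZMod p)), (∀ y : ↥S, (y : Ω) ∈ N.focalSubgroup → lam y = 1) →
      ∀ (φ : ↥S →* Ω) (_ : φ ∈ F.Hom S) (u : ↥S) (h : φ u ∈ S), lam ⟨φ u, h⟩ = lam u := by
    intro lam hlam φ hφ u h
    have hinj : Function.Injective (φ.codRestrict S (val_mem hφ)) := fun a b h => inj hφ (congrArg Subtype.val h)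
    let α : MulAut ↥S := MulEquiv.ofBijective (φ.codRestrict S (val_mem hφ)) ⟨hinj, Finite.surjective_of_injective hinj⟩
    have hα : α ∈ F.autGroup S := mem_autGroup_of_isIso (isIso_of_forall hφ α (fun x => rfl))
    have h1 := mem_normalizer_autGroup (le_refl S) (le_refl S) hN hα hα (fun x => rfl)
    have h2 : S.subtype.comp α.toMonoidHom ∈ N.Hom S := (mem_autGroup_iff (le_normalizerIn le_rfl)).1 h1
    have h3 : (u : Ω)⁻¹ * φ u ∈ N.focalSubgroup := Subgroup.subset_closure ⟨S, _, u, h2, rfl⟩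
    have h4 := hlam (u⁻¹ * ⟨φ u, h⟩) h3
    rw [map_mul, map_inv, inv_mul_eq_one] at h4
    exact h4.symm
  -- minimal elements
  have hinjK : ∀ c : ↥S →* Multiplicative (ZMod p), (∀ y : ↥S, (y : Ω) ∈ N.focalSubgroup → c y = 1) → DD c = 1 → c = 1 := by
    intro c hc hDD
    by_contra hne
    have hex : ∃ n : ℕ, ∃ y : ↥S, c y ≠ 1 ∧ orderOf y = n := by
      have : ∃ y, c y ≠ 1 := by
        by_contra h
        push_neg at h
        exact hne (MonoidHom.ext h)
      obtain ⟨y, hy⟩ := this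
      exact ⟨_, y, hy, rfl⟩
    obtain ⟨x, hx, hxo⟩ := Nat.find_spec hex
    have hmin : ∀ y : ↥S, orderOf y < orderOf x → c y = 1 := by
      intro y hy
      by_contra h
      rw [hxo] at hy
      exact Nat.find_min hex hy ⟨y, h, rfl⟩
    have h1 := prod_eq_pow_of_min hX hξ hS hnw c x hmin (hstab c hc) (hexpA _)
    rw [← hDDv, hDD, MonoidHom.one_apply] at h1
    have h2 := orderOf_dvd_of_pow_eq_one h1.symm
    have h3 := orderOf_dvd_of_pow_eq_one (hexpA (c x))
    have h4 : orderOf (c x) = 1 := Nat.Coprime.eq_one_of_dvd (Nat.Coprime.coprime_dvd_left h2 hn) h3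
    exact hx (orderOf_eq_one_iff.1 h4)
  -- the bijection on the set of homomorphisms
  let 𝓗 := {lam : ↥S →* Multiplicative (ZMod p) // ∀ y : ↥S, (y : Ω) ∈ N.focalSubgroup → lam y = 1}
  haveI : Finite (↥S →* Multiplicative (ZMod p)) := DFunLike.finite _
  let Θ : 𝓗 → 𝓗 := fun lam => ⟨DD lam.1, fun y hy => hDDfoc _ _ (hNF hy)⟩
  have hΘinj : Function.Injective Θ := by
    intro a b hab
    have h1 : DD a.1 = DD b.1 := congrArg Subtype.val hab
    have h2 : a.1 * b.1⁻¹ = 1 := hinjK _ (fun y hy => by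
      rw [MonoidHom.mul_apply, MonoidHom.inv_apply, a.2 y hy, b.2 y hy, inv_one, mul_one]) (MonoidHom.ext fun u => by
        rw [hDDmul, h1, mul_inv_cancel]
        rfl)
    apply Subtype.ext
    exact mul_inv_eq_one.1 h2
  have hΘsurj : Function.Surjective Θ := Finite.surjective_of_injective hΘinj
  have hall : ∀ (lam : ↥S →* Multiplicative (ZMod p)), (∀ y : ↥S, (y : Ω) ∈ N.focalSubgroup → lam y = 1) →
      ∀ y : ↥S, (y : Ω) ∈ F.focalSubgroup → lam y = 1 := by
    intro lam hlam y hy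
    obtain ⟨lam', hlam'⟩ := hΘsurj ⟨lam, hlam⟩
    have h1 : DD lam'.1 = lam := congrArg Subtype.val hlam'
    rw [← h1]
    exact hDDfoc _ _ hy
  -- to the Frattini quotient
  refine focal_le_of_le_frattini_sup hS hF hcN hNF ?_
  have hfocS : F.focalSubgroup ≤ S := by
    rw [focal_eq_hyp_sup hS hF]
    refine sup_le hyp_le_S ?_
    rw [← Subgroup.map_subtype_commutator]
    exact Subgroup.map_subtype_le _
  have hNS : N.focalSubgroup ≤ S := hNF.trans hfocS
  intro w hw
  by_contra hwn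
  have hwS : w ∈ S := hfocS hw
  haveI : Group.IsNilpotent ↥S := hS.isNilpotent
  haveI : (N.focalSubgroup.subgroupOf S).Normal := by
    constructor
    intro t ht s
    rw [Subgroup.mem_subgroupOf] at ht ⊢
    have h1 := Subgroup.mul_mem _ (hcN (Subgroup.commutator_mem_commutator s.2 t.2)) ht
    have e : ⁅(s : Ω), (t : Ω)⁆ * (t : Ω) = (s : Ω) * t * (s : Ω)⁻¹ := by
      simp only [commutatorElement_def]
      group
    rw [e] at h1
    exact h1
  let R₁ : Subgroup ↥S := frattini ↥S ⊔ N.focalSubgroup.subgroupOf S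
  have hR₁c : ∀ a b : ↥S, ⁅a, b⁆ ∈ R₁ := fun a b => Subgroup.mem_sup_left
    ((Cfsg.Agent.Lib.Basic.commutator_le_frattini_of_isNilpotent) (Subgroup.commutator_mem_commutator (Subgroup.mem_top a) (Subgroup.mem_top b)))
  obtain ⟨A', _, e, π, hsurj, hker, -⟩ := exists_comm_quotient hS R₁ hR₁c
  have hexp' : ∀ a : Additive A', p • a = 0 := by
    intro a
    obtain ⟨y, hy⟩ := hsurj (Additive.toMul a)
    have hya : a = Additive.ofMul (π y) := by rw [hy]; rfl
    rw [hya]
    have h1 : π (y ^ p) = 1 := by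
      rw [← MonoidHom.mem_ker, hker]
      exact Subgroup.mem_sup_left (Cfsg.Agent.Lib.Basic.pow_mem_frattini_of_isPGroup hS y)
    rw [map_pow] at h1
    exact congrArg Additive.ofMul h1
  have hw1 : π ⟨w, hwS⟩ ≠ 1 := by
    intro h
    rw [← MonoidHom.mem_ker, hker] at h
    apply hwn
    have h2 : w ∈ R₁.map S.subtype := ⟨_, h, rfl⟩
    rw [Subgroup.map_sup, Subgroup.subgroupOf_map_subtype, inf_eq_left.2 hNS] at h2
    exact h2
  obtain ⟨φ, hφ⟩ := exists_functional hexp' (v := Additive.ofMul (π ⟨w, hwS⟩)) hw1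
  let lam : ↥S →* Multiplicative (ZMod p) := MonoidHom.mk' (fun y => Multiplicative.ofAdd (φ (Additive.ofMul (π y)))) (by
    intro a b
    rw [map_mul, ofMul_mul, map_add, ofAdd_add])
  have h3 := hall lam (fun y hy => by
    have h4 : π y = 1 := by
      rw [← MonoidHom.mem_ker, hker]
      exact Subgroup.mem_sup_right hy
    show Multiplicative.ofAdd (φ (Additive.ofMul (π y))) = 1
    rw [h4]
    show Multiplicative.ofAdd (φ 0) = 1
    rw [map_zero]
    rfl) ⟨w, hwS⟩ hw
  exact hφ h3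

/-- **Yoshida's theorem for fusion systems.** -/
theorem yoshida [Finite S] (hS : IsPGroup p S) (hF : F.IsSaturated p) (N : FusionSystem (normalizerIn S S))
    (hN : F.IsNormalizerSystem S N) (hne : N.focalSubgroup ≠ F.focalSubgroup) : HasWreathQuot p ↥S := by
  by_contra hnw
  apply hne
  refine le_antisymm ?_ (focal_le_of_no_wreath hS hF hnw N hN)
  rw [focalSubgroup, Subgroup.closure_le]
  rintro _ ⟨P, φ, x, hφ, rfl⟩
  rw [hN P] at hφ
  exact Subgroup.subset_closure ⟨P, φ, x, hφ.1, rfl⟩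


end Cfsg.Agent.Lib.Fusion2
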